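import Mathlib
import Cfsg.Agent.Helper10.O7920Defs

/-!
# PIECE C45D of CALL S2490 (helper10): for `n₁₁ = 45` the even elements of `N_G(P)` centralize
the Sylow `11`-subgroup `P` (helper80)
-/

set_option autoImplicit false

namespace Cfsg.Agent.Helper80.O7920C45D

open Subgroup Cfsg.Agent.Helper10.O7920

-- piece C45D
theorem c45d {G : Type*} [Group G] [Finite G] (hG : Nat.card G = 7920)
    (h45 : Nat.card (Sylow 11 G) = 45) (hb : C45bStmt G) (hc : C45cStmt G) (P : Sylow 11 G) :
    evenSub G ⊓ normalizer ((P : Subgroup G) : Set G) ≤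
      centralizer ((P : Subgroup G) : Set G) := by
  have hfact : Fact (Nat.Prime 11) := ⟨by norm_num⟩
  intro g hg
  obtain ⟨hge, hgN⟩ := Subgroup.mem_inf.mp hg
  have hN : Nat.card (normalizer ((P : Subgroup G) : Set G)) = 176 := by
    have h := card_normalizer_mul_n11 hG P
    rw [h45] at h
    omega
  have hg176 : g ^ 176 = 1 := by
    have h1 : (⟨g, hgN⟩ : normalizer ((P : Subgroup G) : Set G)) ^ 176 = 1 := by
      rw [← hN]
      exact pow_card_eq_one'
    have h2 := congrArg Subtype.val h1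
    simpa using h2
  have hP11 := sylow11_card hG P
  -- the `11`-part
  have ha : g ^ 16 ∈ centralizer ((P : Subgroup G) : Set G) := by
    have h11 : (g ^ 16) ^ 11 = 1 := by
      rw [← pow_mul]
      exact hg176
    have hz : IsPGroup 11 (zpowers (g ^ 16)) := by
      have hd : orderOf (g ^ 16) ∣ 11 := orderOf_dvd_of_pow_eq_one h11
      rcases (Nat.dvd_prime (by norm_num)).mp hd with h | h
      · exact IsPGroup.of_card (n := 0) (by rw [Nat.card_zpowers, h, pow_zero])
      · exact IsPGroup.of_card (n := 1) (by rw [Nat.card_zpowers, h, pow_one])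
    have hle : zpowers (g ^ 16) ≤ normalizer ((P : Subgroup G) : Set G) :=
      (Subgroup.zpowers_le).mpr (pow_mem hgN 16)
    have h1 := Cfsg.Agent.Helper9.OrdTools.mem_sylow_of_mem_normalizer P hz hle
    exact Cfsg.Agent.Helper9.OrdTools.le_centralizer_of_prime P hP11
      (h1 (Subgroup.mem_zpowers _))
  -- the `2`-part
  have hb' : g ^ 11 ∈ centralizer ((P : Subgroup G) : Set G) := by
    have h16 : (g ^ 11) ^ 16 = 1 := by
      rw [← pow_mul]
      exact hg176
    have hd : orderOf (g ^ 11) ∣ 2 ^ 4 := orderOf_dvd_of_pow_eq_one h16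
    obtain ⟨k, hk, hk'⟩ := (Nat.dvd_prime_pow Nat.prime_two).mp hd
    have hev : g ^ 11 ∈ evenSub G := pow_mem hge 11
    have hnn : g ^ 11 ∈ normalizer ((P : Subgroup G) : Set G) := pow_mem hgN 11
    interval_cases k
    · have h1 : g ^ 11 = 1 := orderOf_eq_one_iff.mp (by simpa using hk')
      rw [h1]
      exact one_mem _
    · exact hb _ (by simpa using hk') hev P hnn
    · exact absurd hnn (hc _ (by rw [hk']; norm_num) hev P)
    · have h4 : orderOf ((g ^ 11) ^ 2) = 4 := by
        rw [orderOf_pow_of_dvd (by norm_num) (by rw [hk']; norm_num), hk']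
        norm_num
      exact absurd (pow_mem hnn 2) (hc _ h4 (pow_mem hev 2) P)
    · have h4 : orderOf ((g ^ 11) ^ 4) = 4 := by
        rw [orderOf_pow_of_dvd (by norm_num) (by rw [hk']; norm_num), hk']
        norm_num
      exact absurd (pow_mem hnn 4) (hc _ h4 (pow_mem hev 4) P)
  have hcomb : g = (g ^ 11) ^ 3 * ((g ^ 16) ^ 2)⁻¹ := by
    rw [← pow_mul, ← pow_mul, eq_mul_inv_iff_mul_eq, ← pow_succ']
  rw [hcomb]
  exact mul_mem (pow_mem hb' 3) (inv_mem (pow_mem ha 2))

end Cfsg.Agent.Helper80.O7920C45D
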