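import Mathlib
import Cfsg.Agent.Helper12.AMDefs

/-!
# PIECE AG3 of CALL S2506 (helper12): two semiregular permutations of a `3`-set agreeing at
one point agree on the set (helper80)
-/

set_option autoImplicit false

namespace Cfsg.Agent.Helper80.AMAG3

open Cfsg.Agent.Helper12.AM

variable {α : Type*} [Fintype α] [DecidableEq α]

/-- A semiregular permutation of `{x, y, z}` mapping `x` to `y` is the cycle `x ↦ y ↦ z ↦ x`. -/
theorem cycle_three {β : Type*} (O : Finset β) (g : Equiv.Perm β) (hg : ∀ u ∈ O, g u ∈ O)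
    (hgs : ∀ u ∈ O, g u = u → ∀ v ∈ O, g v = v) (x y z : β) (hx : x ∈ O) (hy : y ∈ O)
    (hz : z ∈ O) (hxy : x ≠ y) (hxz : x ≠ z) (hyz : y ≠ z)
    (hmem : ∀ u ∈ O, u = x ∨ u = y ∨ u = z) (hgx : g x = y) : g y = z ∧ g z = x := by
  have hinj := g.injective
  rcases hmem _ (hg y hy) with h1 | h1 | h1
  · exfalso
    rcases hmem _ (hg z hz) with h2 | h2 | h2
    · exact hyz (hinj (h1.trans h2.symm))
    · exact hxz (hinj (hgx.trans h2.symm))
    · exact hxy ((hgs z hz h2 x hx).symm.trans hgx)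
  · exfalso
    exact hxy ((hgs y hy h1 x hx).symm.trans hgx)
  · refine ⟨h1, ?_⟩
    rcases hmem _ (hg z hz) with h2 | h2 | h2
    · exact h2
    · exact absurd (hinj (hgx.trans h2.symm)) hxz
    · exact absurd (hinj (h1.trans h2.symm)) hyz

-- PIECE AG3
theorem agree_three {β : Type*} [DecidableEq β] (O : Finset β) (hO : O.card = 3)
    (g h : Equiv.Perm β) (hg : ∀ u ∈ O, g u ∈ O) (hh : ∀ u ∈ O, h u ∈ O)
    (hgs : ∀ u ∈ O, g u = u → ∀ v ∈ O, g v = v) (hhs : ∀ u ∈ O, h u = u → ∀ v ∈ O, h v = v)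
    (x : β) (hx : x ∈ O) (hgh : g x = h x) : ∀ v ∈ O, g v = h v := by
  have hcard : (O.erase x).card = 2 := by
    rw [Finset.card_erase_of_mem hx, hO]
  obtain ⟨y, z, hyz, hE⟩ := Finset.card_eq_two.mp hcard
  have hyE : y ∈ O.erase x := by rw [hE]; simp
  have hzE : z ∈ O.erase x := by rw [hE]; simp
  have hy : y ∈ O := Finset.mem_of_mem_erase hyE
  have hz : z ∈ O := Finset.mem_of_mem_erase hzE
  have hxy : x ≠ y := (Finset.ne_of_mem_erase hyE).symm
  have hxz : x ≠ z := (Finset.ne_of_mem_erase hzE).symm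
  have hmem : ∀ u ∈ O, u = x ∨ u = y ∨ u = z := by
    intro u hu
    by_cases hux : u = x
    · exact Or.inl hux
    · right
      have : u ∈ O.erase x := Finset.mem_erase.mpr ⟨hux, hu⟩
      rw [hE] at this
      simpa using this
  have hmem' : ∀ u ∈ O, u = x ∨ u = z ∨ u = y := by
    intro u hu
    rcases hmem u hu with h1 | h1 | h1
    · exact Or.inl h1
    · exact Or.inr (Or.inr h1)
    · exact Or.inr (Or.inl h1)
  intro v hv
  rcases hmem _ (hg x hx) with h1 | h1 | h1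
  · rw [hgs x hx h1 v hv, hhs x hx (hgh ▸ h1) v hv]
  · obtain ⟨g1, g2⟩ := cycle_three O g hg hgs x y z hx hy hz hxy hxz hyz hmem h1
    obtain ⟨k1, k2⟩ := cycle_three O h hh hhs x y z hx hy hz hxy hxz hyz hmem (hgh ▸ h1)
    rcases hmem v hv with rfl | rfl | rfl
    · exact hgh
    · rw [g1, k1]
    · rw [g2, k2]
  · obtain ⟨g1, g2⟩ := cycle_three O g hg hgs x z y hx hz hy hxz hxy hyz.symm hmem' h1
    obtain ⟨k1, k2⟩ := cycle_three O h hh hhs x z y hx hz hy hxz hxy hyz.symm hmem' (hgh ▸ h1)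
    rcases hmem v hv with rfl | rfl | rfl
    · exact hgh
    · rw [g2, k2]
    · rw [g1, k1]

end Cfsg.Agent.Helper80.AMAG3
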