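import Mathlib
import Cfsg.Agent.Helper12.AMDefs

/-!
# PIECE AG4 of CALL S2506 (helper12): two semiregular involutions of a `4`-set agreeing at
one point agree on the set (helper80)
-/

set_option autoImplicit false
set_option linter.unusedVariables false

namespace Cfsg.Agent.Helper80.AMAG4

open Cfsg.Agent.Helper12.AM

variable {α : Type*} [Fintype α] [DecidableEq α]

/-- A semiregular involution of `{x, y, z, w}` mapping `x` to `y` swaps `x, y` and `z, w`. -/
theorem invol_four {β : Type*} (O : Finset β) (g : Equiv.Perm β) (hg : ∀ u ∈ O, g u ∈ O)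
    (hgs : ∀ u ∈ O, g u = u → ∀ v ∈ O, g v = v) (hg2 : ∀ u ∈ O, g (g u) = u)
    (x y z w : β) (hx : x ∈ O) (hy : y ∈ O) (hz : z ∈ O) (hw : w ∈ O)
    (hxy : x ≠ y) (hxz : x ≠ z) (hyz : y ≠ z)
    (hmem : ∀ u ∈ O, u = x ∨ u = y ∨ u = z ∨ u = w) (hgx : g x = y) :
    g y = x ∧ g z = w ∧ g w = z := by
  have hinj := g.injective
  have hgy : g y = x := by
    rw [← hgx]
    exact hg2 x hx
  have hgz : g z = w := by
    rcases hmem _ (hg z hz) with h1 | h1 | h1 | h1
    · exact absurd (hinj (hgy.trans h1.symm)) hyz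
    · exact absurd (hinj (hgx.trans h1.symm)) hxz
    · exact absurd ((hgs z hz h1 x hx).symm.trans hgx) hxy
    · exact h1
  refine ⟨hgy, hgz, ?_⟩
  rw [← hgz]
  exact hg2 z hz

-- PIECE AG4
theorem agree_four {β : Type*} [DecidableEq β] (O : Finset β) (hO : O.card = 4)
    (g h : Equiv.Perm β) (hg : ∀ u ∈ O, g u ∈ O) (hh : ∀ u ∈ O, h u ∈ O)
    (hgs : ∀ u ∈ O, g u = u → ∀ v ∈ O, g v = v) (hhs : ∀ u ∈ O, h u = u → ∀ v ∈ O, h v = v)
    (hg2 : ∀ u ∈ O, g (g u) = u) (hh2 : ∀ u ∈ O, h (h u) = u)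
    (x : β) (hx : x ∈ O) (hgh : g x = h x) : ∀ v ∈ O, g v = h v := by
  have hcard : (O.erase x).card = 3 := by
    rw [Finset.card_erase_of_mem hx, hO]
  obtain ⟨a, b, c, hab, hac, hbc, hE⟩ := Finset.card_eq_three.mp hcard
  have haE : a ∈ O.erase x := by rw [hE]; simp
  have hbE : b ∈ O.erase x := by rw [hE]; simp
  have hcE : c ∈ O.erase x := by rw [hE]; simp
  have ha : a ∈ O := Finset.mem_of_mem_erase haE
  have hb : b ∈ O := Finset.mem_of_mem_erase hbE
  have hc : c ∈ O := Finset.mem_of_mem_erase hcE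
  have hxa : x ≠ a := (Finset.ne_of_mem_erase haE).symm
  have hxb : x ≠ b := (Finset.ne_of_mem_erase hbE).symm
  have hxc : x ≠ c := (Finset.ne_of_mem_erase hcE).symm
  have hmem : ∀ u ∈ O, u = x ∨ u = a ∨ u = b ∨ u = c := by
    intro u hu
    by_cases hux : u = x
    · exact Or.inl hux
    · right
      have : u ∈ O.erase x := Finset.mem_erase.mpr ⟨hux, hu⟩
      rw [hE] at this
      simpa using this
  intro v hv
  rcases hmem _ (hg x hx) with h1 | h1 | h1 | h1
  · rw [hgs x hx h1 v hv, hhs x hx (hgh ▸ h1) v hv]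
  · obtain ⟨g1, g2, g3⟩ := invol_four O g hg hgs hg2 x a b c hx ha hb hc hxa hxb hab hmem h1
    obtain ⟨k1, k2, k3⟩ := invol_four O h hh hhs hh2 x a b c hx ha hb hc hxa hxb hab hmem
      (hgh ▸ h1)
    rcases hmem v hv with rfl | rfl | rfl | rfl
    · exact hgh
    · rw [g1, k1]
    · rw [g2, k2]
    · rw [g3, k3]
  · have hmem' : ∀ u ∈ O, u = x ∨ u = b ∨ u = a ∨ u = c := by
      intro u hu
      rcases hmem u hu with h2 | h2 | h2 | h2
      · exact Or.inl h2
      · exact Or.inr (Or.inr (Or.inl h2))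
      · exact Or.inr (Or.inl h2)
      · exact Or.inr (Or.inr (Or.inr h2))
    obtain ⟨g1, g2, g3⟩ := invol_four O g hg hgs hg2 x b a c hx hb ha hc hxb hxa hab.symm hmem' h1
    obtain ⟨k1, k2, k3⟩ := invol_four O h hh hhs hh2 x b a c hx hb ha hc hxb hxa hab.symm hmem'
      (hgh ▸ h1)
    rcases hmem v hv with rfl | rfl | rfl | rfl
    · exact hgh
    · rw [g2, k2]
    · rw [g1, k1]
    · rw [g3, k3]
  · have hmem' : ∀ u ∈ O, u = x ∨ u = c ∨ u = a ∨ u = b := by
      intro u hu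
      rcases hmem u hu with h2 | h2 | h2 | h2
      · exact Or.inl h2
      · exact Or.inr (Or.inr (Or.inl h2))
      · exact Or.inr (Or.inr (Or.inr h2))
      · exact Or.inr (Or.inl h2)
    obtain ⟨g1, g2, g3⟩ := invol_four O g hg hgs hg2 x c a b hx hc ha hb hxc hxa hac.symm hmem' h1
    obtain ⟨k1, k2, k3⟩ := invol_four O h hh hhs hh2 x c a b hx hc ha hb hxc hxa hac.symm hmem'
      (hgh ▸ h1)
    rcases hmem v hv with rfl | rfl | rfl | rfl
    · exact hgh
    · rw [g2, k2]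
    · rw [g3, k3]
    · rw [g1, k1]

end Cfsg.Agent.Helper80.AMAG4
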