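import Cfsg.Agent.Helper16.D8Core
import Cfsg.Agent.Helper79.Linear

/-!
# PIECE LIN of CALL S3716 (helper16): a non-abelian group with a non-trivial linear character
is not simple (helper80)
-/

set_option autoImplicit false

namespace Cfsg.Agent.Helper80

open Cfsg Cfsg.Agent.Helper16 DihedralGroup
open scoped ComplexConjugate

/-- PIECE LIN of CALL S3716. -/
theorem d8_not_simple_of_linear {G : Type*} [Group G] [Finite G] (X : IrrCharacter G)
    (h1 : (X : G → ℂ) 1 = 1) (hne : (X : G → ℂ) ≠ (fun _ => (1 : ℂ))) (a b : G)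
    (hab : a * b ≠ b * a) : ¬ IsSimpleGroup G := by
  intro hs
  obtain ⟨f, hf⟩ := Helper79.isCharacter_linear (Helper79.irr_isCharacter X) h1
  rcases (MonoidHom.normal_ker f).eq_bot_or_eq_top with h | h
  · have hc : a * b * a⁻¹ * b⁻¹ ∈ f.ker := by
      rw [MonoidHom.mem_ker, map_mul, map_mul, map_mul, map_inv, map_inv]
      rw [mul_comm (f a) (f b), mul_assoc (f b), mul_inv_cancel, mul_one, mul_inv_cancel]
    rw [h, Subgroup.mem_bot] at hc
    apply hab
    calc a * b = (a * b * a⁻¹ * b⁻¹) * (b * a) := by group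
      _ = b * a := by rw [hc, one_mul]
  · apply hne
    funext g
    have hg : g ∈ f.ker := by
      rw [h]
      exact Subgroup.mem_top g
    rw [MonoidHom.mem_ker] at hg
    rw [hf g, hg]
    rfl

end Cfsg.Agent.Helper80
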