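import Cfsg.Agent.Helper80.McLG

/-!
# Thin transvection systems: the spade lemma (piece H of S5075)

For a hyperbolic pair `(φ, v)`, `(ψ, w)` of a thin symmetric system in characteristic `≠ 2`,
`P = span {v, w}`, `K = ker φ ⊓ ker ψ`: a functional with centre `x + y` (`x ∈ P`, `y ∈ K`
both nonzero) splits as `χP + χK` with `χP` of centre `x` vanishing on `K` and `χK` of
centre `y` vanishing on `P`.
-/

set_option autoImplicit false

namespace Cfsg.Agent.Helper80.McL

open Module Cfsg.Agent.Helper71.McL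

variable {F V : Type*} [Field F] [AddCommGroup V] [Module F V]

/-- **Piece H.** The spade lemma. -/
theorem spade (S : TSys F V) (h2 : (2 : F) ≠ 0) (hT : S.Thin) (hsym : S.Sym) {φ ψ : Dual F V} {v w : V} (h1 : S.Θ φ v) (hw : S.Θ ψ w) (hφw : φ w ≠ 0) (hψv : ψ v ≠ 0) {x y : V} (hx : x ∈ Submodule.span F {v, w}) (hx0 : x ≠ 0) (hy : y ∈ LinearMap.ker φ ⊓ LinearMap.ker ψ) (hy0 : y ≠ 0) (χ : Dual F V) (hχ : S.Θ χ (x + y)) : ∃ χP χK : Dual F V, χ = χP + χK ∧ S.Θ χP x ∧ S.Θ χK y ∧ (∀ k ∈ LinearMap.ker φ ⊓ LinearMap.ker ψ, χP k = 0) ∧ (∀ q ∈ Submodule.span F {v, w}, χK q = 0) := by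
  by_cases hχ0 : χ = 0
  · refine ⟨0, 0, ?_, S.zero_left x, S.zero_left y, ?_, ?_⟩
    · rw [hχ0, add_zero]
    · intro k _
      exact LinearMap.zero_apply k
    · intro q _
      exact LinearMap.zero_apply q
  have hφv : φ v = 0 := S.vanish h1
  have hψw : ψ w = 0 := S.vanish hw
  obtain ⟨hcompl, hPS⟩ := plane_struct S hT h1 hw hφw hψv
  obtain ⟨hyφ, hyψ⟩ := Submodule.mem_inf.mp hy
  have hφy : φ y = 0 := LinearMap.mem_ker.mp hyφ
  have hψy : ψ y = 0 := LinearMap.mem_ker.mp hyψ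
  -- `x + y ≠ 0`
  have hxy0 : x + y ≠ 0 := by
    intro h0
    have hxK : x ∈ LinearMap.ker φ ⊓ LinearMap.ker ψ := by
      have h3 : x = -y := eq_neg_of_add_eq_zero_left h0
      rw [h3]
      exact Submodule.neg_mem _ hy
    have hx' : x ∈ Submodule.span F {v, w} ⊓ (LinearMap.ker φ ⊓ LinearMap.ker ψ) :=
      Submodule.mem_inf.mpr ⟨hx, hxK⟩
    rw [hcompl.inf_eq_bot, Submodule.mem_bot] at hx'
    exact hx0 hx'
  have hC1 : S.IsCenter (x + y) := ⟨hxy0, χ, hχ0, hχ⟩
  obtain ⟨a, b, hab⟩ := Submodule.mem_span_pair.mp hx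
  -- `x` is a centre
  have hC2 : S.IsCenter x := by
    refine ⟨hx0, (a * ψ v) • φ + (-(b * φ w)) • ψ, ?_, ?_⟩
    · intro h
      have e1 : ((a * ψ v) • φ + (-(b * φ w)) • ψ) w = 0 := by rw [h, LinearMap.zero_apply]
      have e2 : ((a * ψ v) • φ + (-(b * φ w)) • ψ) v = 0 := by rw [h, LinearMap.zero_apply]
      simp only [LinearMap.add_apply, LinearMap.smul_apply, smul_eq_mul, hφv, hψw, mul_zero,
        zero_add, add_zero] at e1 e2
      have ha : a = 0 := by
        rcases mul_eq_zero.mp e1 with h' | h'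
        · exact (mul_eq_zero.mp h').resolve_right hψv
        · exact absurd h' hφw
      have hb : b = 0 := by
        rcases mul_eq_zero.mp e2 with h' | h'
        · exact (mul_eq_zero.mp (neg_eq_zero.mp h')).resolve_right hφw
        · exact absurd h' hψv
      apply hx0
      rw [← hab, ha, hb, zero_smul, zero_smul, add_zero]
    · rw [← hab]
      apply sl2 S h1 hw hφw hψv
      simp only [LinearMap.add_apply, LinearMap.smul_apply, map_add, map_smul, smul_eq_mul,
        hφv, hψw, mul_zero, zero_add, add_zero]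
      ring
  -- `χ x = 0`
  have hχx : χ x = 0 := by
    by_contra hne
    obtain ⟨χ1, hχ1, hχ1xy⟩ := hsym (x + y) x hC1 hC2 ⟨χ, hχ, hne⟩
    obtain ⟨e1, e2⟩ := (hPS x hx hx0 χ1).mp hχ1
    apply hχ1xy
    rw [map_add, e1, e2 y hy, add_zero]
  have hχy : χ y = 0 := by
    have h3 := S.vanish hχ
    rw [map_add, hχx, zero_add] at h3
    exact h3
  -- the two components
  have hPK : ∀ k ∈ LinearMap.ker φ ⊓ LinearMap.ker ψ,
      ((χ v / ψ v) • ψ + (χ w / φ w) • φ) k = 0 := by
    intro k hk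
    obtain ⟨hkφ, hkψ⟩ := Submodule.mem_inf.mp hk
    have hk1 : φ k = 0 := LinearMap.mem_ker.mp hkφ
    have hk2 : ψ k = 0 := LinearMap.mem_ker.mp hkψ
    simp only [LinearMap.add_apply, LinearMap.smul_apply, smul_eq_mul, hk1, hk2, mul_zero,
      add_zero]
  have hPP : ∀ q ∈ Submodule.span F {v, w},
      ((χ v / ψ v) • ψ + (χ w / φ w) • φ) q = χ q := by
    intro q hq
    obtain ⟨c, e, rfl⟩ := Submodule.mem_span_pair.mp hq
    simp only [LinearMap.add_apply, LinearMap.smul_apply, map_add, map_smul, smul_eq_mul, hφv,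
      hψw, mul_zero, zero_add, add_zero]
    field_simp
  have hΘP : S.Θ ((χ v / ψ v) • ψ + (χ w / φ w) • φ) x := by
    refine (hPS x hx hx0 _).mpr ⟨?_, hPK⟩
    rw [hPP x hx, hχx]
  refine ⟨(χ v / ψ v) • ψ + (χ w / φ w) • φ, χ - ((χ v / ψ v) • ψ + (χ w / φ w) • φ), ?_, hΘP,
    ?_, hPK, ?_⟩
  · abel
  · -- the conjugate of `(χ, x + y)` by `-1` of the `SL₂` of the plane
    have hneg := S.neg h1 hw hφw hψv hχ
    have ev : x + y - (2 * ψ (x + y) / ψ v) • v - (2 * φ (x + y) / φ w) • w = y - x := by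
      have e1 : 2 * ψ (x + y) / ψ v = 2 * a := by
        rw [map_add, hψy, add_zero, ← hab, map_add, map_smul, map_smul, hψw, smul_zero,
          add_zero, smul_eq_mul]
        field_simp
      have e2 : 2 * φ (x + y) / φ w = 2 * b := by
        rw [map_add, hφy, add_zero, ← hab, map_add, map_smul, map_smul, hφv, smul_zero,
          zero_add, smul_eq_mul]
        field_simp
      rw [e1, e2, ← hab, mul_smul, mul_smul]
      have e3 : (2 : F) • a • v = a • v + a • v := by rw [two_smul]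
      have e4 : (2 : F) • b • w = b • w + b • w := by rw [two_smul]
      rw [e3, e4]
      abel
    have ef : χ - (2 * χ v / ψ v) • ψ - (2 * χ w / φ w) • φ =
        χ - (2 : F) • ((χ v / ψ v) • ψ + (χ w / φ w) • φ) := by
      rw [smul_add, smul_smul, smul_smul, mul_div_assoc, mul_div_assoc]
      abel
    rw [ev, ef] at hneg
    have hprod : S.Θ ((2 : F) • (χ - ((χ v / ψ v) • ψ + (χ w / φ w) • φ))) y := by
      refine S.prod (φ₁ := χ) (φ₂ := χ - (2 : F) • ((χ v / ψ v) • ψ + (χ w / φ w) • φ))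
        (φ₃ := (2 : F) • ((χ v / ψ v) • ψ + (χ w / φ w) • φ))
        (v₁ := x + y) (v₂ := y - x) (v₃ := x) hχ hneg (S.smul_left 2 hΘP) ?_ ?_ ?_ ?_
      · rw [map_sub, hχx, hχy, sub_zero]
      · rw [LinearMap.smul_apply, LinearMap.sub_apply, hχy, hPK y hy, sub_zero, smul_zero]
      · rw [LinearMap.smul_apply, hPK y hy, smul_zero]
      · intro t
        simp only [LinearMap.sub_apply, LinearMap.smul_apply, smul_eq_mul]
        generalize ((χ v / ψ v) • ψ + (χ w / φ w) • φ) t = p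
        generalize χ t = c
        module
    have h3 := S.smul_left (2 : F)⁻¹ hprod
    rwa [smul_smul, inv_mul_cancel₀ h2, one_smul] at h3
  · intro q hq
    rw [LinearMap.sub_apply, hPP q hq, sub_self]

end Cfsg.Agent.Helper80.McL
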