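import Cfsg.Agent.Helper25.Bsw2

set_option autoImplicit false

/-! PIECE F5 of CALL S3282 (helper25): structure of the centralizer of a "real" element
outside the conjugates of `K` in the abstract Brauer–Suzuki–Wall setting. -/

namespace Cfsg.Agent.Helper80

open Cfsg.Agent.Helper25 Subgroup

section

variable {G : Type*} [Group G]

/-- An involution acting without fixed points on a finite subgroup it normalizes inverts it;
the subgroup is then abelian of odd order. -/
theorem bswF5_invol_fpf [Finite G] (A : Subgroup G) (w : G) (hw : w * w = 1)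
    (hN : ∀ a ∈ A, w * a * w⁻¹ ∈ A) (hfpf : ∀ a ∈ A, w * a * w⁻¹ = a → a = 1) :
    (∀ a ∈ A, w * a * w⁻¹ = a⁻¹) ∧ (∀ a ∈ A, ∀ b ∈ A, a * b = b * a) ∧ Odd (Nat.card A) := by
  let φ : A →* A :=
    { toFun := fun a => ⟨w * a.1 * w⁻¹, hN a.1 a.2⟩
      map_one' := by apply Subtype.ext; simp
      map_mul' := by
        intro a b; apply Subtype.ext
        show w * (a.1 * b.1) * w⁻¹ = w * a.1 * w⁻¹ * (w * b.1 * w⁻¹)
        group }
  have hφ : MonoidHom.FixedPointFree φ := by
    intro a ha
    have := congrArg Subtype.val ha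
    exact Subtype.ext (hfpf a.1 a.2 this)
  have winv : w⁻¹ = w := inv_eq_of_mul_eq_one_left hw
  have h2 : Function.Involutive φ := by
    intro a
    apply Subtype.ext
    show w * (w * a.1 * w⁻¹) * w⁻¹ = a.1
    rw [winv]
    calc w * (w * a.1 * w) * w = (w * w) * a.1 * (w * w) := by group
      _ = a.1 := by rw [hw]; group
  refine ⟨?_, ?_, hφ.odd_card_of_involutive h2⟩
  · intro a ha
    have := congrFun (hφ.coe_eq_inv_of_involutive h2) ⟨a, ha⟩
    exact congrArg Subtype.val this
  · intro a ha b hb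
    have := hφ.commute_all_of_involutive h2 ⟨a, ha⟩ ⟨b, hb⟩
    exact congrArg Subtype.val this.eq

/-- A group acting freely by conjugation on the non-identity elements of a subgroup has
order dividing the order of the subgroup minus one. -/
theorem bswF5_free_dvd [Finite G] (A L : Subgroup G) (hN : ∀ l ∈ L, ∀ a ∈ A, l * a * l⁻¹ ∈ A)
    (hfree : ∀ l ∈ L, ∀ a ∈ A, a ≠ 1 → l * a * l⁻¹ = a → l = 1) :
    Nat.card L ∣ Nat.card A - 1 := by
  classical
  let _ : MulAction L {a : A // a ≠ 1} :=
    { smul := fun l a => ⟨⟨l.1 * a.1.1 * l.1⁻¹, hN l.1 l.2 a.1.1 a.1.2⟩, by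
        intro e
        apply a.2
        apply Subtype.ext
        have e' : l.1 * a.1.1 * l.1⁻¹ = 1 := congrArg Subtype.val e
        have : a.1.1 = l.1⁻¹ * (l.1 * a.1.1 * l.1⁻¹) * l.1 := by group
        rw [this, e']; simp⟩
      one_smul := by
        intro a
        apply Subtype.ext; apply Subtype.ext
        show (1 : G) * a.1.1 * (1 : G)⁻¹ = a.1.1
        group
      mul_smul := by
        intro l m a
        apply Subtype.ext; apply Subtype.ext
        show (l.1 * m.1) * a.1.1 * (l.1 * m.1)⁻¹ = l.1 * (m.1 * a.1.1 * m.1⁻¹) * l.1⁻¹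
        group }
  have hstab : ∀ b : {a : A // a ≠ 1}, MulAction.stabilizer L b = ⊥ := by
    intro b
    rw [eq_bot_iff]
    intro l hl
    rw [MulAction.mem_stabilizer_iff] at hl
    rw [Subgroup.mem_bot]
    apply Subtype.ext
    have e : l.1 * b.1.1 * l.1⁻¹ = b.1.1 := congrArg (fun z : {a : A // a ≠ 1} => z.1.1) hl
    exact hfree l.1 l.2 b.1.1 b.1.2 (fun e1 => b.2 (Subtype.ext e1)) e
  have e := MulAction.selfEquivOrbitsQuotientProd hstab
  have hc : Nat.card {a : A // a ≠ 1} =
      Nat.card (Quotient (MulAction.orbitRel L {a : A // a ≠ 1})) * Nat.card L := by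
    rw [Nat.card_congr e, Nat.card_prod]
  have hX : Nat.card {a : A // a ≠ 1} = Nat.card A - 1 := by
    have : Fintype A := Fintype.ofFinite _
    rw [Nat.card_eq_fintype_card, Nat.card_eq_fintype_card, Fintype.card_subtype_compl,
      Fintype.card_subtype_eq]
  rw [← hX, hc]
  exact Dvd.intro_left _ rfl

/-- Every element of a subgroup of odd order is a square. -/
theorem bswF5_sqrt [Finite G] (A : Subgroup G) (hodd : Odd (Nat.card A)) {a : G} (ha : a ∈ A) :
    ∃ b ∈ A, b * b = a := by
  obtain ⟨m, hm⟩ := hodd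
  refine ⟨a ^ (m + 1), A.pow_mem ha _, ?_⟩
  have h1 : a ^ Nat.card A = 1 := by
    have h1 : (⟨a, ha⟩ : A) ^ Nat.card A = 1 := pow_card_eq_one'
    have := congrArg (fun z : A => (z : G)) h1
    simp only [Subgroup.coe_pow, Subgroup.coe_one] at this
    exact this
  rw [← pow_add]
  have : m + 1 + (m + 1) = Nat.card A + 1 := by omega
  rw [this, pow_succ, h1, one_mul]

theorem bswF5_mem_cent {g y : G} : y ∈ centralizer ({g} : Set G) ↔ g * y = y * g := by
  rw [mem_centralizer_iff]
  constructor
  · intro h; exact h g rfl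
  · intro h z hz; rw [Set.mem_singleton_iff] at hz; subst hz; exact h

/-- An element inverting `g` normalizes `C(g)`. -/
theorem bswF5_normalizes {g u : G} (hug : u * g * u⁻¹ = g⁻¹) {a : G}
    (ha : a ∈ centralizer ({g} : Set G)) : u * a * u⁻¹ ∈ centralizer ({g} : Set G) := by
  rw [bswF5_mem_cent] at ha ⊢
  have hg' : g = u * g⁻¹ * u⁻¹ := by
    have : u * g⁻¹ * u⁻¹ = (u * g * u⁻¹)⁻¹ := by group
    rw [this, hug, inv_inv]
  have ha' : g⁻¹ * a = a * g⁻¹ := by
    calc g⁻¹ * a = g⁻¹ * (a * g) * g⁻¹ := by group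
      _ = g⁻¹ * (g * a) * g⁻¹ := by rw [ha]
      _ = a * g⁻¹ := by group
  calc g * (u * a * u⁻¹) = u * g⁻¹ * u⁻¹ * (u * a * u⁻¹) := by rw [← hg']
    _ = u * (g⁻¹ * a) * u⁻¹ := by group
    _ = u * (a * g⁻¹) * u⁻¹ := by rw [ha']
    _ = u * a * u⁻¹ * (u * g⁻¹ * u⁻¹) := by group
    _ = u * a * u⁻¹ * g := by rw [← hg']

variable {t s : G} {K : Subgroup G}

/-- `C(g)` contains no involution when `g` is not conjugate into `K`. -/
theorem bswF5_no_invol (h : BswHyp t s K) {g : G} (hg : g ∉ bswCl K) {w : G}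
    (hw : w ∈ centralizer ({g} : Set G)) : orderOf w ≠ 2 := by
  intro h2
  apply hg
  apply h.cent_inv_subset_cl h2
  rw [bswF5_mem_cent]
  exact ((bswF5_mem_cent).1 hw).symm

/-- Non-identity elements of `C(g)` are not conjugate into `K`. -/
theorem bswF5_not_cl (h : BswHyp t s K) {g : G} (hg : g ∉ bswCl K) {y : G}
    (hy : y ∈ centralizer ({g} : Set G)) (hy1 : y ≠ 1) : y ∉ bswCl K := by
  intro hc
  obtain ⟨x, hx, hx'⟩ := h.cent_of_cl hc hy1 (bswF5_no_invol h hg hy)
  apply hg
  refine ⟨x, (hx' g).1 ?_⟩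
  rw [bswF5_mem_cent]
  exact ((bswF5_mem_cent).1 hy).symm

/-- An involution normalizing `C(g)` inverts it. -/
theorem bswF5_invol_inverts [Finite G] (h : BswHyp t s K) {g : G} (hg : g ∉ bswCl K) {w : G}
    (hw : orderOf w = 2)
    (hN : ∀ a ∈ centralizer ({g} : Set G), w * a * w⁻¹ ∈ centralizer ({g} : Set G)) :
    (∀ a ∈ centralizer ({g} : Set G), w * a * w⁻¹ = a⁻¹) ∧
    (∀ a ∈ centralizer ({g} : Set G), ∀ b ∈ centralizer ({g} : Set G), a * b = b * a) ∧
    Odd (Nat.card (centralizer ({g} : Set G))) := by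
  apply bswF5_invol_fpf _ w (bsw_sq_of_order_two hw) hN
  intro a ha hfix
  by_contra ha1
  apply bswF5_not_cl h hg ha ha1
  apply h.cent_inv_subset_cl hw
  rw [bswF5_mem_cent]
  calc w * a = w * a * w⁻¹ * w := by group
    _ = a * w := by rw [hfix]

theorem bswF5_cent_eq [Finite G] (h : BswHyp t s K) {g u : G} (hg : g ∉ bswCl K)
    (hu : orderOf u = 2) (hug : u * g * u⁻¹ = g⁻¹) {y : G}
    (hy : y ∈ centralizer ({g} : Set G)) (hy1 : y ≠ 1) :
    centralizer ({y} : Set G) = centralizer ({g} : Set G) := by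
  have hA := bswF5_invol_inverts h hg hu (fun a ha => bswF5_normalizes hug ha)
  have hyc := bswF5_not_cl h hg hy hy1
  have huy := hA.1 y hy
  have hB := bswF5_invol_inverts h hyc hu (fun a ha => bswF5_normalizes huy ha)
  have hgy : g ∈ centralizer ({y} : Set G) := by
    rw [bswF5_mem_cent]; exact ((bswF5_mem_cent).1 hy).symm
  apply le_antisymm
  · intro z hz
    rw [bswF5_mem_cent]
    exact hB.2.1 g hgy z hz
  · intro z hz
    rw [bswF5_mem_cent]
    exact hA.2.1 y hy z hz

/-- If `w` inverts `C(g)` and `u` inverts `g` then `u * w ∈ C(g)`. -/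
theorem bswF5_mul_mem {g u w : G} (hug : u * g * u⁻¹ = g⁻¹)
    (hw : ∀ a ∈ centralizer ({g} : Set G), w * a * w⁻¹ = a⁻¹) :
    u * w ∈ centralizer ({g} : Set G) := by
  have hwg := hw g (by rw [bswF5_mem_cent])
  rw [bswF5_mem_cent]
  have : u * w * g * (u * w)⁻¹ = g := by
    calc u * w * g * (u * w)⁻¹ = u * (w * g * w⁻¹) * u⁻¹ := by group
      _ = u * g⁻¹ * u⁻¹ := by rw [hwg]
      _ = (u * g * u⁻¹)⁻¹ := by group
      _ = g := by rw [hug, inv_inv]
  calc g * (u * w) = (u * w * g * (u * w)⁻¹) * (u * w) := by rw [this]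
    _ = u * w * g := by group

theorem bswF5_count [Finite G] (h : BswHyp t s K) {g u : G} (hg : g ∉ bswCl K)
    (hu : orderOf u = 2) (hug : u * g * u⁻¹ = g⁻¹) {y : G}
    (hy : y ∈ centralizer ({g} : Set G)) (hy1 : y ≠ 1) :
    bswA y = Nat.card (centralizer ({g} : Set G)) := by
  have hA := bswF5_invol_inverts h hg hu (fun a ha => bswF5_normalizes hug ha)
  have hyc := bswF5_not_cl h hg hy hy1
  have hCy := bswF5_cent_eq h hg hu hug hy hy1
  have huu := bsw_sq_of_order_two hu
  have huinv := bsw_inv_of_order_two hu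
  have hua : ∀ a ∈ centralizer ({g} : Set G), orderOf (u * a) = 2 := by
    intro a ha
    apply bsw_order_two_of_sq
    · intro e
      have hau : a = u := by
        have : a = u⁻¹ * (u * a) := by group
        rw [this, e, mul_one, huinv]
      exact bswF5_no_invol h hg ha (hau ▸ hu)
    · have e := hA.1 a ha
      calc u * a * (u * a) = (u * a * u⁻¹) * (u * u) * a := by group
        _ = 1 := by rw [e, huu]; group
  unfold bswA
  symm
  apply Nat.card_congr
  refine Equiv.ofBijective (fun a : centralizer ({g} : Set G) =>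
    ⟨(u * (a : G), u * (a : G) * y), hua a a.2, ?_, ?_⟩) ⟨?_, ?_⟩
  · have := hua ((a : G) * y) (mul_mem a.2 hy)
    rwa [← mul_assoc] at this
  · show u * (a : G) * (u * (a : G) * y) = y
    have := bsw_sq_of_order_two (hua a a.2)
    calc u * (a : G) * (u * (a : G) * y) = (u * (a : G) * (u * (a : G))) * y := by group
      _ = y := by rw [this, one_mul]
  · intro a b hab
    have := congrArg (fun p => p.1.1) hab
    simp only [mul_right_inj] at this
    exact Subtype.ext this
  · rintro ⟨⟨w, w'⟩, hw, hw', hww⟩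
    simp only at hw hw' hww
    have hwy : w * y * w⁻¹ = y⁻¹ := by
      rw [← hww, bsw_inv_of_order_two hw]
      have e : w * (w * w') * w = (w * w) * w' * w := by group
      rw [e, bsw_sq_of_order_two hw, one_mul]
      have e2 : (w * w')⁻¹ = w'⁻¹ * w⁻¹ := by group
      rw [e2, bsw_inv_of_order_two hw, bsw_inv_of_order_two hw']
    have hB := bswF5_invol_inverts h hyc hw (fun a ha => bswF5_normalizes hwy ha)
    rw [hCy] at hB
    have huw : u * w ∈ centralizer ({g} : Set G) := bswF5_mul_mem hug hB.1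
    refine ⟨⟨u * w, huw⟩, ?_⟩
    apply Subtype.ext
    show (u * (u * w), u * (u * w) * y) = (w, w')
    have e1 : u * (u * w) = w := by rw [← mul_assoc, huu, one_mul]
    rw [e1]
    congr 1
    rw [← hww, ← mul_assoc, bsw_sq_of_order_two hw, one_mul]

end

/-- PIECE F5 of CALL S3282. -/
theorem bsw_F5 {G : Type*} [Group G] [Finite G] {t s : G} {K : Subgroup G} (h : BswHyp t s K) :
    BswF5 K := by
  intro g hg hpos
  obtain ⟨u, v, hu, hv, huv⟩ := (bswA_pos_iff g).1 hpos
  have huu := bsw_sq_of_order_two hu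
  have huinv := bsw_inv_of_order_two hu
  have hug : u * g * u⁻¹ = g⁻¹ := by
    rw [← huv, huinv]
    have e : u * (u * v) * u = (u * u) * v * u := by group
    rw [e, huu, one_mul]
    have e2 : (u * v)⁻¹ = v⁻¹ * u⁻¹ := by group
    rw [e2, huinv, bsw_inv_of_order_two hv]
  have hA := bswF5_invol_inverts h hg hu (fun a ha => bswF5_normalizes hug ha)
  refine ⟨hA.2.1, ?_, ?_⟩
  · intro y hy hy1
    exact ⟨bswF5_not_cl h hg hy hy1, bswF5_cent_eq h hg hu hug hy hy1,
      bswF5_count h hg hu hug hy hy1⟩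
  · obtain ⟨x, hx⟩ := isConj_iff.1 (h.hconj t u h.ht hu)
    have huN : u ∈ normalizer ((centralizer ({g} : Set G) : Subgroup G) : Set G) := by
      rw [mem_normalizer_iff]
      intro a
      constructor
      · intro ha; exact bswF5_normalizes hug ha
      · intro ha
        have := bswF5_normalizes hug ha
        have e : u * (u * a * u⁻¹) * u⁻¹ = a := by
          rw [huinv]
          calc u * (u * a * u) * u = (u * u) * a * (u * u) := by group
            _ = a := by rw [huu]; group
        rwa [e] at this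
    have hmemKu : ∀ z : G, z ∈ K.map (MulAut.conj x).toMonoidHom ↔ x⁻¹ * z * x ∈ K := by
      intro z
      rw [mem_map]
      constructor
      · rintro ⟨k, hk, rfl⟩
        simp only [MulEquiv.coe_toMonoidHom, MulAut.conj_apply]
        have : x⁻¹ * (x * k * x⁻¹) * x = k := by group
        rw [this]; exact hk
      · intro hz
        refine ⟨x⁻¹ * z * x, hz, ?_⟩
        simp only [MulEquiv.coe_toMonoidHom, MulAut.conj_apply]
        group
    have huKu : u ∈ K.map (MulAut.conj x).toMonoidHom := by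
      rw [hmemKu, ← hx]
      have : x⁻¹ * (x * t * x⁻¹) * x = t := by group
      rw [this]; exact h.htK
    have hLcl : ∀ z : G, z ∈ K.map (MulAut.conj x).toMonoidHom → z ∈ bswCl K := by
      intro z hz
      exact ⟨x⁻¹, by rw [inv_inv]; exact (hmemKu z).1 hz⟩
    refine ⟨u, x, normalizer ((centralizer ({g} : Set G) : Subgroup G) : Set G) ⊓
      K.map (MulAut.conj x).toMonoidHom, hu, hA.1, Subgroup.mem_inf.2 ⟨huN, huKu⟩,
      inf_le_right, ?_, ?_, ?_⟩
    · rw [eq_bot_iff]
      intro z hz
      rw [mem_bot]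
      by_contra hz1
      have hz' := Subgroup.mem_inf.1 hz
      exact bswF5_not_cl h hg hz'.1 hz1 (hLcl z (Subgroup.mem_inf.1 hz'.2).2)
    · apply le_antisymm
      · intro n hn
        have hw2 : orderOf (n * u * n⁻¹) = 2 := bsw_order_two_conj n hu
        have hwN : n * u * n⁻¹ ∈
            normalizer ((centralizer ({g} : Set G) : Subgroup G) : Set G) :=
          mul_mem (mul_mem hn huN) (inv_mem hn)
        have hwinv := bswF5_invol_inverts h hg hw2
          (fun a ha => ((mem_normalizer_iff.1 hwN) a).1 ha)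
        have ha' := bswF5_mul_mem hug hwinv.1
        obtain ⟨b, hb, hbb⟩ := bswF5_sqrt _ hA.2.2 (inv_mem ha')
        have hbu : b * u * b⁻¹ = n * u * n⁻¹ := by
          have e1 : u * b * u⁻¹ = b⁻¹ := hA.1 b hb
          have e2 : u⁻¹ * b * u = b⁻¹ := by
            rw [huinv]; rw [huinv] at e1; exact e1
          calc b * u * b⁻¹ = u * (u⁻¹ * b * u) * b⁻¹ := by group
            _ = u * b⁻¹ * b⁻¹ := by rw [e2]
            _ = u * (b * b)⁻¹ := by group
            _ = u * (u * (n * u * n⁻¹)) := by rw [hbb, inv_inv]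
            _ = (u * u) * (n * u * n⁻¹) := by group
            _ = n * u * n⁻¹ := by rw [huu, one_mul]
        have hc_comm : (b⁻¹ * n) * u = u * (b⁻¹ * n) := by
          calc (b⁻¹ * n) * u = b⁻¹ * (n * u * n⁻¹) * n := by group
            _ = b⁻¹ * (b * u * b⁻¹) * n := by rw [hbu]
            _ = u * (b⁻¹ * n) := by group
        have hcN : b⁻¹ * n ∈ normalizer ((centralizer ({g} : Set G) : Subgroup G) : Set G) :=
          mul_mem (inv_mem (le_normalizer hb)) hn
        have hct : x⁻¹ * (b⁻¹ * n) * x ∈ centralizer ({t} : Set G) := by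
          rw [bswF5_mem_cent]
          have ht : t = x⁻¹ * u * x := by rw [← hx]; group
          rw [ht]
          calc x⁻¹ * u * x * (x⁻¹ * (b⁻¹ * n) * x) = x⁻¹ * (u * (b⁻¹ * n)) * x := by group
            _ = x⁻¹ * ((b⁻¹ * n) * u) * x := by rw [hc_comm]
            _ = x⁻¹ * (b⁻¹ * n) * x * (x⁻¹ * u * x) := by group
        have hn_eq : n = b * (b⁻¹ * n) := by group
        by_cases hK : x⁻¹ * (b⁻¹ * n) * x ∈ K
        · rw [hn_eq]
          exact mul_mem_sup hb (Subgroup.mem_inf.2 ⟨hcN, (hmemKu _).2 hK⟩)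
        · exfalso
          have ho := h.order_two_of_cent_not_mem hct hK
          have hc2 : orderOf (b⁻¹ * n) = 2 := by
            have := bsw_order_two_conj x ho
            have e : x * (x⁻¹ * (b⁻¹ * n) * x) * x⁻¹ = b⁻¹ * n := by group
            rwa [e] at this
          have hcinv := bswF5_invol_inverts h hg hc2
            (fun a ha => ((mem_normalizer_iff.1 hcN) a).1 ha)
          have ha'' := bswF5_mul_mem hug hcinv.1
          have e1 := hA.1 _ ha''
          have e2 : u * (u * (b⁻¹ * n)) * u⁻¹ = u * (b⁻¹ * n) := by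
            calc u * (u * (b⁻¹ * n)) * u⁻¹ = u * ((b⁻¹ * n) * u) * u⁻¹ := by rw [hc_comm]
              _ = u * (b⁻¹ * n) := by group
          rw [e2] at e1
          have hsq : u * (b⁻¹ * n) * (u * (b⁻¹ * n)) = 1 := by
            nth_rewrite 1 [e1]; group
          have hone : u * (b⁻¹ * n) = 1 := by
            by_contra hne
            exact bswF5_no_invol h hg ha'' (bsw_order_two_of_sq hne hsq)
          have hcu : b⁻¹ * n = u := by
            have : b⁻¹ * n = u⁻¹ * (u * (b⁻¹ * n)) := by group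
            rw [this, hone, mul_one, huinv]
          apply hK
          rw [hcu, ← hx]
          have : x⁻¹ * (x * t * x⁻¹) * x = t := by group
          rw [this]; exact h.htK
      · exact sup_le le_normalizer inf_le_left
    · apply bswF5_free_dvd
      · intro l hl a ha
        exact ((mem_normalizer_iff.1 (Subgroup.mem_inf.1 hl).1) a).1 ha
      · intro l hl a ha ha1 hfix
        have hlA : l ∈ centralizer ({g} : Set G) := by
          rw [← bswF5_cent_eq h hg hu hug ha ha1, bswF5_mem_cent]
          calc a * l = (l * a * l⁻¹) * l := by rw [hfix]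
            _ = l * a := by group
        by_contra hl1
        exact bswF5_not_cl h hg hlA hl1 (hLcl l (Subgroup.mem_inf.1 hl).2)

end Cfsg.Agent.Helper80
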