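import Cfsg.Agent.Helper71.McLA

/-!
# Thin transvection systems: structure of a hyperbolic plane (piece G of S5075, part 1)

`plane_struct`: for a hyperbolic pair `(φ, v)`, `(ψ, w)` of a thin system the plane
`P = span {v, w}` is complemented by `K = ker φ ⊓ ker ψ`, and for `x ∈ P`, `x ≠ 0` the
functionals with centre `x` are exactly those vanishing at `x` and on `K`.

`thin_dual_of_opp`: the uniqueness of the centre of a functional, with the existence of an
opposite centre as a hypothesis.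
-/

set_option autoImplicit false

namespace Cfsg.Agent.Helper80.McL

open Module Cfsg.Agent.Helper71.McL

variable {F V : Type*} [Field F] [AddCommGroup V] [Module F V]

/-- The projection of `t` along the plane of a hyperbolic pair lies in `ker φ ⊓ ker ψ`. -/
theorem plane_dec (S : TSys F V) {φ ψ : Dual F V} {v w : V} (h1 : S.Θ φ v)
    (h2 : S.Θ ψ w) (hφw : φ w ≠ 0) (hψv : ψ v ≠ 0) (t : V) :
    t - ((ψ t / ψ v) • v + (φ t / φ w) • w) ∈ LinearMap.ker φ ⊓ LinearMap.ker ψ := by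
  have hφv : φ v = 0 := S.vanish h1
  have hψw : ψ w = 0 := S.vanish h2
  refine Submodule.mem_inf.mpr ⟨?_, ?_⟩
  · rw [LinearMap.mem_ker]
    simp only [map_sub, map_add, map_smul, smul_eq_mul, hφv, mul_zero, zero_add]
    field_simp
    ring
  · rw [LinearMap.mem_ker]
    simp only [map_sub, map_add, map_smul, smul_eq_mul, hψw, mul_zero, add_zero]
    field_simp
    ring

/-- The plane of a hyperbolic pair is complemented by the intersection of the two axes. -/
theorem plane_isCompl (S : TSys F V) {φ ψ : Dual F V} {v w : V} (h1 : S.Θ φ v)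
    (h2 : S.Θ ψ w) (hφw : φ w ≠ 0) (hψv : ψ v ≠ 0) :
    IsCompl (Submodule.span F {v, w}) (LinearMap.ker φ ⊓ LinearMap.ker ψ) := by
  have hφv : φ v = 0 := S.vanish h1
  have hψw : ψ w = 0 := S.vanish h2
  refine IsCompl.of_eq ?_ ?_
  · rw [Submodule.eq_bot_iff]
    intro x hx
    obtain ⟨hxP, hxK⟩ := Submodule.mem_inf.mp hx
    obtain ⟨hxφ, hxψ⟩ := Submodule.mem_inf.mp hxK
    obtain ⟨c, e, rfl⟩ := Submodule.mem_span_pair.mp hxP
    have e1 : φ (c • v + e • w) = 0 := LinearMap.mem_ker.mp hxφ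
    have e2 : ψ (c • v + e • w) = 0 := LinearMap.mem_ker.mp hxψ
    simp only [map_add, map_smul, smul_eq_mul, hφv, hψw, mul_zero, zero_add, add_zero] at e1 e2
    rw [(mul_eq_zero.mp e2).resolve_right hψv, (mul_eq_zero.mp e1).resolve_right hφw,
      zero_smul, zero_smul, add_zero]
  · rw [eq_top_iff]
    intro t _
    have ht : t = ((ψ t / ψ v) • v + (φ t / φ w) • w) +
        (t - ((ψ t / ψ v) • v + (φ t / φ w) • w)) := by abel
    rw [ht]
    exact Submodule.add_mem_sup (Submodule.mem_span_pair.mpr ⟨_, _, rfl⟩)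
      (plane_dec S h1 h2 hφw hψv t)

/-- A functional vanishing on `ker φ ⊓ ker ψ` is a combination of `φ` and `ψ`. -/
theorem plane_functional (S : TSys F V) {φ ψ : Dual F V} {v w : V} (h1 : S.Θ φ v)
    (h2 : S.Θ ψ w) (hφw : φ w ≠ 0) (hψv : ψ v ≠ 0) (χ : Dual F V)
    (hχK : ∀ k ∈ LinearMap.ker φ ⊓ LinearMap.ker ψ, χ k = 0) :
    χ = (χ w / φ w) • φ + (χ v / ψ v) • ψ := by
  apply LinearMap.ext
  intro t
  have ht := hχK _ (plane_dec S h1 h2 hφw hψv t)
  rw [map_sub, map_add, map_smul, map_smul, sub_eq_zero] at ht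
  rw [ht]
  simp only [LinearMap.add_apply, LinearMap.smul_apply, smul_eq_mul]
  field_simp
  ring

/-- **Piece G, second statement.** Structure of a hyperbolic plane of a thin system. -/
theorem plane_struct (S : TSys F V) (hT : S.Thin) {φ ψ : Dual F V} {v w : V} (h1 : S.Θ φ v) (h2 : S.Θ ψ w) (hφw : φ w ≠ 0) (hψv : ψ v ≠ 0) : IsCompl (Submodule.span F {v, w}) (LinearMap.ker φ ⊓ LinearMap.ker ψ) ∧ ∀ x ∈ Submodule.span F {v, w}, x ≠ 0 → ∀ χ : Dual F V, (S.Θ χ x ↔ χ x = 0 ∧ ∀ k ∈ LinearMap.ker φ ⊓ LinearMap.ker ψ, χ k = 0) := by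
  have hφv : φ v = 0 := S.vanish h1
  have hψw : ψ w = 0 := S.vanish h2
  refine ⟨plane_isCompl S h1 h2 hφw hψv, ?_⟩
  intro x hx hx0 χ
  obtain ⟨c, e, rfl⟩ := Submodule.mem_span_pair.mp hx
  constructor
  · intro hχ
    refine ⟨S.vanish hχ, ?_⟩
    have h0 : ((c * ψ v) • φ + (-(e * φ w)) • ψ) (c • v + e • w) = 0 := by
      simp only [LinearMap.add_apply, LinearMap.smul_apply, map_add, map_smul, smul_eq_mul,
        hφv, hψw, mul_zero, zero_add, add_zero]
      ring
    have hχ0 := sl2 S h1 h2 hφw hψv _ _ c e h0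
    have hne : ((c * ψ v) • φ + (-(e * φ w)) • ψ) ≠ 0 := by
      intro h
      have e1 : ((c * ψ v) • φ + (-(e * φ w)) • ψ) w = 0 := by rw [h, LinearMap.zero_apply]
      have e2 : ((c * ψ v) • φ + (-(e * φ w)) • ψ) v = 0 := by rw [h, LinearMap.zero_apply]
      simp only [LinearMap.add_apply, LinearMap.smul_apply, smul_eq_mul, hφv, hψw, mul_zero,
        zero_add, add_zero] at e1 e2
      have hc : c = 0 := by
        rcases mul_eq_zero.mp e1 with h' | h'
        · exact (mul_eq_zero.mp h').resolve_right hψv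
        · exact absurd h' hφw
      have he : e = 0 := by
        rcases mul_eq_zero.mp e2 with h' | h'
        · exact (mul_eq_zero.mp (neg_eq_zero.mp h')).resolve_right hφw
        · exact absurd h' hψv
      apply hx0
      rw [hc, he, zero_smul, zero_smul, add_zero]
    obtain ⟨c', hc'⟩ := hT _ _ χ hχ0 hχ hne hx0
    intro k hk
    obtain ⟨hkφ, hkψ⟩ := Submodule.mem_inf.mp hk
    have hk1 : φ k = 0 := LinearMap.mem_ker.mp hkφ
    have hk2 : ψ k = 0 := LinearMap.mem_ker.mp hkψ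
    rw [hc']
    simp only [LinearMap.add_apply, LinearMap.smul_apply, smul_eq_mul, hk1, hk2, mul_zero,
      add_zero]
  · rintro ⟨hχx, hχK⟩
    have hχeq := plane_functional S h1 h2 hφw hψv χ hχK
    rw [hχeq]
    apply sl2 S h1 h2 hφw hψv
    rw [← hχeq]
    exact hχx

/-- Uniqueness of the centre of a nonzero functional of a thin symmetric system, given that
every centre has an opposite centre. -/
theorem thin_dual_of_opp (S : TSys F V) (hT : S.Thin) (hsym : S.Sym)
    (hopp : ∀ u : V, S.IsCenter u → ∃ w, S.IsCenter w ∧ S.Opp u w)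
    {φ : Dual F V} {v v' : V} (h : S.Θ φ v) (h' : S.Θ φ v') (hφ : φ ≠ 0) (hv : v ≠ 0) :
    ∃ c : F, v' = c • v := by
  by_contra hcon0
  have hcon : ∀ c : F, v' ≠ c • v := fun c hc => hcon0 ⟨c, hc⟩
  have hvC : S.IsCenter v := ⟨hv, φ, hφ, h⟩
  obtain ⟨w, hwC, φ', hφ', hφ'w⟩ := hopp v hvC
  obtain ⟨c, hc⟩ := hT v φ φ' h hφ' hφ hv
  have hφw : φ w ≠ 0 := by
    intro h0
    apply hφ'w
    rw [hc, LinearMap.smul_apply, h0, smul_zero]
  obtain ⟨ψ, hψ, hψv⟩ := hsym v w hvC hwC ⟨φ, h, hφw⟩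
  have hψ0 : ψ ≠ 0 := by
    rintro rfl
    exact hψv (LinearMap.zero_apply v)
  have key : ∀ u : V, u ≠ 0 → S.Θ φ u → ψ u ≠ 0 := by
    intro u hu0 hu
    obtain ⟨ψ', hψ', hψ'u⟩ := hsym u w ⟨hu0, φ, hφ, hu⟩ hwC ⟨φ, hu, hφw⟩
    obtain ⟨c', hc'⟩ := hT w ψ ψ' hψ hψ' hψ0 hwC.1
    intro h0
    apply hψ'u
    rw [hc', LinearMap.smul_apply, h0, smul_zero]
  have hv'' : S.Θ φ (v' + (-(ψ v' / ψ v)) • v) := S.add_right h' (S.smul_right _ h)
  have hv''0 : v' + (-(ψ v' / ψ v)) • v ≠ 0 := by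
    intro h0
    apply hcon (ψ v' / ψ v)
    have h3 := eq_neg_of_add_eq_zero_left h0
    rw [neg_smul, neg_neg] at h3
    exact h3
  apply key _ hv''0 hv''
  rw [map_add, map_smul, smul_eq_mul]
  field_simp
  ring

end Cfsg.Agent.Helper80.McL
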