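import Cfsg.Agent.Helper80.McLG
import Cfsg.Agent.Helper98.McLB

/-!
# Thin transvection systems: a nonzero functional has a unique centre (piece G of S5075, part 2)
-/

set_option autoImplicit false

namespace Cfsg.Agent.Helper80.McL

open Module Cfsg.Agent.Helper71.McL

variable {F V : Type*} [Field F] [AddCommGroup V] [Module F V]

/-- **Piece G, first statement.** In a thin symmetric good system a nonzero functional has at
most one centre up to scalars. -/
theorem thin_dual [Module.Finite F V] (S : TSys F V) (W : Submodule F V) (hG : S.Good W) (hT : S.Thin) (hsym : S.Sym) {φ : Dual F V} {v v' : V} (h : S.Θ φ v) (h' : S.Θ φ v') (hφ : φ ≠ 0) (hv : v ≠ 0) : ∃ c : F, v' = c • v :=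
  thin_dual_of_opp S hT hsym (fun _ hu => Cfsg.Agent.Helper98.McL.exists_opp S W hG hu) h h' hφ hv

end Cfsg.Agent.Helper80.McL
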