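import Mathlib
import Cfsg.Agent.Helper40.KGLDefs
import Cfsg.Agent.Helper40.KSLDefs
import Cfsg.Agent.Helper40.KPSLDefs

/-!
# PIECE Q2a of CALL S2480 (helper40): the centre of `SL_n(q)` has `gcd(n, q - 1)` elements
(helper80)
-/

set_option autoImplicit false

namespace Cfsg.Agent.Helper80

open Polynomial Cfsg.Agent.Helper40.KGL Cfsg.Agent.Helper40.KSL Cfsg.Agent.Helper40.KPSL
open scoped DirectSum
open Classical

universe u v

/-- PIECE Q2a of CALL S2480. -/
theorem card_center_sl {F : Type u} [Field F] [Fintype F] (n : ℕ) (hn : 1 ≤ n) :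
    Nat.card (Subgroup.center (Matrix.SpecialLinearGroup (Fin n) F)) =
      Nat.gcd n (Fintype.card F - 1) := by
  rw [Nat.card_congr
    (Matrix.SpecialLinearGroup.center_equiv_rootsOfUnity (n := Fin n) (R := F)).toEquiv]
  have h1 : max (Fintype.card (Fin n)) 1 = n := by
    rw [Fintype.card_fin]
    omega
  rw [h1]
  have h2 : rootsOfUnity n F = (powMonoidHom n : Fˣ →* Fˣ).ker := by
    ext ζ
    rw [mem_rootsOfUnity, MonoidHom.mem_ker, powMonoidHom_apply]
  rw [h2, IsCyclic.card_powMonoidHom_ker, Nat.card_units, Nat.card_eq_fintype_card, Nat.gcd_comm]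

end Cfsg.Agent.Helper80
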