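import Mathlib
import Cfsg.Agent.Helper40.KGLDefs
import Cfsg.Agent.Helper40.KSLDefs
import Cfsg.Agent.Helper40.KPSLDefs

/-!
# PIECE Q2b of CALL S2480 (helper40): central elements of `SL_n(F)` are scalar matrices
`ζ • 1` with `ζ ^ n = 1` (helper80)
-/

set_option autoImplicit false

namespace Cfsg.Agent.Helper80

open Polynomial Cfsg.Agent.Helper40.KGL Cfsg.Agent.Helper40.KSL Cfsg.Agent.Helper40.KPSL
open scoped DirectSum
open Classical

universe u v

/-- PIECE Q2b of CALL S2480. -/
theorem center_sl_scalar {F : Type u} [Field F] {n : ℕ} (hn : 1 ≤ n)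
    (z : Matrix.SpecialLinearGroup (Fin n) F)
    (hz : z ∈ Subgroup.center (Matrix.SpecialLinearGroup (Fin n) F)) :
    ∃ ζ : Fˣ, ζ ^ n = 1 ∧
      (z : Matrix (Fin n) (Fin n) F) = (ζ : F) • (1 : Matrix (Fin n) (Fin n) F) ∧
      (ζ = 1 → z = 1) := by
  obtain ⟨r, hr, hrz⟩ := Matrix.SpecialLinearGroup.mem_center_iff.mp hz
  rw [Fintype.card_fin] at hr
  have hr0 : r ≠ 0 := by
    rintro rfl
    rw [zero_pow (by omega)] at hr
    exact zero_ne_one hr
  refine ⟨Units.mk0 r hr0, ?_, ?_, ?_⟩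
  · apply Units.ext
    rw [Units.val_pow_eq_pow_val]
    exact hr
  · rw [← hrz, Matrix.scalar_apply, Units.val_mk0, Matrix.smul_one_eq_diagonal]
  · intro h
    have hr1 : r = 1 := by
      have := congrArg Units.val h
      simpa using this
    apply Subtype.ext
    rw [← hrz, hr1]
    simp

end Cfsg.Agent.Helper80
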