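import Mathlib
import Cfsg.Agent.Helper40.KGLDefs
import Cfsg.Agent.Helper40.KSLDefs
import Cfsg.Agent.Helper40.KPSLDefs

/-!
# PIECE W6 of CALL S2480 (helper40): the final numerical estimate (helper80)
-/

set_option autoImplicit false

namespace Cfsg.Agent.Helper80

open Polynomial Cfsg.Agent.Helper40.KGL Cfsg.Agent.Helper40.KSL Cfsg.Agent.Helper40.KPSL
open scoped DirectSum
open Classical

universe u v

theorem kpslW6_cnt_one (q n : ℕ) : cnt q 1 n = phi q n := by
  show ∑ k ∈ Finset.range (n / (0 + 1) + 1), phi q k * cnt q 0 (n - (0 + 1) * k) = phi q n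
  rw [Finset.sum_eq_single n]
  · simp [cnt]
  · intro k hk hkn
    have hk' : k < n + 1 := by simpa using hk
    have : n - k ≠ 0 := by omega
    simp [cnt, this]
  · intro h
    exact absurd (by simp) h

theorem kpslW6_phi_one (r : ℕ) : phi (r + 2) 1 = r + 1 := by
  unfold phi
  simp

theorem kpslW6_phi_two (r : ℕ) : phi (r + 2) 2 = (r + 2) * (r + 1) := by
  unfold phi
  rw [if_neg (by norm_num)]
  have h1 : (r + 2) ^ 2 = (r + 2) * (r + 1) + (r + 2) ^ (2 - 1) := by
    have : (2 : ℕ) - 1 = 1 := rfl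
    rw [this]
    ring
  rw [h1]
  exact Nat.add_sub_cancel _ _

theorem kpslW6_cnt_two_two (r : ℕ) : cnt (r + 2) 2 2 = (r + 2) * (r + 1) + (r + 1) := by
  show ∑ k ∈ Finset.range (2 / (1 + 1) + 1), phi (r + 2) k * cnt (r + 2) 1 (2 - (1 + 1) * k) = _
  have : 2 / (1 + 1) + 1 = 2 := by norm_num
  rw [this, Finset.sum_range_succ, Finset.sum_range_one, kpslW6_cnt_one, kpslW6_cnt_one]
  have h0 : 2 - (1 + 1) * 0 = 2 := by norm_num
  have h1 : 2 - (1 + 1) * 1 = 0 := by norm_num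
  rw [h0, h1, kpslW6_phi_two, kpslW6_phi_one]
  simp [phi]

theorem kpslW6_bnd_one (r : ℕ) : bnd (r + 2) 1 = r + 1 := by
  unfold bnd
  rw [Nat.gcd_one_left]
  have : (Nat.divisors 1).filter (fun c => 2 ≤ c) = ∅ := by decide
  rw [this, Finset.sum_empty, add_zero, kpslW6_cnt_one, kpslW6_phi_one]

theorem kpslW6_bnd_two (r : ℕ) :
    bnd (r + 2) 2 = (r + 2) * (r + 1) + (r + 1) +
      (if Nat.gcd 2 (r + 1) = 2 then 3 * (r + 1) else 0) := by
  unfold bnd
  have hq1 : r + 2 - 1 = r + 1 := rfl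
  rw [hq1, kpslW6_cnt_two_two]
  have hg : Nat.gcd 2 (r + 1) = 1 ∨ Nat.gcd 2 (r + 1) = 2 :=
    (Nat.dvd_prime Nat.prime_two).1 (Nat.gcd_dvd_left 2 (r + 1))
  rcases hg with hg | hg
  · rw [hg]
    have : (Nat.divisors 1).filter (fun c => 2 ≤ c) = ∅ := by decide
    rw [this, Finset.sum_empty, if_neg (by norm_num)]
  · rw [hg]
    have : (Nat.divisors 2).filter (fun c => 2 ≤ c) = {2} := by decide
    rw [this, Finset.sum_singleton, if_pos rfl]
    have e : 2 / 2 = 1 := rfl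
    rw [e, kpslW6_cnt_one, kpslW6_phi_one]
    norm_num

/-- PIECE W6 of CALL S2480. -/
theorem final_numeric {ι : Type u} (q n : ℕ) (hq : 2 ≤ q) (hn : 2 ≤ n)
    (hb3 : ∀ m : ℕ, 3 ≤ m → bnd q m ≤ (q - 1) * (q ^ (m - 1) + 3 * q ^ (m - 2)))
    (s : Finset ι) (o : ι → ℕ) (hs : s.card + 1 = Nat.gcd n (q - 1))
    (ho : ∀ i ∈ s, 2 ≤ o i ∧ o i ∣ n) :
    bnd q n + ∑ i ∈ s, bnd q (n / o i) ≤ (q - 1) * (q ^ (n - 1) + 5 * q ^ (n - 2)) := by
  obtain ⟨r, rfl⟩ : ∃ r, q = r + 2 := ⟨q - 2, by omega⟩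
  have hq1 : r + 2 - 1 = r + 1 := rfl
  rw [hq1] at hs ⊢
  -- the general bound `2 * bnd q m ≤ 5 (q - 1) q ^ (m - 1)`
  have hstar : ∀ m : ℕ, 1 ≤ m → 2 * bnd (r + 2) m ≤ 5 * (r + 1) * (r + 2) ^ (m - 1) := by
    intro m hm
    rcases Nat.lt_or_ge m 3 with h | h
    · interval_cases m
      · rw [kpslW6_bnd_one]
        simp
      · rw [kpslW6_bnd_two]
        have e : 2 - 1 = 1 := rfl
        rw [e, pow_one]
        split_ifs with hg
        · have h2 : 2 ∣ r + 1 := by
            have := Nat.gcd_dvd_right 2 (r + 1)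
            rwa [hg] at this
          obtain ⟨t, ht⟩ : ∃ t, r = t + 1 := ⟨r - 1, by omega⟩
          subst ht
          nlinarith [sq_nonneg t]
        · nlinarith [sq_nonneg r]
    · have h3 := hb3 m h
      obtain ⟨k, rfl⟩ : ∃ k, m = k + 3 := ⟨m - 3, by omega⟩
      have e1 : k + 3 - 1 = k + 2 := rfl
      have e2 : k + 3 - 2 = k + 1 := rfl
      rw [hq1, e1, e2] at h3
      rw [e1]
      have hp : (r + 2) ^ (k + 2) = (r + 2) * (r + 2) ^ (k + 1) := by ring
      rw [hp] at h3 ⊢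
      generalize (r + 2) ^ (k + 1) = P at h3 ⊢
      calc 2 * bnd (r + 2) (k + 3) ≤ 2 * ((r + 1) * ((r + 2) * P + 3 * P)) :=
            Nat.mul_le_mul_left _ h3
        _ = (r + 1) * P * (2 * r + 10) := by ring
        _ ≤ (r + 1) * P * (5 * r + 10) := Nat.mul_le_mul_left _ (by omega)
        _ = 5 * (r + 1) * ((r + 2) * P) := by ring
  rcases Nat.lt_or_ge n 3 with hlt | hge
  · -- n = 2
    have hn2 : n = 2 := by omega
    subst hn2
    have hsum : ∑ i ∈ s, bnd (r + 2) (2 / o i) = s.card * (r + 1) := by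
      rw [← smul_eq_mul, ← Finset.sum_const]
      refine Finset.sum_congr rfl (fun i hi => ?_)
      obtain ⟨ho2, hod⟩ := ho i hi
      have hole : o i ≤ 2 := Nat.le_of_dvd (by norm_num) hod
      have : o i = 2 := by omega
      rw [this]
      exact kpslW6_bnd_one r
    rw [hsum, kpslW6_bnd_two]
    have e1 : 2 - 1 = 1 := rfl
    have e2 : 2 - 2 = 0 := rfl
    rw [e1, e2, pow_one, pow_zero]
    have hg : Nat.gcd 2 (r + 1) = 1 ∨ Nat.gcd 2 (r + 1) = 2 :=
      (Nat.dvd_prime Nat.prime_two).1 (Nat.gcd_dvd_left 2 (r + 1))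
    rcases hg with hg | hg
    · rw [hg] at hs
      have hc : s.card = 0 := by omega
      rw [hc, if_neg (by rw [hg]; norm_num)]
      nlinarith [sq_nonneg r]
    · rw [hg] at hs
      have hc : s.card = 1 := by omega
      rw [hc, if_pos hg]
      nlinarith [sq_nonneg r]
  · -- n ≥ 3
    obtain ⟨k, rfl⟩ : ∃ k, n = k + 3 := ⟨n - 3, by omega⟩
    have hbn := hb3 (k + 3) hge
    have e1 : k + 3 - 1 = k + 2 := rfl
    have e2 : k + 3 - 2 = k + 1 := rfl
    rw [hq1, e1, e2] at hbn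
    rw [e1, e2]
    have hterm : ∀ i ∈ s, 2 * bnd (r + 2) ((k + 3) / o i) ≤
        5 * (r + 1) * (r + 2) ^ ((k + 3) / 2 - 1) := by
      intro i hi
      obtain ⟨ho2, hod⟩ := ho i hi
      have hole : o i ≤ k + 3 := Nat.le_of_dvd (by omega) hod
      have hpos : 1 ≤ (k + 3) / o i := Nat.div_pos hole (by omega)
      have hle : (k + 3) / o i ≤ (k + 3) / 2 := Nat.div_le_div_left ho2 (by norm_num)
      refine (hstar _ hpos).trans ?_
      exact Nat.mul_le_mul_left _ (Nat.pow_le_pow_right (by omega) (by omega))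
    have hsum : 2 * ∑ i ∈ s, bnd (r + 2) ((k + 3) / o i) ≤
        s.card * (5 * (r + 1) * (r + 2) ^ ((k + 3) / 2 - 1)) := by
      rw [Finset.mul_sum]
      calc ∑ i ∈ s, 2 * bnd (r + 2) ((k + 3) / o i)
          ≤ ∑ i ∈ s, 5 * (r + 1) * (r + 2) ^ ((k + 3) / 2 - 1) := Finset.sum_le_sum hterm
        _ = s.card * (5 * (r + 1) * (r + 2) ^ ((k + 3) / 2 - 1)) := by
          rw [Finset.sum_const, smul_eq_mul]
    have hd1 : s.card + 1 ∣ k + 3 := by
      rw [hs]
      exact Nat.gcd_dvd_left _ _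
    have hd2 : s.card + 1 ≤ r + 1 := by
      have : s.card + 1 ∣ r + 1 := by
        rw [hs]
        exact Nat.gcd_dvd_right _ _
      exact Nat.le_of_dvd (by omega) this
    have hkey : s.card * 5 * (r + 2) ^ ((k + 3) / 2 - 1) ≤ 4 * (r + 2) ^ (k + 1) := by
      rcases Nat.lt_or_ge k 2 with hk | hk
      · interval_cases k
        · -- n = 3
          have e : (0 + 3) / 2 - 1 = 0 := by norm_num
          rw [e, pow_zero, mul_one]
          have hdle : s.card + 1 ≤ 3 := Nat.le_of_dvd (by norm_num) hd1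
          have hc : s.card = 0 ∨ s.card = 1 ∨ s.card = 2 := by omega
          rcases hc with hc | hc | hc
          · rw [hc]
            simp
          · rw [hc] at hd1
            norm_num at hd1
          · rw [hc] at hd2 ⊢
            simp
            omega
        · -- n = 4
          have e : (1 + 3) / 2 - 1 = 1 := by norm_num
          rw [e, pow_one]
          have hdle : s.card + 1 ≤ 4 := Nat.le_of_dvd (by norm_num) hd1
          have hc : s.card = 0 ∨ s.card = 1 ∨ s.card = 2 ∨ s.card = 3 := by omega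
          have e' : (r + 2) ^ (1 + 1) = (r + 2) * (r + 2) := by ring
          rw [e']
          rcases hc with hc | hc | hc | hc
          · rw [hc]
            simp
          · rw [hc]
            nlinarith [sq_nonneg r]
          · rw [hc] at hd1
            norm_num at hd1
          · rw [hc] at hd2 ⊢
            nlinarith [sq_nonneg r]
      · -- n ≥ 5
        obtain ⟨h, hh⟩ : ∃ h, (k + 3) / 2 = h + 2 := ⟨(k + 3) / 2 - 2, by omega⟩
        have hhk : h + 2 ≤ k := by omega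
        rw [hh]
        have e : h + 2 - 1 = h + 1 := rfl
        rw [e]
        have hc : s.card ≤ r := by omega
        calc s.card * 5 * (r + 2) ^ (h + 1) ≤ (r + 2) * 5 * (r + 2) ^ (h + 1) :=
              Nat.mul_le_mul_right _ (Nat.mul_le_mul_right _ (by omega))
          _ = 5 * (r + 2) ^ (h + 2) := by ring
          _ ≤ 4 * (r + 2) * (r + 2) ^ (h + 2) := Nat.mul_le_mul_right _ (by omega)
          _ = 4 * (r + 2) ^ (h + 3) := by ring
          _ ≤ 4 * (r + 2) ^ (k + 1) :=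
              Nat.mul_le_mul_left _ (Nat.pow_le_pow_right (by omega) (by omega))
    have hfin : 2 * ∑ i ∈ s, bnd (r + 2) ((k + 3) / o i) ≤ 4 * ((r + 1) * (r + 2) ^ (k + 1)) := by
      refine hsum.trans ?_
      calc s.card * (5 * (r + 1) * (r + 2) ^ ((k + 3) / 2 - 1))
          = (r + 1) * (s.card * 5 * (r + 2) ^ ((k + 3) / 2 - 1)) := by ring
        _ ≤ (r + 1) * (4 * (r + 2) ^ (k + 1)) := Nat.mul_le_mul_left _ hkey
        _ = 4 * ((r + 1) * (r + 2) ^ (k + 1)) := by ring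
    have hr1 : (r + 1) * ((r + 2) ^ (k + 2) + 5 * (r + 2) ^ (k + 1)) =
        (r + 1) * (r + 2) ^ (k + 2) + 5 * ((r + 1) * (r + 2) ^ (k + 1)) := by ring
    have hr2 : (r + 1) * ((r + 2) ^ (k + 2) + 3 * (r + 2) ^ (k + 1)) =
        (r + 1) * (r + 2) ^ (k + 2) + 3 * ((r + 1) * (r + 2) ^ (k + 1)) := by ring
    rw [hr1]
    rw [hr2] at hbn
    omega

end Cfsg.Agent.Helper80
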