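import Cfsg.Agent.S0165
import Cfsg.Agent.Helper79.Basic

/-!
# Defect-zero characters vanish on `p`-singular elements, `IrrCharacter` form (helper80)

`irr_eq_zero_of_defect_zero`: restatement of `Cfsg.Agent.S0165.result` (helper3) for
`Cfsg.IrrCharacter`.
-/

set_option autoImplicit false

namespace Cfsg.Agent.Helper80

open Cfsg

/-- If the full power of `p` dividing `|G|` divides `χ(1)`, then `χ` vanishes on every element of
order divisible by `p`. -/
theorem irr_eq_zero_of_defect_zero {G : Type*} [Group G] [Finite G] (χ : IrrCharacter G)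
    (p : ℕ) (hp : p.Prime) (h : p ^ (Nat.card G).factorization p ∣ charDegree (χ : G → ℂ))
    (x : G) (hx : p ∣ orderOf x) : (χ : G → ℂ) x = 0 := by
  obtain ⟨n, ρ, hρ, hχ⟩ := χ.2
  have hρ' : ρ.IsIrreducible := hρ
  have hdeg : charDegree (χ : G → ℂ) = n := by
    have h1 : (χ : G → ℂ) 1 = (charDegree (χ : G → ℂ) : ℂ) :=
      Helper79.isCharacter_one_eq_charDegree (Helper79.irr_isCharacter χ)
    have h2 : (χ : G → ℂ) 1 = (n : ℂ) := by
      rw [← hχ, Representation.char_one]
      simp
    rw [h1] at h2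
    exact_mod_cast h2
  have hG : Nat.card G ≠ 0 := Nat.card_pos.ne'
  rw [← hχ]
  refine Cfsg.Agent.S0165.result ρ p ((Nat.card G).factorization p) hp
    (Nat.ordProj_dvd _ _) (Nat.pow_succ_factorization_not_dvd hG hp) ?_ x hx
  rw [Module.finrank_fin_fun, ← hdeg]
  exact h

end Cfsg.Agent.Helper80
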