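import Cfsg.Agent.Helper55.N9Defs

/-! Piece HP of CALL S4409 (helper55): a hyperplane of `X / N` avoiding a given element. -/

set_option autoImplicit false

namespace Cfsg.Agent.Helper80.N9

open Subgroup Cfsg.Agent.Helper55.N9

variable {G : Type*} [Group G] [Finite G]

/-- commutators of `X` lie in `N` when all squares do -/
theorem hp_comm_mem (X N : Subgroup G) (hsq : ∀ x ∈ X, x ^ 2 ∈ N)
    (hn : X ≤ normalizer (N : Set G)) (x m : G) (hx : x ∈ X) (hm : m ∈ X) :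
    x * m * x⁻¹ * m⁻¹ ∈ N := by
  have h1 : (x * m) ^ 2 ∈ N := hsq _ (X.mul_mem hx hm)
  have h2 : (x⁻¹) ^ 2 ∈ N := hsq _ (X.inv_mem hx)
  have h3 : (m⁻¹) ^ 2 ∈ N := hsq _ (X.inv_mem hm)
  have h4 : m⁻¹ * (x⁻¹) ^ 2 * m ∈ N := (mem_normalizer_iff''.mp (hn hm) _).mp h2
  have e : x * m * x⁻¹ * m⁻¹ = (x * m) ^ 2 * (m⁻¹ * (x⁻¹) ^ 2 * m) * (m⁻¹) ^ 2 := by
    simp only [pow_two]
    group
  rw [e]
  exact N.mul_mem (N.mul_mem h1 h4) h3

-- HP
theorem n9_hyperplane (X N : Subgroup G) (hNX : N ≤ X) (hsq : ∀ x ∈ X, x ^ 2 ∈ N)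
    (hn : X ≤ normalizer (N : Set G)) (v : G) (hvX : v ∈ X) (hv : v ∉ N) :
    ∃ M : Subgroup G, M ≤ X ∧ M.relIndex X = 2 ∧ N ≤ M ∧ v ∉ M := by
  classical
  obtain ⟨M, -, hMmax⟩ := Finite.exists_le_maximal
    (p := fun M : Subgroup G => N ≤ M ∧ M ≤ X ∧ v ∉ M) (a := N) ⟨le_rfl, hNX, hv⟩
  obtain ⟨⟨hNM, hMX, hvM⟩, hmax⟩ := hMmax
  -- `M` is normalised by `X`
  have hMn : ∀ x ∈ X, ∀ m ∈ M, x * m * x⁻¹ ∈ M := by
    intro x hx m hm
    have h1 := hNM (hp_comm_mem X N hsq hn x m hx (hMX hm))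
    have h2 := M.mul_mem h1 hm
    rwa [inv_mul_cancel_right] at h2
  have hnorm : ∀ x ∈ X, x ∈ normalizer (M : Set G) := by
    intro x hx
    rw [mem_normalizer_iff]
    intro m
    constructor
    · exact hMn x hx m
    · intro h
      have h1 := hMn x⁻¹ (X.inv_mem hx) _ h
      have e : x⁻¹ * (x * m * x⁻¹) * x⁻¹⁻¹ = m := by group
      rwa [e] at h1
  refine ⟨M, hMX, ?_, hNM, hvM⟩
  rw [relIndex_eq_two_iff_exists_notMem_and]
  refine ⟨v, hvX, hvM, ?_⟩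
  intro b hb
  by_cases hbM : b ∈ M
  · exact Or.inr hbM
  · left
    -- `v ∈ M ⊔ zpowers b` by maximality
    have hv' : v ∈ M ⊔ zpowers b := by
      by_contra hcon
      have h1 : M ⊔ zpowers b ≤ M := hmax
        ⟨hNM.trans le_sup_left, sup_le hMX ((zpowers_le).2 hb), hcon⟩ le_sup_left
      exact hbM (h1 ((le_sup_right : zpowers b ≤ _) (mem_zpowers b)))
    have hzn : zpowers b ≤ normalizer (M : Set G) := (zpowers_le).2 (hnorm b hb)
    have hv'' : v ∈ ((M ⊔ zpowers b : Subgroup G) : Set G) := hv'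
    rw [coe_mul_of_right_le_normalizer_left _ _ hzn, Set.mem_mul] at hv''
    obtain ⟨m, hm, z, hz, hmz⟩ := hv''
    obtain ⟨e, he⟩ := mem_zpowers_iff.mp hz
    have hb2 : b ^ 2 ∈ M := hNM (hsq b hb)
    have hb2' : b ^ (2 : ℤ) ∈ M := by
      have e2 : b ^ (2 : ℤ) = b ^ 2 := by norm_cast
      rw [e2]
      exact hb2
    rcases Int.even_or_odd' e with ⟨q, hq | hq⟩
    · -- even exponent: `v ∈ M`
      exfalso
      apply hvM
      rw [← hmz, ← he, hq, zpow_mul]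
      exact M.mul_mem hm (M.zpow_mem hb2' q)
    · -- odd exponent: `v = m' * b`
      have hm' : m * (b ^ (2 : ℤ)) ^ q ∈ M := M.mul_mem hm (M.zpow_mem hb2' q)
      have hvb : v = (m * (b ^ (2 : ℤ)) ^ q) * b := by
        rw [← hmz, ← he, hq, zpow_add, zpow_mul, zpow_one, mul_assoc]
      have h3 : b * (m * (b ^ (2 : ℤ)) ^ q) * b⁻¹ ∈ M := hMn b hb _ hm'
      have h4 := M.mul_mem h3 hb2
      have e3 : b * (m * (b ^ (2 : ℤ)) ^ q) * b⁻¹ * b ^ 2 = b * v := by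
        rw [hvb]
        group
      rwa [e3] at h4

end Cfsg.Agent.Helper80.N9
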