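import Cfsg.Agent.Helper55.N9Defs

/-! Piece NH of CALL S4409 (helper55). -/

set_option autoImplicit false

namespace Cfsg.Agent.Helper80.N9

open Subgroup Cfsg.Agent.Helper55.N9

variable {G : Type*} [Group G] [Finite G]

/-- `(x y)² = x² y² c` with `c = [y⁻¹, x⁻¹] ∈ W` when commutators of `X` lie in `W ≤ Z(X)` -/
theorem nh_sq_mul (X W : Subgroup G) (hW : W ≤ zc X) (hcomm : ⁅X, X⁆ ≤ W) (x y : G)
    (hx : x ∈ X) (hy : y ∈ X) : ∃ c ∈ W, (x * y) ^ 2 = x ^ 2 * y ^ 2 * c := by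
  have hc : y⁻¹ * x⁻¹ * y * x ∈ ⁅X, X⁆ := by
    have h1 := Subgroup.commutator_mem_commutator (X.inv_mem hy) (X.inv_mem hx)
    rw [commutatorElement_def, inv_inv, inv_inv] at h1
    exact h1
  have hcW := hcomm hc
  have hcZ : y⁻¹ * x⁻¹ * y * x ∈ centralizer (X : Set G) := (hW hcW).2
  have hcy : y * (y⁻¹ * x⁻¹ * y * x) = (y⁻¹ * x⁻¹ * y * x) * y :=
    (mem_centralizer_iff.mp hcZ) y hy
  refine ⟨y⁻¹ * x⁻¹ * y * x, hcW, ?_⟩
  calc (x * y) ^ 2 = x * x * y * ((y⁻¹ * x⁻¹ * y * x) * y) := by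
        simp only [pow_two]
        group
    _ = x * x * y * (y * (y⁻¹ * x⁻¹ * y * x)) := by rw [hcy]
    _ = x ^ 2 * y ^ 2 * (y⁻¹ * x⁻¹ * y * x) := by
        simp only [pow_two]
        group

/-- the elements of `X` with square in `W` -/
def nhS (X W : Subgroup G) (hW : W ≤ zc X) (hcomm : ⁅X, X⁆ ≤ W) : Subgroup G where
  carrier := {x | x ∈ X ∧ x ^ 2 ∈ W}
  mul_mem' := by
    rintro x y ⟨hx, hx2⟩ ⟨hy, hy2⟩
    obtain ⟨c, hc, he⟩ := nh_sq_mul X W hW hcomm x y hx hy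
    refine ⟨X.mul_mem hx hy, ?_⟩
    rw [he]
    exact W.mul_mem (W.mul_mem hx2 hy2) hc
  one_mem' := ⟨X.one_mem, by rw [one_pow]; exact W.one_mem⟩
  inv_mem' := by
    rintro x ⟨hx, hx2⟩
    refine ⟨X.inv_mem hx, ?_⟩
    rw [inv_pow]
    exact W.inv_mem hx2

-- NH
theorem n9_no_hyper (T : Tools G) (X K : Subgroup G) (c : Core X K) (hXK : ⁅X, K⁆ = X)
    (hni : NoIdx2 K X)
    (hsq : ∀ x ∈ X, x ^ 2 ∈ zc X)
    (hfrat : ∀ M : Subgroup G, M ≤ X → M.relIndex X = 2 → zc X ≤ M)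
    (W : Subgroup G) (hW : W ≤ zc X) (hidx : W.relIndex (zc X) = 2)
    (hWK : K ≤ normalizer (W : Set G)) (hcomm : ⁅X, X⁆ ≤ W) : False := by
  classical
  have hWX : W ≤ X := fun x hx => (hW hx).1
  -- the product rule in `zc X / W`
  have hprod : ∀ a ∈ zc X, ∀ b ∈ zc X, a ∉ W → b ∉ W → a * b ∈ W := by
    intro a ha b hb haW hbW
    have h2 : (W.subgroupOf (zc X)).index = 2 := hidx
    have h3 := mul_mem_iff_of_index_two h2 (a := (⟨a, ha⟩ : zc X)) (b := (⟨b, hb⟩ : zc X))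
    have h4 : (⟨a, ha⟩ : zc X) * ⟨b, hb⟩ ∈ W.subgroupOf (zc X) :=
      h3.mpr ⟨fun h => absurd (mem_subgroupOf.mp h) haW, fun h => absurd (mem_subgroupOf.mp h) hbW⟩
    exact mem_subgroupOf.mp h4
  -- all squares of `X` lie in `W`
  have hall : ∀ x ∈ X, x ^ 2 ∈ W := by
    by_contra hne
    simp only [not_forall] at hne
    obtain ⟨a, haX, haW⟩ := hne
    apply hni (nhS X W hW hcomm) (fun x hx => hx.1)
    · rw [relIndex_eq_two_iff_exists_notMem_and]
      refine ⟨a, haX, fun h => haW h.2, ?_⟩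
      intro b hb
      by_cases hbW : b ^ 2 ∈ W
      · exact Or.inr ⟨hb, hbW⟩
      · left
        refine ⟨X.mul_mem hb haX, ?_⟩
        obtain ⟨c', hc', he⟩ := nh_sq_mul X W hW hcomm b a hb haX
        rw [he]
        exact W.mul_mem (hprod _ (hsq b hb) _ (hsq a haX) hbW haW) hc'
    · intro k hk
      rw [mem_normalizer_iff]
      intro x
      have hkX := c.inv hk
      have hkW := hWK hk
      have e : (k * x * k⁻¹) ^ 2 = k * x ^ 2 * k⁻¹ := by
        simp only [pow_two]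
        group
      constructor
      · rintro ⟨hx, hx2⟩
        refine ⟨(mem_normalizer_iff.mp hkX x).mp hx, ?_⟩
        rw [e]
        exact (mem_normalizer_iff.mp hkW _).mp hx2
      · rintro ⟨hx, hx2⟩
        refine ⟨(mem_normalizer_iff.mp hkX x).mpr hx, ?_⟩
        rw [e] at hx2
        exact (mem_normalizer_iff.mp hkW _).mpr hx2
  -- an element of `zc X` outside `W`
  obtain ⟨v, hvZ, hvW, -⟩ := relIndex_eq_two_iff_exists_notMem_and.mp hidx
  -- `X` normalises `W`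
  have hXn : X ≤ normalizer (W : Set G) := by
    intro x hx
    rw [mem_normalizer_iff]
    intro w
    constructor
    · intro hw
      have h1 : x * w = w * x := (mem_centralizer_iff.mp (hW hw).2) x hx
      rw [h1, mul_inv_cancel_right]
      exact hw
    · intro hw
      have h1 : x * (x * w * x⁻¹) = (x * w * x⁻¹) * x := (mem_centralizer_iff.mp (hW hw).2) x hx
      have e : w = x * w * x⁻¹ := by
        have h2 : x * (x * w * x⁻¹) = x * w := by rw [h1]; group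
        exact (mul_left_cancel h2).symm
      rw [e]
      exact hw
  obtain ⟨M, hMX, hMidx, hWM, hvM⟩ := T.hyper X W hWX hall hXn v hvZ.1 hvW
  exact hvM (hfrat M hMX hMidx hvZ)

end Cfsg.Agent.Helper80.N9
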