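import Cfsg.Agent.Helper80.LinChar
import Cfsg.Agent.Helper80.SqrtCount
import Cfsg.Agent.Helper79.FrobSchur
import Cfsg.Agent.Helper79.Codegree

/-!
# Tools for the Alperin–Feit–Thompson involution count (helper80)

* `homOfIndexTwo M hM`: the homomorphism `G →* ℂˣ` with kernel a subgroup `M` of index two.
* `hom_sq_eq_one_iff_real`: `f ^ 2 = 1` iff `f` is real-valued.
* `indicator_hom_of_real`: a real linear character has Frobenius–Schur indicator one.
* `two_group_count_mod_four`: in a `2`-group, `1 + #involutions ≡ a + 2 b (mod 4)` where `a`, `b`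
  are the numbers of real-valued irreducible characters of degree one and two.
-/

set_option autoImplicit false

namespace Cfsg.Agent.Helper80

open Cfsg

open scoped ComplexConjugate

universe u

variable {G : Type u} [Group G]

/-- The homomorphism to `ℂˣ` with kernel a given subgroup of index two. -/
noncomputable def homOfIndexTwo (M : Subgroup G) (hM : M.index = 2) : G →* ℂˣ := by
  classical
  exact
    { toFun := fun g => if g ∈ M then 1 else -1
      map_one' := by simp [M.one_mem]
      map_mul' := fun a b => by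
        have h := Subgroup.mul_mem_iff_of_index_two hM (a := a) (b := b)
        by_cases ha : a ∈ M <;> by_cases hb : b ∈ M <;> simp [ha, hb, h] }

theorem homOfIndexTwo_of_mem (M : Subgroup G) (hM : M.index = 2) {g : G} (hg : g ∈ M) :
    homOfIndexTwo M hM g = 1 := by
  classical
  show (if g ∈ M then (1 : ℂˣ) else -1) = 1
  rw [if_pos hg]

theorem homOfIndexTwo_of_not_mem (M : Subgroup G) (hM : M.index = 2) {g : G} (hg : g ∉ M) :
    homOfIndexTwo M hM g = -1 := by
  classical
  show (if g ∈ M then (1 : ℂˣ) else -1) = -1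
  rw [if_neg hg]

theorem homOfIndexTwo_sq (M : Subgroup G) (hM : M.index = 2) : homOfIndexTwo M hM ^ 2 = 1 := by
  ext g
  rw [MonoidHom.pow_apply, MonoidHom.one_apply]
  by_cases hg : g ∈ M
  · rw [homOfIndexTwo_of_mem M hM hg]; simp
  · rw [homOfIndexTwo_of_not_mem M hM hg]; simp

/-- A homomorphism to `ℂˣ` has square one iff it is real-valued. -/
theorem hom_sq_eq_one_iff_real [Finite G] (f : G →* ℂˣ) :
    f ^ 2 = 1 ↔ ∀ g : G, ((f g : ℂˣ) : ℂ).im = 0 := by
  constructor
  · intro h g
    have h1 : (f g) ^ 2 = 1 := by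
      rw [← MonoidHom.pow_apply, h, MonoidHom.one_apply]
    have h2 : ((f g : ℂˣ) : ℂ) ^ 2 = 1 := by
      rw [← Units.val_pow_eq_pow_val, h1, Units.val_one]
    rcases sq_eq_one_iff.mp h2 with h3 | h3 <;> rw [h3] <;> simp
  · intro h
    ext g
    rw [MonoidHom.pow_apply, MonoidHom.one_apply, Units.val_pow_eq_pow_val, Units.val_one]
    have h1 : ‖((f g : ℂˣ) : ℂ)‖ = 1 := Helper79.norm_hom_apply f g
    have h2 : Complex.normSq ((f g : ℂˣ) : ℂ) = 1 := by
      rw [Complex.normSq_eq_norm_sq, h1, one_pow]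
    have h3 : ((f g : ℂˣ) : ℂ) = (((f g : ℂˣ) : ℂ).re : ℂ) :=
      Complex.ext (by simp) (by simp [h g])
    rw [Complex.normSq_apply, h g, mul_zero, add_zero] at h2
    rw [h3, pow_two, ← Complex.ofReal_mul, h2, Complex.ofReal_one]

/-- A real-valued linear character has Frobenius–Schur indicator one. -/
theorem indicator_hom_of_sq [Fintype G] (f : G →* ℂˣ) (h : f ^ 2 = 1) :
    (Nat.card G : ℂ)⁻¹ * ∑ s : G, (homIrr f : G → ℂ) (s * s) = 1 := by
  have hG : (Nat.card G : ℂ) ≠ 0 := by exact_mod_cast Nat.card_pos.ne'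
  have h1 : ∀ s : G, (homIrr f : G → ℂ) (s * s) = 1 := by
    intro s
    rw [homIrr_apply, ← pow_two, map_pow, ← MonoidHom.pow_apply, h, MonoidHom.one_apply,
      Units.val_one]
  rw [Finset.sum_congr rfl (fun s _ => h1 s), Finset.sum_const, Finset.card_univ, nsmul_eq_mul,
    mul_one, ← Nat.card_eq_fintype_card, inv_mul_cancel₀ hG]

open scoped Classical in
/-- In a finite `2`-group, `1 + #involutions ≡ a + 2 b (mod 4)`, where `a` and `b` are the numbers
of real-valued irreducible characters of degree one and of degree two. -/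
theorem two_group_count_mod_four [Fintype G] [Fintype (IrrCharacter G)] (hG : IsPGroup 2 G) :
    (((Finset.univ.filter (fun x : G => orderOf x = 2)).card + 1 : ℕ) : ZMod 4) =
      ((Finset.univ.filter (fun χ : IrrCharacter G =>
          charDegree (χ : G → ℂ) = 1 ∧ ∀ g : G, ((χ : G → ℂ) g).im = 0)).card : ZMod 4) +
      2 * ((Finset.univ.filter (fun χ : IrrCharacter G =>
          charDegree (χ : G → ℂ) = 2 ∧ ∀ g : G, ((χ : G → ℂ) g).im = 0)).card : ZMod 4) := by
  have hGc : (Nat.card G : ℂ) ≠ 0 := by exact_mod_cast Nat.card_pos.ne'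
  -- the indicators as integers
  have hε : ∀ χ : IrrCharacter G, ∃ ε : ℤ,
      ((Nat.card G : ℂ)⁻¹ * ∑ s : G, (χ : G → ℂ) (s * s) = (ε : ℂ)) ∧
      (ε = 0 ∨ ε = 1 ∨ ε = -1) ∧ (ε = 0 ↔ ∃ s : G, ((χ : G → ℂ) s).im ≠ 0) := by
    intro χ
    obtain ⟨h1, h2⟩ := Helper79.irr_frobenius_schur χ.2
    rcases h1 with h | h | h
    · exact ⟨0, by simpa using h, Or.inl rfl, iff_of_true rfl (h2.mp h)⟩
    · refine ⟨1, by simpa using h, Or.inr (Or.inl rfl), ?_⟩
      constructor
      · intro h'; omega
      · intro h'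
        have h3 := h2.mpr h'
        rw [h] at h3
        exact absurd h3 one_ne_zero
    · refine ⟨-1, by simpa using h, Or.inr (Or.inr rfl), ?_⟩
      constructor
      · intro h'; omega
      · intro h'
        have h3 := h2.mpr h'
        rw [h] at h3
        simp at h3
  choose ε hε1 hε2 hε3 using hε
  have hcount := sum_indicator_mul (G := G) 1
  have h1 : ∀ χ : IrrCharacter G,
      conj ((Fintype.card G : ℂ)⁻¹ * ∑ s : G, (χ : G → ℂ) (s * s)) * (χ : G → ℂ) 1 =
        ((ε χ * (charDegree (χ : G → ℂ) : ℤ) : ℤ) : ℂ) := by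
    intro χ
    rw [← Nat.card_eq_fintype_card, hε1 χ,
      Helper79.isCharacter_one_eq_charDegree (Helper79.irr_isCharacter χ)]
    have : conj ((ε χ : ℤ) : ℂ) = ((ε χ : ℤ) : ℂ) := by simp
    rw [this]
    push_cast
    ring
  have hsq : (Finset.univ.filter (fun u : G => u * u = 1)).card =
      (Finset.univ.filter (fun x : G => orderOf x = 2)).card + 1 := by
    have hf : Finset.univ.filter (fun g : G => g * g = 1) =
        insert 1 (Finset.univ.filter (fun x : G => orderOf x = 2)) := by
      ext g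
      simp only [Finset.mem_filter, Finset.mem_univ, true_and, Finset.mem_insert]
      rw [orderOf_eq_prime_iff, pow_two]
      constructor
      · intro hg
        by_cases hg1 : g = 1
        · exact Or.inl hg1
        · exact Or.inr ⟨hg, hg1⟩
      · rintro (hg | hg)
        · rw [hg, one_mul]
        · exact hg.1
    have hni : (1 : G) ∉ Finset.univ.filter (fun x : G => orderOf x = 2) := by
      rw [Finset.mem_filter]
      rintro ⟨_, h⟩
      rw [orderOf_one] at h
      omega
    rw [hf, Finset.card_insert_of_notMem hni]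
  have h2 : ∑ χ : IrrCharacter G, (ε χ * (charDegree (χ : G → ℂ) : ℤ)) =
      (((Finset.univ.filter (fun x : G => orderOf x = 2)).card + 1 : ℕ) : ℤ) := by
    have h3 : ((∑ χ : IrrCharacter G, (ε χ * (charDegree (χ : G → ℂ) : ℤ)) : ℤ) : ℂ) =
        ((((Finset.univ.filter (fun x : G => orderOf x = 2)).card + 1 : ℕ) : ℤ) : ℂ) := by
      rw [Int.cast_sum, ← Finset.sum_congr rfl (fun χ _ => h1 χ), hcount, hsq]
      push_cast
      ring
    exact_mod_cast h3
  have h3 : (((Finset.univ.filter (fun x : G => orderOf x = 2)).card + 1 : ℕ) : ZMod 4) =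
      ∑ χ : IrrCharacter G, ((ε χ * (charDegree (χ : G → ℂ) : ℤ) : ℤ) : ZMod 4) := by
    rw [← Int.cast_sum, h2, Int.cast_natCast]
  rw [h3]
  obtain ⟨a, ha⟩ := (IsPGroup.iff_card (p := 2)).mp hG
  have hterm : ∀ χ : IrrCharacter G, ((ε χ * (charDegree (χ : G → ℂ) : ℤ) : ℤ) : ZMod 4) =
      (if charDegree (χ : G → ℂ) = 1 ∧ ∀ g : G, ((χ : G → ℂ) g).im = 0 then (1 : ZMod 4) else 0) +
      2 * (if charDegree (χ : G → ℂ) = 2 ∧ ∀ g : G, ((χ : G → ℂ) g).im = 0
        then (1 : ZMod 4) else 0) := by
    intro χ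
    have hd : charDegree (χ : G → ℂ) ∣ 2 ^ a := by
      rw [← ha]; exact Helper79.irr_charDegree_dvd_card χ
    obtain ⟨j, _, hj⟩ := (Nat.dvd_prime_pow Nat.prime_two).mp hd
    by_cases hreal : ∀ g : G, ((χ : G → ℂ) g).im = 0
    · have hε0 : ε χ ≠ 0 := by
        intro h0
        obtain ⟨s, hs⟩ := (hε3 χ).mp h0
        exact hs (hreal s)
      rcases Nat.lt_or_ge j 2 with hj2 | hj2
      · interval_cases j
        · -- degree one
          have hd1 : charDegree (χ : G → ℂ) = 1 := by rw [hj]; rfl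
          obtain ⟨f, hf⟩ := exists_hom_of_linear χ hd1
          have hfr : f ^ 2 = 1 := by
            rw [hom_sq_eq_one_iff_real]
            intro g
            have := hreal g
            rw [← hf] at this
            exact this
          have hind := indicator_hom_of_sq f hfr
          rw [hf, hε1 χ] at hind
          have hε1' : ε χ = 1 := by exact_mod_cast hind
          rw [hε1', hd1, if_pos ⟨rfl, hreal⟩, if_neg (by rintro ⟨h, _⟩; omega)]
          simp
        · -- degree two
          have hd2 : charDegree (χ : G → ℂ) = 2 := by rw [hj]; rfl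
          rw [hd2, if_neg (by rintro ⟨h, _⟩; omega), if_pos ⟨rfl, hreal⟩]
          rcases hε2 χ with h | h | h
          · exact absurd h hε0
          · rw [h]; decide
          · rw [h]; decide
      · -- degree divisible by four
        have h4 : 4 ∣ charDegree (χ : G → ℂ) := by
          rw [hj]
          exact pow_dvd_pow 2 hj2
        have hd1 : charDegree (χ : G → ℂ) ≠ 1 := by
          intro h; rw [h] at h4; omega
        have hd2 : charDegree (χ : G → ℂ) ≠ 2 := by
          intro h; rw [h] at h4; omega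
        rw [if_neg (fun h => hd1 h.1), if_neg (fun h => hd2 h.1)]
        push_cast
        rw [(ZMod.natCast_eq_zero_iff _ 4).mpr h4]
        simp
    · have hε0 : ε χ = 0 := by
        rw [hε3 χ]
        push Not at hreal
        exact hreal
      rw [hε0, if_neg (fun h => hreal h.2), if_neg (fun h => hreal h.2)]
      simp
  rw [Finset.sum_congr rfl (fun χ _ => hterm χ), Finset.sum_add_distrib, ← Finset.mul_sum,
    Finset.sum_boole, Finset.sum_boole]

/-- The group of homomorphisms `G →* ℂˣ` of square one. -/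
def sqOne (G : Type u) [Group G] : Subgroup (G →* ℂˣ) where
  carrier := {f | f ^ 2 = 1}
  one_mem' := one_pow 2
  mul_mem' := fun {a b} ha hb => by
    have ha' : a ^ 2 = 1 := ha
    have hb' : b ^ 2 = 1 := hb
    show (a * b) ^ 2 = 1
    ext g
    have ha'' := DFunLike.congr_fun ha' g
    have hb'' := DFunLike.congr_fun hb' g
    simp only [MonoidHom.pow_apply, MonoidHom.mul_apply, MonoidHom.one_apply] at ha'' hb'' ⊢
    rw [mul_pow, ha'', hb'', one_mul]
  inv_mem' := fun {a} ha => by
    have ha' : a ^ 2 = 1 := ha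
    show a⁻¹ ^ 2 = 1
    ext g
    have ha'' := DFunLike.congr_fun ha' g
    simp only [MonoidHom.pow_apply, MonoidHom.inv_apply, MonoidHom.one_apply] at ha'' ⊢
    rw [inv_pow, ha'', inv_one]

theorem mem_sqOne (f : G →* ℂˣ) : f ∈ sqOne G ↔ f ^ 2 = 1 := Iff.rfl

theorem isPGroup_sqOne : IsPGroup 2 (sqOne G) := by
  intro f
  refine ⟨1, ?_⟩
  apply Subtype.ext
  have h : (f : G →* ℂˣ) ^ 2 = 1 := f.2
  simpa using h

theorem irrTwist_mul (f f' : G →* ℂˣ) (χ : IrrCharacter G) :
    Helper79.irrTwist (f * f') χ = Helper79.irrTwist f (Helper79.irrTwist f' χ) := by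
  apply Subtype.ext
  funext g
  simp only [Helper79.irrTwist_apply, MonoidHom.mul_apply, Units.val_mul]
  ring

theorem irrTwist_comm (f f' : G →* ℂˣ) (χ : IrrCharacter G) :
    Helper79.irrTwist f (Helper79.irrTwist f' χ) =
      Helper79.irrTwist f' (Helper79.irrTwist f χ) := by
  apply Subtype.ext
  funext g
  simp only [Helper79.irrTwist_apply]
  ring

theorem irrTwist_sq (f : G →* ℂˣ) (χ : IrrCharacter G) :
    Helper79.irrTwist f (Helper79.irrTwist f χ) = Helper79.irrTwist (f ^ 2) χ := by
  apply Subtype.ext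
  funext g
  simp only [Helper79.irrTwist_apply, MonoidHom.pow_apply, Units.val_pow_eq_pow_val]
  ring

theorem irrTwist_one (χ : IrrCharacter G) : Helper79.irrTwist (1 : G →* ℂˣ) χ = χ := by
  apply Subtype.ext
  funext g
  simp [Helper79.irrTwist_apply]

/-- Twisting a real-valued character by a real-valued linear character gives a real-valued
character. -/
theorem irrTwist_real [Finite G] (f : G →* ℂˣ) (hf : f ^ 2 = 1) (χ : IrrCharacter G)
    (hχ : ∀ g : G, ((χ : G → ℂ) g).im = 0) (g : G) :
    ((Helper79.irrTwist f χ : G → ℂ) g).im = 0 := by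
  rw [Helper79.irrTwist_apply, Complex.mul_im, hχ g, (hom_sq_eq_one_iff_real f).mp hf g]
  ring

/-- In a finite `2`-group every proper subgroup lies in a subgroup of index two. -/
theorem exists_index_two_ge [Finite G] (hG : IsPGroup 2 G) (H : Subgroup G) (hH : H ≠ ⊤) :
    ∃ M : Subgroup G, M.index = 2 ∧ H ≤ M := by
  obtain ⟨a, ha⟩ := (IsPGroup.iff_card (p := 2)).mp hG
  obtain ⟨n, hn⟩ := (IsPGroup.iff_card (p := 2)).mp (hG.to_subgroup H)
  have hdvd : Nat.card H ∣ Nat.card G := Subgroup.card_subgroup_dvd_card H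
  rw [ha, hn] at hdvd
  have hna : n ≤ a := (Nat.pow_dvd_pow_iff_le_right (by norm_num)).mp hdvd
  have hne : n ≠ a := by
    intro h
    apply hH
    rw [← Subgroup.card_eq_iff_eq_top, hn, ha, h]
  have ha1 : a - 1 + 1 = a := by omega
  have hd2 : 2 ^ (a - 1) ∣ Nat.card G := by
    rw [ha]; exact pow_dvd_pow 2 (by omega)
  obtain ⟨K, hK, hHK⟩ := Sylow.exists_subgroup_card_pow_prime_le 2 hd2 H hn (by omega)
  refine ⟨K, ?_, hHK⟩
  have h1 := Subgroup.card_mul_index K
  rw [hK, ha] at h1
  have h2 : 2 ^ (a - 1) * K.index = 2 ^ (a - 1) * 2 := by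
    rw [h1, ← pow_succ, ha1]
  exact Nat.eq_of_mul_eq_mul_left (by positivity) h2

/-- In a non-cyclic finite `2`-group the number of real linear characters is divisible by four. -/
theorem four_dvd_card_sqOne [Finite G] (hG : IsPGroup 2 G) (hcyc : ¬ IsCyclic G) :
    4 ∣ Nat.card (sqOne G) := by
  classical
  have hfin : Finite (G →* ℂˣ) := finite_hom
  have hbot : (⊥ : Subgroup G) ≠ ⊤ := by
    intro h
    apply hcyc
    have : Subsingleton G := by
      rw [← Subgroup.subsingleton_iff]
      exact ⟨fun a b => by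
        have ha : a = ⊥ := by
          apply le_antisymm _ bot_le
          rw [h]; exact le_top
        have hb : b = ⊥ := by
          apply le_antisymm _ bot_le
          rw [h]; exact le_top
        rw [ha, hb]⟩
    exact isCyclic_of_subsingleton
  obtain ⟨M, hM, _⟩ := exists_index_two_ge hG ⊥ hbot
  have hMtop : M ≠ ⊤ := by
    intro h
    rw [h, Subgroup.index_top] at hM
    omega
  obtain ⟨x, hx⟩ : ∃ x : G, x ∉ M := by
    by_contra hcon
    push Not at hcon
    exact hMtop (eq_top_iff.mpr (fun y _ => hcon y))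
  have hz : Subgroup.zpowers x ≠ ⊤ := by
    intro h
    apply hcyc
    exact ⟨⟨x, fun y => by
      have hy : y ∈ Subgroup.zpowers x := by rw [h]; trivial
      exact Subgroup.mem_zpowers_iff.mp hy⟩⟩
  obtain ⟨M', hM', hxM'⟩ := exists_index_two_ge hG (Subgroup.zpowers x) hz
  have hM'top : M' ≠ ⊤ := by
    intro h
    rw [h, Subgroup.index_top] at hM'
    omega
  obtain ⟨y, hy⟩ : ∃ y : G, y ∉ M' := by
    by_contra hcon
    push Not at hcon
    exact hM'top (eq_top_iff.mpr (fun y _ => hcon y))
  have hxM : x ∈ M' := hxM' (Subgroup.mem_zpowers x)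
  have hneg : (-1 : ℂˣ) ≠ 1 := by
    intro h
    have h1 : ((-1 : ℂˣ) : ℂ) = ((1 : ℂˣ) : ℂ) := by rw [h]
    norm_num at h1
  let f₁ : sqOne G := ⟨homOfIndexTwo M hM, homOfIndexTwo_sq M hM⟩
  let f₂ : sqOne G := ⟨homOfIndexTwo M' hM', homOfIndexTwo_sq M' hM'⟩
  have h1 : f₁ ≠ 1 := by
    intro h
    have h2 : homOfIndexTwo M hM x = 1 := by
      have : (f₁ : G →* ℂˣ) = 1 := by rw [h]; rfl
      rw [show homOfIndexTwo M hM = (f₁ : G →* ℂˣ) from rfl, this]; rfl
    rw [homOfIndexTwo_of_not_mem M hM hx] at h2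
    exact hneg h2
  have h2 : f₂ ≠ 1 := by
    intro h
    have h2 : homOfIndexTwo M' hM' y = 1 := by
      have : (f₂ : G →* ℂˣ) = 1 := by rw [h]; rfl
      rw [show homOfIndexTwo M' hM' = (f₂ : G →* ℂˣ) from rfl, this]; rfl
    rw [homOfIndexTwo_of_not_mem M' hM' hy] at h2
    exact hneg h2
  have h3 : f₁ ≠ f₂ := by
    intro h
    have h4 : homOfIndexTwo M hM x = homOfIndexTwo M' hM' x := by
      have : (f₁ : G →* ℂˣ) = (f₂ : G →* ℂˣ) := by rw [h]
      exact congrFun (congrArg DFunLike.coe this) x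
    rw [homOfIndexTwo_of_not_mem M hM hx, homOfIndexTwo_of_mem M' hM' hxM] at h4
    exact hneg h4
  have : Fintype (sqOne G) := Fintype.ofFinite _
  have hcard3 : 3 ≤ Nat.card (sqOne G) := by
    rw [Nat.card_eq_fintype_card]
    have h4 : ({f₁, f₂, 1} : Finset (sqOne G)).card = 3 :=
      Finset.card_eq_three.mpr ⟨f₁, f₂, 1, h3, h1, h2, rfl⟩
    rw [← h4]
    exact Finset.card_le_univ _
  obtain ⟨k, hk⟩ := (IsPGroup.iff_card (p := 2)).mp (isPGroup_sqOne (G := G))
  rw [hk] at hcard3 ⊢
  have hk2 : 2 ≤ k := by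
    by_contra hcon
    have hk1 : k ≤ 1 := by omega
    have : 2 ^ k ≤ 2 ^ 1 := Nat.pow_le_pow_right (by norm_num) hk1
    omega
  exact pow_dvd_pow 2 hk2

/-- The number of real-valued linear characters is the order of `sqOne G`. -/
theorem card_real_linear [Finite G] :
    Nat.card {χ : IrrCharacter G //
      charDegree (χ : G → ℂ) = 1 ∧ ∀ g : G, ((χ : G → ℂ) g).im = 0} = Nat.card (sqOne G) := by
  have e : sqOne G ≃ {χ : IrrCharacter G //
      charDegree (χ : G → ℂ) = 1 ∧ ∀ g : G, ((χ : G → ℂ) g).im = 0} := by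
    refine Equiv.ofBijective
      (fun f => ⟨homIrr f.1, charDegree_homIrr f.1, (hom_sq_eq_one_iff_real f.1).mp f.2⟩) ⟨?_, ?_⟩
    · intro f f' h
      apply Subtype.ext
      apply homIrr_injective
      exact congrArg Subtype.val h
    · rintro ⟨χ, hχ1, hχr⟩
      obtain ⟨f, hf⟩ := exists_hom_of_linear χ hχ1
      have hf2 : f ^ 2 = 1 := by
        rw [hom_sq_eq_one_iff_real]
        intro g
        have := hχr g
        rw [← hf] at this
        exact this
      exact ⟨⟨f, hf2⟩, Subtype.ext hf⟩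
  exact Nat.card_congr e.symm

/-- `two_group_count_mod_four` in terms of `Nat.card` of subtypes. -/
theorem two_group_count_mod_four' [Finite G] (hG : IsPGroup 2 G) :
    ((Nat.card {x : G // orderOf x = 2} + 1 : ℕ) : ZMod 4) =
      (Nat.card {χ : IrrCharacter G //
        charDegree (χ : G → ℂ) = 1 ∧ ∀ g : G, ((χ : G → ℂ) g).im = 0} : ZMod 4) +
      2 * (Nat.card {χ : IrrCharacter G //
        charDegree (χ : G → ℂ) = 2 ∧ ∀ g : G, ((χ : G → ℂ) g).im = 0} : ZMod 4) := by
  classical
  have : Fintype G := Fintype.ofFinite G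
  have : Fintype (IrrCharacter G) := Fintype.ofFinite _
  have h := two_group_count_mod_four (G := G) hG
  simp only [Nat.card_eq_fintype_card, Fintype.card_subtype]
  convert h using 3

end Cfsg.Agent.Helper80
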