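import Mathlib
import Cfsg.Agent.Helper12.AMDefs

/-!
# PIECE SMALL of CALL S2506 (helper12): at most two points (helper80)
-/

set_option autoImplicit false

namespace Cfsg.Agent.Helper80.AMSMALL

open Cfsg.Agent.Helper12.AM

variable {α : Type*} [Fintype α] [DecidableEq α]

-- PIECE SMALL
theorem small_case (A B : Subgroup (Equiv.Perm α)) (hA : A ≤ alternatingGroup α)
    (hB : B ≤ alternatingGroup α) (h : Fintype.card α ≤ 2) :
    ∃ g ∈ alternatingGroup α, B = A.map (MulAut.conj g).toMonoidHom := by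
  have hbot : alternatingGroup α = ⊥ :=
    alternatingGroup.eq_bot_of_card_le_two (by rw [Nat.card_eq_fintype_card]; exact h)
  rw [hbot] at hA hB
  have hA' : A = ⊥ := le_bot_iff.mp hA
  have hB' : B = ⊥ := le_bot_iff.mp hB
  refine ⟨1, one_mem _, ?_⟩
  rw [hA', hB', Subgroup.map_bot]

end Cfsg.Agent.Helper80.AMSMALL
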