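import Mathlib
import Cfsg.Agent.Helper12.AMDefs

/-!
# Transport of witnesses for CALL S2506 (helper12): an abelian subgroup of `A_k` of order `≥ w`
gives `Wit α k w` (helper80)
-/

set_option autoImplicit false

namespace Cfsg.Agent.Helper80.AMWit

open Cfsg.Agent.Helper12.AM

variable {α : Type*} [Fintype α] [DecidableEq α]

/-- An abelian group of even permutations of `Fin k` of order at least `w` can be transported
to any set with at least `k` points. -/
theorem wit_of_model (k w : ℕ) (K : Subgroup (Equiv.Perm (Fin k)))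
    (hK : K ≤ alternatingGroup (Fin k)) (hab : ∀ a ∈ K, ∀ b ∈ K, a * b = b * a)
    (hcard : w ≤ Nat.card K) : Wit α k w := by
  intro U hU
  obtain ⟨t, htU, htc⟩ := Finset.exists_subset_card_eq hU
  let e : ↥t ≃ Fin k := Finset.equivFinOfCardEq htc
  let φ : Equiv.Perm (Fin k) →* Equiv.Perm α :=
    (Equiv.Perm.ofSubtype (p := fun x => x ∈ t)).comp (Equiv.permCongrHom e.symm).toMonoidHom
  have hφinj : Function.Injective φ :=
    Equiv.Perm.ofSubtype_injective.comp (MulEquiv.injective _)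
  have hsign : ∀ σ, Equiv.Perm.sign (φ σ) = Equiv.Perm.sign σ := by
    intro σ
    show Equiv.Perm.sign (Equiv.Perm.ofSubtype (e.symm.permCongr σ)) = _
    rw [Equiv.Perm.sign_ofSubtype, Equiv.Perm.sign_permCongr]
  have hfix : ∀ σ x, x ∉ t → φ σ x = x :=
    fun σ x hx => Equiv.Perm.ofSubtype_apply_of_not_mem _ hx
  refine ⟨K.map φ, ?_, ?_, ?_, ?_⟩
  · rintro _ ⟨σ, hσ, rfl⟩
    rw [Equiv.Perm.mem_alternatingGroup, hsign]
    exact Equiv.Perm.mem_alternatingGroup.mp (hK hσ)
  · rintro _ ⟨σ, hσ, rfl⟩ _ ⟨τ, hτ, rfl⟩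
    rw [← map_mul, ← map_mul, hab σ hσ τ hτ]
  · rintro _ ⟨σ, hσ, rfl⟩ x hx
    exact hfix σ x (fun h => hx (htU h))
  · rw [Subgroup.card_map_of_injective hφinj]
    exact hcard

/-- The cyclic group generated by an even permutation of `Fin k` of order `w`. -/
theorem wit_of_cyclic (k w : ℕ) (c : Equiv.Perm (Fin k)) (hc : Equiv.Perm.sign c = 1)
    (hord : orderOf c = w) : Wit α k w := by
  refine wit_of_model k w (Subgroup.zpowers c) ?_ ?_ ?_
  · rw [Subgroup.zpowers_le]
    exact Equiv.Perm.mem_alternatingGroup.mpr hc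
  · rintro _ ⟨m, rfl⟩ _ ⟨n, rfl⟩
    exact zpow_mul_comm c m n
  · rw [Nat.card_zpowers, hord]

end Cfsg.Agent.Helper80.AMWit
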