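import Mathlib
import Cfsg.Agent.Helper12.AMDefs
import Cfsg.Agent.Helper80.AMWit

/-!
# PIECE W4 of CALL S2506 (helper12): a Klein four-group of even permutations on any four points
(helper80)
-/

set_option autoImplicit false

namespace Cfsg.Agent.Helper80.AMW4

open Cfsg.Agent.Helper12.AM

variable {α : Type*} [Fintype α] [DecidableEq α]

set_option maxRecDepth 100000 in
theorem v4_mul : ∀ a b : Equiv.Perm (Fin 4), (a ^ 2 = 1 ∧ Equiv.Perm.sign a = 1) →
    (b ^ 2 = 1 ∧ Equiv.Perm.sign b = 1) → ((a * b) ^ 2 = 1 ∧ Equiv.Perm.sign (a * b) = 1) := by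
  decide +kernel

set_option maxRecDepth 100000 in
theorem v4_inv : ∀ a : Equiv.Perm (Fin 4), (a ^ 2 = 1 ∧ Equiv.Perm.sign a = 1) →
    (a⁻¹ ^ 2 = 1 ∧ Equiv.Perm.sign a⁻¹ = 1) := by
  decide +kernel

set_option maxRecDepth 100000 in
theorem v4_comm : ∀ a b : Equiv.Perm (Fin 4), (a ^ 2 = 1 ∧ Equiv.Perm.sign a = 1) →
    (b ^ 2 = 1 ∧ Equiv.Perm.sign b = 1) → a * b = b * a := by
  decide +kernel

theorem v4_card :
    Fintype.card {g : Equiv.Perm (Fin 4) // g ^ 2 = 1 ∧ Equiv.Perm.sign g = 1} = 4 := by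
  decide +kernel

/-- The Klein four-group in `Perm (Fin 4)`: the even permutations of square `1`. -/
def v4 : Subgroup (Equiv.Perm (Fin 4)) where
  carrier := {g | g ^ 2 = 1 ∧ Equiv.Perm.sign g = 1}
  mul_mem' := fun {a b} ha hb => v4_mul a b ha hb
  one_mem' := ⟨one_pow 2, map_one _⟩
  inv_mem' := fun {a} ha => v4_inv a ha

-- PIECE W4
theorem wit_four : Wit α 4 4 := by
  refine Cfsg.Agent.Helper80.AMWit.wit_of_model 4 4 v4 ?_ ?_ ?_
  · intro g hg
    exact Equiv.Perm.mem_alternatingGroup.mpr hg.2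
  · intro a ha b hb
    exact v4_comm a b ha hb
  · have h : Nat.card ↥v4 =
        Nat.card {g : Equiv.Perm (Fin 4) // g ^ 2 = 1 ∧ Equiv.Perm.sign g = 1} := rfl
    rw [h, Nat.card_eq_fintype_card, v4_card]

end Cfsg.Agent.Helper80.AMW4
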