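import Mathlib
import Cfsg.Agent.Helper12.AMDefs
import Cfsg.Agent.Helper80.AMWit

/-!
# PIECE W5 of CALL S2506 (helper12): a `5`-cycle on any five points (helper80)
-/

set_option autoImplicit false

namespace Cfsg.Agent.Helper80.AMW5

open Cfsg.Agent.Helper12.AM

variable {α : Type*} [Fintype α] [DecidableEq α]

-- PIECE W5
theorem wit_five : Wit α 5 5 := by
  refine Cfsg.Agent.Helper80.AMWit.wit_of_cyclic 5 5 (finRotate 5) ?_ ?_
  · rw [sign_finRotate]
    rfl
  · rw [Equiv.Perm.IsCycle.orderOf (isCycle_finRotate (n := 3)), support_finRotate,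
      Finset.card_univ, Fintype.card_fin]

end Cfsg.Agent.Helper80.AMW5
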