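import Mathlib
import Cfsg.Prelude.Def_CaseTheorems
import Cfsg.Prelude.Def_OddOrderLocal
import Cfsg.Agent.Helper84.BkJ3r

/-! PIECE J3f of CALL S3888 (helper65): Blackburn, family III final assembly — helper80. -/

set_option autoImplicit false

namespace Cfsg.Agent.Helper80

section BkJ3f

variable {G : Type*} [Group G] [Finite G] {p : ℕ} [Fact p.Prime]

omit [Finite G] in
/-- If `g ^ p = 1` and `p ∤ a` then `g` is a power of `g ^ a`. -/
theorem bkJ3f_mem_of_pow_mem (H : Subgroup G) {g : G} (hg : g ^ p = 1) {a : ℕ} (ha : ¬ p ∣ a)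
    (h : g ^ a ∈ H) : g ∈ H := by
  have hp : p.Prime := Fact.out
  have hcop : Nat.Coprime a (orderOf g) := by
    have h1 : Nat.Coprime a p := Nat.Coprime.symm ((Nat.Prime.coprime_iff_not_dvd hp).2 ha)
    exact Nat.Coprime.coprime_dvd_right (orderOf_dvd_of_pow_eq_one hg) h1
  obtain ⟨m, hm⟩ := exists_pow_eq_self_of_coprime hcop
  rw [← hm]
  exact H.pow_mem h m

/-- A subgroup of order `p ^ 3` is generated by two of its elements that do not commute. -/
theorem bkJ3f_gen (E : Subgroup G) (hE : Nat.card E = p ^ 3) (x y w : G) (hx : x ∈ E)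
    (hy : y ∈ E) (hw1 : w ≠ 1) (hxy : x * y * x⁻¹ * y⁻¹ = w) :
    E ≤ Subgroup.closure ({x, y} : Set G) := by
  have hp : p.Prime := Fact.out
  obtain ⟨H0, hH0⟩ : ∃ H0 : Subgroup G, H0 = Subgroup.closure ({x, y} : Set G) := ⟨_, rfl⟩
  rw [← hH0]
  have hle : H0 ≤ E := by
    rw [hH0, Subgroup.closure_le]
    intro g hg
    rcases hg with rfl | hg
    · exact hx
    · rw [Set.mem_singleton_iff] at hg
      rw [hg]; exact hy
  have hxH : x ∈ H0 := by rw [hH0]; exact Subgroup.subset_closure (by simp)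
  have hyH : y ∈ H0 := by rw [hH0]; exact Subgroup.subset_closure (by simp)
  have hdvd : Nat.card H0 ∣ p ^ 3 := by rw [← hE]; exact Subgroup.card_dvd_of_le hle
  obtain ⟨k, hk, hcard⟩ := (Nat.dvd_prime_pow hp).1 hdvd
  by_cases hk3 : k = 3
  · have : H0 = E := Subgroup.eq_of_le_of_card_ge hle (by rw [hcard, hk3, hE])
    rw [this]
  · exfalso
    apply hw1
    have hcomm : ∀ a b : H0, a * b = b * a := by
      have hk2 : k ≤ 2 := by omega
      interval_cases k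
      · rw [pow_zero] at hcard
        have hsub : Subsingleton H0 := (Nat.card_eq_one_iff_unique.1 hcard).1
        intro a b
        rw [Subsingleton.elim a b]
      · rw [pow_one] at hcard
        have hcyc : IsCyclic H0 := isCyclic_of_prime_card hcard
        exact isMulCommutative_iff.1 IsCyclic.isMulCommutative
      · exact isMulCommutative_iff.1 (IsPGroup.isMulCommutative_of_card_eq_prime_sq hcard)
    have h1 := hcomm ⟨x, hxH⟩ ⟨y, hyH⟩
    have hxy' : x * y = y * x := congrArg Subtype.val h1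
    rw [← hxy, hxy']
    group

/-- PIECE J3f of CALL S3888. -/
theorem bk_f2_final (hp : p ≠ 2) (n : ℕ) (hG : Nat.card G = p ^ n)
    (E : Subgroup G) [E.Normal] (hE : Nat.card E = p ^ 3) (hexp : ∀ e ∈ E, e ^ p = 1)
    (x y w : G) (hx : x ∈ E) (hy : y ∈ E) (hw : w ∈ E) (hw1 : w ≠ 1)
    (hwc : w ∈ Subgroup.center G) (hxy : x * y * x⁻¹ * y⁻¹ = w)
    (hY : ∀ g : G, g * y * g⁻¹ * y⁻¹ ∈ Subgroup.zpowers w)
    (hX : ∀ g : G, ∃ i j : ℕ, g * x * g⁻¹ * x⁻¹ = y ^ i * w ^ j)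
    (hΩ : ∀ v ∈ Subgroup.centralizer (E : Set G), v ^ p = 1 → v ∈ Subgroup.zpowers w)
    (hker : ∀ g : G, g * x * g⁻¹ * x⁻¹ ∈ Subgroup.zpowers w →
      ∃ e ∈ E, ∃ c ∈ Subgroup.centralizer (E : Set G), g = e * c)
    (z : G) (hzy : z * y = y * z)
    (hzK : ¬ ∃ e ∈ E, ∃ c ∈ Subgroup.centralizer (E : Set G), z = e * c)
    (hzp : z ^ p ∈ Subgroup.centralizer (E : Set G))
    (hzgen : ∀ v ∈ Subgroup.centralizer (E : Set G), v ∈ Subgroup.zpowers (z ^ p))
    (hidx : ∀ h : G, ∃ i : ℕ, ∃ e ∈ E, ∃ c ∈ Subgroup.centralizer (E : Set G), z ^ i * h = e * c) :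
    4 ≤ n ∧ ∃ (s : ℕ) (x y z : G), (s = 1 ∨ ¬ IsSquare (s : ZMod p)) ∧
      Subgroup.closure ({x, y, z} : Set G) = ⊤ ∧ x ^ p = 1 ∧ y ^ p = 1 ∧ z ^ p ^ (n - 2) = 1 ∧
      y * z = z * y ∧ x⁻¹ * y * x = y * z ^ (s * p ^ (n - 3)) ∧ x⁻¹ * z * x = y * z := by
  have hpp : p.Prime := Fact.out
  have hwcomm : ∀ g : G, Commute g w := fun g => Subgroup.mem_center_iff.1 hwc g
  have hwC : w ∈ Subgroup.centralizer (E : Set G) := by
    rw [Subgroup.mem_centralizer_iff]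
    intro e _
    exact hwcomm e
  have hwp : w ^ p = 1 := hexp w hw
  have hxp : x ^ p = 1 := hexp x hx
  have hyp : y ^ p = 1 := hexp y hy
  -- the quotient by `E` is cyclic, generated by the image of `z`
  have hmemQ : ∀ q : G ⧸ E, q ∈ Subgroup.zpowers (QuotientGroup.mk' E z) := by
    intro q
    obtain ⟨h, rfl⟩ := QuotientGroup.mk'_surjective E q
    obtain ⟨i, e, he, c, hc, hic⟩ := hidx h
    obtain ⟨k, hk⟩ := Subgroup.mem_zpowers_iff.1 (hzgen c hc)
    have h1 : h = (z ^ i)⁻¹ * (e * c) := by rw [← hic]; group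
    have he1 : (QuotientGroup.mk' E) e = 1 := (QuotientGroup.eq_one_iff e).2 he
    have h2 : (QuotientGroup.mk' E) h = (QuotientGroup.mk' E z) ^ (-(i : ℤ) + p * k) := by
      rw [h1, map_mul, map_mul, map_inv, map_pow, he1, one_mul, ← hk, map_zpow, map_pow,
        zpow_add, zpow_neg, zpow_natCast, zpow_mul, zpow_natCast]
    rw [h2]
    exact Subgroup.zpow_mem_zpowers _ _
  have hordQ : orderOf (QuotientGroup.mk' E z) = Nat.card (G ⧸ E) :=
    orderOf_eq_card_of_forall_mem_zpowers hmemQ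
  have hcardQ : Nat.card (G ⧸ E) * p ^ 3 = p ^ n := by
    rw [← hE, ← hG]
    exact (Subgroup.card_eq_card_quotient_mul_card_subgroup E).symm
  have hn3 : 3 ≤ n := by
    have : p ^ 3 ∣ p ^ n := Dvd.intro_left _ hcardQ
    exact (Nat.pow_dvd_pow_iff_le_right hpp.one_lt).1 this
  have hcardQ' : Nat.card (G ⧸ E) = p ^ (n - 3) := by
    have : p ^ n = p ^ (n - 3) * p ^ 3 := by rw [← pow_add]; congr 1; omega
    rw [this] at hcardQ
    exact Nat.eq_of_mul_eq_mul_right (pow_pos hpp.pos 3) hcardQ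
  have hn4 : 4 ≤ n := by
    by_contra hlt
    have hn : n = 3 := by omega
    rw [hn, Nat.sub_self, pow_zero] at hcardQ'
    rw [hcardQ'] at hordQ
    have h1 : (QuotientGroup.mk' E z) = 1 := orderOf_eq_one_iff.1 hordQ
    have hzE : z ∈ E := (QuotientGroup.eq_one_iff z).1 h1
    exact hzK ⟨z, hzE, 1, Subgroup.one_mem _, (mul_one z).symm⟩
  refine ⟨hn4, ?_⟩
  -- the element `w0 = z ^ p ^ (n - 3)` of order `p`
  obtain ⟨w0, hw0⟩ : ∃ w0 : G, w0 = z ^ p ^ (n - 3) := ⟨_, rfl⟩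
  have hw0E : w0 ∈ E := by
    rw [← QuotientGroup.eq_one_iff, hw0]
    have h1 : (QuotientGroup.mk' E) (z ^ p ^ (n - 3)) = 1 := by
      rw [map_pow, ← hcardQ', ← hordQ, pow_orderOf_eq_one]
    exact h1
  have hw0C : w0 ∈ Subgroup.centralizer (E : Set G) := by
    have h1 : p ^ (n - 3) = p * p ^ (n - 4) := by rw [← pow_succ']; congr 1; omega
    rw [hw0, h1, pow_mul]
    exact Subgroup.pow_mem _ hzp _
  have hw0p : w0 ^ p = 1 := hexp w0 hw0E
  have hw0w : w0 ∈ Subgroup.zpowers w := hΩ w0 hw0C hw0p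
  have hw0c : ∀ g : G, g * w0 = w0 * g := by
    obtain ⟨r, hr⟩ := Subgroup.mem_zpowers_iff.1 hw0w
    intro g
    rw [← hr]
    exact Commute.zpow_right (hwcomm g) r
  have hww0 : w ∈ Subgroup.zpowers w0 := by
    obtain ⟨k, hk⟩ := Subgroup.mem_zpowers_iff.1 (hzgen w hwC)
    have h1 : (QuotientGroup.mk' E z) ^ ((p : ℤ) * k) = 1 := by
      have h0 : (QuotientGroup.mk' E) w = 1 := (QuotientGroup.eq_one_iff w).2 hw
      rw [← hk] at h0
      have e : (QuotientGroup.mk' E) ((z ^ p) ^ k) = (QuotientGroup.mk' E z) ^ ((p : ℤ) * k) := by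
        rw [map_zpow, map_pow, zpow_mul, zpow_natCast]
      rw [← e]
      exact h0
    have h2 := orderOf_dvd_iff_zpow_eq_one.2 h1
    rw [hordQ, hcardQ'] at h2
    obtain ⟨l, hl⟩ := h2
    rw [Subgroup.mem_zpowers_iff]
    refine ⟨l, ?_⟩
    rw [hw0, ← zpow_natCast, ← zpow_mul, ← hl, zpow_mul, zpow_natCast, hk]
  have hw01 : w0 ≠ 1 := by
    intro h
    rw [h, Subgroup.zpowers_one_eq_bot, Subgroup.mem_bot] at hww0
    exact hw1 hww0
  have hzpow : z ^ p ^ (n - 2) = 1 := by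
    have h1 : p ^ (n - 2) = p ^ (n - 3) * p := by rw [← pow_succ]; congr 1; omega
    rw [h1, pow_mul, ← hw0, hw0p]
  have hordw0 : orderOf w0 = p := orderOf_eq_prime hw0p hw01
  have hordw : orderOf w = p := orderOf_eq_prime hwp hw1
  -- conjugation by `x⁻¹`
  have hφy : x⁻¹ * y * x = y * w⁻¹ := by
    have h1 : y * (x⁻¹ * y⁻¹ * x) = w := by
      calc y * (x⁻¹ * y⁻¹ * x) = x⁻¹ * (x * y * x⁻¹ * y⁻¹) * x := by group
        _ = x⁻¹ * w * x := by rw [hxy]
        _ = w := by rw [mul_assoc, ← (hwcomm x).eq, ← mul_assoc, inv_mul_cancel, one_mul]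
    have h2 : x⁻¹ * y⁻¹ * x = y⁻¹ * w := by rw [← h1]; group
    have h3 : x⁻¹ * y * x = (x⁻¹ * y⁻¹ * x)⁻¹ := by group
    rw [h3, h2, mul_inv_rev, inv_inv]
    exact ((hwcomm y).inv_right).eq.symm
  have hφw : x⁻¹ * w * x = w := by
    rw [mul_assoc, ← (hwcomm x).eq, ← mul_assoc, inv_mul_cancel, one_mul]
  obtain ⟨φ, hφ⟩ : ∃ φ : G →* G, ∀ g : G, φ g = x⁻¹ * g * x :=
    ⟨(MulAut.conj x⁻¹).toMonoidHom, fun g => by
      rw [MulEquiv.coe_toMonoidHom, MulAut.conj_apply, inv_inv]⟩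
  obtain ⟨i, j, hij⟩ := hX z
  have hpi : ¬ p ∣ i := by
    rintro ⟨k, rfl⟩
    apply hzK
    apply hker z
    rw [hij, pow_mul, hyp, one_pow, one_mul]
    exact Subgroup.pow_mem _ (Subgroup.mem_zpowers w) j
  have hcyw : Commute y w⁻¹ := (hwcomm y).inv_right
  have hY1 : x⁻¹ * z * x * z⁻¹ = (y * w⁻¹) ^ i * w ^ j := by
    have h1 : x⁻¹ * z * x * z⁻¹ = φ (z * x * z⁻¹ * x⁻¹) := by
      rw [hφ]; group
    rw [h1, hij, map_mul, map_pow, map_pow, hφ, hφ, hφy, hφw]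
  have hY1x : x⁻¹ * (x⁻¹ * z * x * z⁻¹) * x = (x⁻¹ * z * x * z⁻¹) * (w⁻¹) ^ i := by
    rw [hY1, ← hφ, map_mul, map_pow, map_pow, map_mul, map_inv, hφ, hφ, hφy, hφw]
    have hc1 : Commute (y * w⁻¹) w⁻¹ := (hwcomm (y * w⁻¹)).inv_right
    rw [hc1.mul_pow, mul_assoc, mul_assoc]
    congr 1
    exact ((hwcomm (w⁻¹ ^ i)).pow_right j).eq
  have hY1E : x⁻¹ * z * x * z⁻¹ ∈ E := by
    rw [hY1]
    exact E.mul_mem (E.pow_mem (E.mul_mem hy (E.inv_mem hw)) i) (E.pow_mem hw j)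
  have hY1p : (x⁻¹ * z * x * z⁻¹) ^ p = 1 := hexp _ hY1E
  have hY1z : (x⁻¹ * z * x * z⁻¹) * z = z * (x⁻¹ * z * x * z⁻¹) := by
    rw [hY1]
    have hzy' : Commute z y := hzy
    have hzw : Commute z w := hwcomm z
    exact ((hzy'.mul_right hzw.inv_right).pow_right i).mul_right (hzw.pow_right j) |>.eq.symm
  -- the exponent `t`
  have hv : (w⁻¹) ^ i ∈ Subgroup.zpowers w0 :=
    Subgroup.pow_mem _ (Subgroup.inv_mem _ hww0) i
  obtain ⟨t, ht⟩ : ∃ t : ℕ, w0 ^ t = (w⁻¹) ^ i := by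
    have h1 := (IsOfFinOrder.mem_powers_iff_mem_zpowers (isOfFinOrder_of_finite w0)).2 hv
    exact (Submonoid.mem_powers_iff _ _).1 h1
  have hv1 : (w⁻¹) ^ i ≠ 1 := by
    intro h
    apply hpi
    rw [inv_pow, inv_eq_one] at h
    rw [← hordw]
    exact orderOf_dvd_of_pow_eq_one h
  have hxyt : x⁻¹ * (x⁻¹ * z * x * z⁻¹) * x = (x⁻¹ * z * x * z⁻¹) * w0 ^ t := by
    rw [ht]; exact hY1x
  have htp : ¬ p ∣ t := by
    rintro ⟨k, rfl⟩
    apply hv1
    rw [← ht, pow_mul, hw0p, one_pow]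
  -- generation
  have hgen : ∀ H : Subgroup G, z ∈ H → x ∈ H → (x⁻¹ * z * x * z⁻¹) ∈ H → H = ⊤ := by
    intro H hzH hxH hy1H
    have hw0H : w0 ∈ H := by rw [hw0]; exact H.pow_mem hzH _
    have hwH : w ∈ H := (Subgroup.zpowers_le.2 hw0H) hww0
    have hyiH : y ^ i ∈ H := by
      have h1 : y ^ i = (x⁻¹ * z * x * z⁻¹) * (w ^ j)⁻¹ * w ^ i := by
        rw [hY1, mul_inv_cancel_right]
        have hc1 : Commute (y * w⁻¹) w := hwcomm (y * w⁻¹)
        rw [← hc1.mul_pow, inv_mul_cancel_right]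
      rw [h1]
      exact H.mul_mem (H.mul_mem hy1H (H.inv_mem (H.pow_mem hwH j))) (H.pow_mem hwH i)
    have hyH : y ∈ H := bkJ3f_mem_of_pow_mem H hyp hpi hyiH
    have hEH : E ≤ H := by
      refine (bkJ3f_gen E hE x y w hx hy hw1 hxy).trans ((Subgroup.closure_le H).2 ?_)
      intro g hg
      rcases hg with rfl | hg
      · exact hxH
      · rw [Set.mem_singleton_iff] at hg
        rw [hg]; exact hyH
    rw [eq_top_iff]
    intro h _
    obtain ⟨i', e, he, c, hc, hic⟩ := hidx h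
    have hcH : c ∈ H := (Subgroup.zpowers_le.2 (H.pow_mem hzH p)) (hzgen c hc)
    have h1 : h = (z ^ i')⁻¹ * (e * c) := by rw [← hic]; group
    rw [h1]
    exact H.mul_mem (H.inv_mem (H.pow_mem hzH _)) (H.mul_mem (hEH he) hcH)
  by_cases hsq : IsSquare (t : ZMod p)
  · -- `t` is a square mod `p`: rescale `x`
    obtain ⟨b, hb⟩ := hsq
    have hb0 : b ≠ 0 := by
      rintro rfl
      rw [mul_zero] at hb
      exact htp ((ZMod.natCast_eq_zero_iff t p).1 hb)
    obtain ⟨a, ha⟩ : ∃ a : ℕ, a = (b⁻¹).val := ⟨_, rfl⟩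
    have hab : (a : ZMod p) = b⁻¹ := by rw [ha, ZMod.natCast_zmod_val]
    have hpa : ¬ p ∣ a := by
      intro h
      have h1 := (ZMod.natCast_eq_zero_iff a p).2 h
      rw [hab] at h1
      exact hb0 (inv_eq_zero.1 h1)
    have hta : t * a ^ 2 ≡ 1 [MOD p] := by
      rw [← ZMod.natCast_eq_natCast_iff]
      push_cast
      rw [hb, hab]
      field_simp
    have hw0ta : w0 ^ (t * a ^ 2) = w0 := by
      have h1 : w0 ^ (t * a ^ 2) = w0 ^ 1 := by
        rw [pow_eq_pow_iff_modEq, hordw0]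
        exact hta
      rw [h1, pow_one]
    obtain ⟨r1, r2, r3⟩ := Cfsg.Agent.Helper84.bk_f2_rel x z w0 t a hw0c hY1z hxyt
    refine ⟨1, x ^ a, (x ^ a)⁻¹ * z * x ^ a * z⁻¹, z, Or.inl rfl, ?_, ?_, ?_, hzpow, r1, ?_, ?_⟩
    · apply hgen
      · exact Subgroup.subset_closure (by simp)
      · apply bkJ3f_mem_of_pow_mem _ hxp hpa
        exact Subgroup.subset_closure (by simp)
      · apply bkJ3f_mem_of_pow_mem _ hY1p hpa
        have h1 : (x⁻¹ * z * x * z⁻¹) ^ a =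
            ((x ^ a)⁻¹ * z * x ^ a * z⁻¹) * (w0 ^ (t * (a * (a - 1) / 2)))⁻¹ := by
          rw [r3, mul_inv_cancel_right]
        rw [h1]
        apply Subgroup.mul_mem
        · exact Subgroup.subset_closure (by simp)
        · apply Subgroup.inv_mem
          apply Subgroup.pow_mem
          rw [hw0]
          apply Subgroup.pow_mem
          exact Subgroup.subset_closure (by simp)
    · rw [← pow_mul, mul_comm, pow_mul, hxp, one_pow]
    · rw [r3]
      have hc : Commute ((x⁻¹ * z * x * z⁻¹) ^ a) (w0 ^ (t * (a * (a - 1) / 2))) :=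
        Commute.pow_right (hw0c _) _
      rw [hc.mul_pow, ← pow_mul, mul_comm a p, pow_mul, hY1p, one_pow, one_mul, ← pow_mul,
        mul_comm _ p, pow_mul, hw0p, one_pow]
    · rw [r2, hw0ta, one_mul, hw0]
    · group
  · -- `t` is not a square mod `p`
    refine ⟨t, x, x⁻¹ * z * x * z⁻¹, z, Or.inr hsq, ?_, hxp, hY1p, hzpow, hY1z, ?_, ?_⟩
    · apply hgen
      · exact Subgroup.subset_closure (by simp)
      · exact Subgroup.subset_closure (by simp)
      · exact Subgroup.subset_closure (by simp)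
    · rw [hxyt, hw0, ← pow_mul, mul_comm t]
    · group

end BkJ3f

end Cfsg.Agent.Helper80
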