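import Cfsg.Agent.Helper16.D8Core
import Cfsg.Agent.Helper91.S3ModelHom
import Cfsg.Agent.Helper31.S3SU3

/-!
# PIECE SU2 of CALL S3716 (helper16): the model homomorphism `WM = S₃ ≀ 2 →* G` from
generators and relations (helper80)
-/

set_option autoImplicit false

namespace Cfsg.Agent.Helper80

open Cfsg Cfsg.Agent.Helper16 DihedralGroup
open scoped ComplexConjugate

/-- PIECE SU2 of CALL S3716. -/
theorem d8_model_hom {G : Type*} [Group G] (t₁ t₂ a b τ : G) (ht₁ : t₁ ^ 3 = 1) (ht₂ : t₂ ^ 3 = 1)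
    (ha : a ^ 2 = 1) (hb : b ^ 2 = 1) (hτ : τ ^ 2 = 1) (htt : t₁ * t₂ = t₂ * t₁)
    (hab : a * b = b * a) (hat₁ : a * t₁ * a⁻¹ = t₁⁻¹) (hat₂ : a * t₂ = t₂ * a)
    (hbt₁ : b * t₁ = t₁ * b) (hbt₂ : b * t₂ * b⁻¹ = t₂⁻¹) (hτt : τ * t₁ * τ⁻¹ = t₂)
    (hτa : τ * a * τ⁻¹ = b) :
    ∃ φ : WM →* G, ∀ (i j : ZMod 3) (k l : ZMod 2) (c : Bool),
      φ ⟨(r i * sr 0 ^ k.val, r j * sr 0 ^ l.val), c⟩ =
        t₁ ^ i.val * a ^ k.val * (t₂ ^ j.val * b ^ l.val) * (if c then τ else 1) := by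
  obtain ⟨φ₀, hφ₀⟩ := Cfsg.Agent.Helper91.s3_model_hom t₁ t₂ a b ht₁ ht₂ ha hb htt hab hat₁ hat₂
    hbt₁ hbt₂
  have hτinv : τ⁻¹ = τ := by
    rw [inv_eq_iff_mul_eq_one, ← sq, hτ]
  have hτt' : τ * t₂ * τ⁻¹ = t₁ := by
    rw [← hτt, hτinv]
    have h1 : τ * τ = 1 := by rw [← sq, hτ]
    calc τ * (τ * t₁ * τ) * τ = (τ * τ) * t₁ * (τ * τ) := by group
      _ = t₁ := by rw [h1, one_mul, mul_one]
  have hτb : τ * b * τ⁻¹ = a := by
    rw [← hτa, hτinv]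
    have h1 : τ * τ = 1 := by rw [← sq, hτ]
    calc τ * (τ * a * τ) * τ = (τ * τ) * a * (τ * τ) := by group
      _ = a := by rw [h1, one_mul, mul_one]
  have hconj : ∀ x : G, τ * x * τ⁻¹ = MulAut.conj τ x := fun x => rfl
  have hkey : ∀ n : NM, τ * φ₀ n * τ⁻¹ = φ₀ (nmSwap n) := by
    intro n
    obtain ⟨i, j, k, l, rfl⟩ := Cfsg.Agent.Helper31.s3su3_nm_rep n
    have hsw : nmSwap ((r i * sr 0 ^ k.val, r j * sr 0 ^ l.val) : NM) =
        (r j * sr 0 ^ l.val, r i * sr 0 ^ k.val) := rfl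
    rw [hsw, hφ₀, hφ₀, hconj, map_mul, map_mul, map_mul, map_pow, map_pow, map_pow, map_pow,
      ← hconj, ← hconj, ← hconj, ← hconj, hτt, hτt', hτa, hτb]
    have c1 : Commute t₂ t₁ := htt.symm
    have c2 : Commute t₂ a := hat₂.symm
    have c3 : Commute b t₁ := hbt₁
    have c4 : Commute b a := hab.symm
    have c5 : Commute (t₂ ^ i.val * b ^ k.val) (t₁ ^ j.val * a ^ l.val) :=
      Commute.mul_left
        (Commute.mul_right (c1.pow_pow _ _) (c2.pow_pow _ _))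
        (Commute.mul_right (c3.pow_pow _ _) (c4.pow_pow _ _))
    exact c5.eq
  refine ⟨MonoidHom.mk' (fun m : WM => φ₀ m.n * (if m.s then τ else 1)) ?_, ?_⟩
  · rintro ⟨x, sx⟩ ⟨y, sy⟩
    rw [WM.mul_def]
    cases sx <;> cases sy
    · show φ₀ (x * y) * 1 = φ₀ x * 1 * (φ₀ y * 1)
      rw [map_mul]
      group
    · show φ₀ (x * y) * τ = φ₀ x * 1 * (φ₀ y * τ)
      rw [map_mul]
      group
    · show φ₀ (x * nmSwap y) * τ = φ₀ x * τ * (φ₀ y * 1)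
      rw [map_mul, ← hkey]
      group
    · show φ₀ (x * nmSwap y) * 1 = φ₀ x * τ * (φ₀ y * τ)
      rw [map_mul, ← hkey]
      nth_rewrite 1 [hτinv]
      group
  · intro i j k l c
    show φ₀ (r i * sr 0 ^ k.val, r j * sr 0 ^ l.val) * (if c then τ else 1) = _
    rw [hφ₀]

end Cfsg.Agent.Helper80
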