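import Mathlib
import Cfsg.Agent.Helper97.GSylDefs

/-!
# PIECE IOTA of CALL S4627 (helper97): `GL (Fin 2 × Fin m) F` embeds in
`SL (Fin (2 * m + 1)) F` via `g ↦ diag(g, (det g)⁻¹)` (helper80)
-/

set_option autoImplicit false

namespace Cfsg.Agent.Helper80.GSylIOTA

open Matrix Cfsg.Agent.Helper97.GSyl

/-- PIECE IOTA -/
theorem exists_iota (F : Type*) [Field F] (m : ℕ) :
    ∃ f : GL (Fin 2 × Fin m) F →* Matrix.SpecialLinearGroup (Fin (2 * m + 1)) F,
      Function.Injective f := by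
  classical
  let e : (Fin 2 × Fin m) ⊕ Fin 1 ≃ Fin (2 * m + 1) :=
    (finProdFinEquiv.sumCongr (Equiv.refl (Fin 1))).trans finSumFinEquiv
  let B : GL (Fin 2 × Fin m) F →
      Matrix ((Fin 2 × Fin m) ⊕ Fin 1) ((Fin 2 × Fin m) ⊕ Fin 1) F :=
    fun g => Matrix.fromBlocks (g : Matrix (Fin 2 × Fin m) (Fin 2 × Fin m) F) 0 0
      (Matrix.diagonal fun _ : Fin 1 => ((g : Matrix (Fin 2 × Fin m) (Fin 2 × Fin m) F).det)⁻¹)
  have hBmul : ∀ g h, B (g * h) = B g * B h := by
    intro g h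
    show Matrix.fromBlocks ((g * h : GL (Fin 2 × Fin m) F) : Matrix (Fin 2 × Fin m) (Fin 2 × Fin m) F)
        0 0 (Matrix.diagonal fun _ : Fin 1 =>
          (((g * h : GL (Fin 2 × Fin m) F) : Matrix (Fin 2 × Fin m) (Fin 2 × Fin m) F).det)⁻¹) =
      Matrix.fromBlocks (g : Matrix (Fin 2 × Fin m) (Fin 2 × Fin m) F) 0 0
        (Matrix.diagonal fun _ : Fin 1 => ((g : Matrix (Fin 2 × Fin m) (Fin 2 × Fin m) F).det)⁻¹) *
      Matrix.fromBlocks (h : Matrix (Fin 2 × Fin m) (Fin 2 × Fin m) F) 0 0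
        (Matrix.diagonal fun _ : Fin 1 => ((h : Matrix (Fin 2 × Fin m) (Fin 2 × Fin m) F).det)⁻¹)
    rw [Matrix.fromBlocks_multiply, Units.val_mul, Matrix.det_mul, mul_inv,
      Matrix.diagonal_mul_diagonal]
    simp
  have hdet : ∀ g : GL (Fin 2 × Fin m) F,
      (g : Matrix (Fin 2 × Fin m) (Fin 2 × Fin m) F).det ≠ 0 := by
    intro g
    exact ((Matrix.isUnit_iff_isUnit_det _).mp g.isUnit).ne_zero
  have hBdet : ∀ g, (B g).det = 1 := by
    intro g
    show (Matrix.fromBlocks (g : Matrix (Fin 2 × Fin m) (Fin 2 × Fin m) F) 0 0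
        (Matrix.diagonal fun _ : Fin 1 =>
          ((g : Matrix (Fin 2 × Fin m) (Fin 2 × Fin m) F).det)⁻¹)).det = 1
    rw [Matrix.det_fromBlocks_zero₂₁, Matrix.det_diagonal]
    simp only [Finset.univ_unique, Finset.prod_singleton]
    exact mul_inv_cancel₀ (hdet g)
  refine ⟨MonoidHom.mk' (fun g => ⟨Matrix.reindex e e (B g), by
    rw [Matrix.det_reindex_self]
    exact hBdet g⟩) ?_, ?_⟩
  · intro g h
    apply Subtype.ext
    show Matrix.reindex e e (B (g * h)) = Matrix.reindex e e (B g) * Matrix.reindex e e (B h)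
    rw [hBmul]
    simp only [Matrix.reindex_apply]
    rw [Matrix.submatrix_mul_equiv]
  · intro g h hgh
    have h1 : Matrix.reindex e e (B g) = Matrix.reindex e e (B h) := congrArg Subtype.val hgh
    have h2 : B g = B h := (Matrix.reindex e e).injective h1
    have h3 := (Matrix.fromBlocks_inj.mp h2).1
    exact Units.ext h3

end Cfsg.Agent.Helper80.GSylIOTA
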