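import Mathlib
import Cfsg.Agent.Helper97.GSylDefs
import Cfsg.Agent.Helper5.SLCard

/-!
# PIECE W1G of CALL S4627 (helper97): squares in the commutator subgroup, from the
determinant-one part inside `GL` to the one inside `SL` (helper80)
-/

set_option autoImplicit false

namespace Cfsg.Agent.Helper80.GSylW1G

open Matrix Cfsg.Agent.Helper97.GSyl

variable {F : Type*} [Field F] {m : ℕ}

/-- The image of `gW1 S T` in `GL` is `gWk S T`. -/
theorem map_gW1 (S : Subgroup (GL (Fin 2) F)) (T : Subgroup (Equiv.Perm (Fin m))) :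
    (gW1 S T).map Matrix.SpecialLinearGroup.toGL = gWk S T := by
  unfold gW1 gWk
  rw [Subgroup.map_comap_eq, Cfsg.Agent.Helper5.toGL_range_eq_ker_det, inf_comm]

/-- PIECE W1G (bridge `GL`-side ↔ `SL`-side) -/
theorem gW1_sq_of_gWk (S : Subgroup (GL (Fin 2) F)) (T : Subgroup (Equiv.Perm (Fin m)))
    (h : ∀ x ∈ gWk S T, x ^ 2 ∈ ⁅gWk S T, gWk S T⁆) :
    ∀ x ∈ gW1 S T, x ^ 2 ∈ ⁅gW1 S T, gW1 S T⁆ := by
  intro x hx
  have h1 : Matrix.SpecialLinearGroup.toGL x ∈ gWk S T := by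
    rw [← map_gW1]
    exact Subgroup.mem_map_of_mem _ hx
  have h2 := h _ h1
  rw [← map_gW1, ← Subgroup.map_commutator, ← map_pow] at h2
  exact (Subgroup.mem_map_iff_mem Matrix.SpecialLinearGroup.toGL_injective).mp h2

end Cfsg.Agent.Helper80.GSylW1G
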