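import Mathlib
import Cfsg.Agent.Helper97.GSylDefs
import Cfsg.Agent.Helper5.SLCard
import Cfsg.Agent.Helper80.GSylW1G

/-!
# PIECE W1C of CALL S4627 (helper97): the determinant-one part of a `2`-group `gW S T` has
index at most the `2`-part of `q - 1` (helper80)
-/

set_option autoImplicit false

namespace Cfsg.Agent.Helper80.GSylW1C

open Matrix Cfsg.Agent.Helper97.GSyl

variable {F : Type*} [Field F] {m : ℕ}

/-- PIECE W1C -/
theorem gW1_card [Fintype F] (S : Subgroup (GL (Fin 2) F)) (T : Subgroup (Equiv.Perm (Fin m)))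
    (hW : IsPGroup 2 (gW S T)) :
    Nat.card (gW S T) ≤ Nat.card (gW1 S T) * 2 ^ padicValNat 2 (Fintype.card F - 1) := by
  classical
  have hfact : Fact (Nat.Prime 2) := ⟨Nat.prime_two⟩
  -- `gW1` and `gWk` have the same order
  have h1 : Nat.card (gW1 S T) = Nat.card (gWk S T) := by
    rw [← Cfsg.Agent.Helper80.GSylW1G.map_gW1]
    exact (Subgroup.card_map_of_injective Matrix.SpecialLinearGroup.toGL_injective).symm
  -- the determinant restricted to `gW`
  have hker : Nat.card ((Matrix.GeneralLinearGroup.det :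
      GL (Fin 2 × Fin m) F →* Fˣ).domRestrict (gW S T)).ker = Nat.card (gWk S T) := by
    rw [MonoidHom.ker_domRestrict]
    unfold gWk
    rw [← Subgroup.inf_subgroupOf_left]
    exact Nat.card_congr (Subgroup.subgroupOfEquivOfLe inf_le_left).toEquiv
  have hmul := Subgroup.card_mul_index ((Matrix.GeneralLinearGroup.det :
      GL (Fin 2 × Fin m) F →* Fˣ).domRestrict (gW S T)).ker
  rw [Subgroup.index_ker, hker] at hmul
  -- the range is a `2`-group inside `Fˣ`
  have hrp : IsPGroup 2 ((Matrix.GeneralLinearGroup.det :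
      GL (Fin 2 × Fin m) F →* Fˣ).domRestrict (gW S T)).range :=
    hW.of_surjective _ (MonoidHom.rangeRestrict_surjective _)
  obtain ⟨a, ha⟩ := IsPGroup.iff_card.mp hrp
  have hdvd : Nat.card ((Matrix.GeneralLinearGroup.det :
      GL (Fin 2 × Fin m) F →* Fˣ).domRestrict (gW S T)).range ∣ Nat.card Fˣ :=
    Subgroup.card_subgroup_dvd_card _
  rw [ha, Nat.card_units, Nat.card_eq_fintype_card] at hdvd
  have hq : Fintype.card F - 1 ≠ 0 := by
    have := Fintype.one_lt_card (α := F)
    omega
  have hale : a ≤ padicValNat 2 (Fintype.card F - 1) := (padicValNat_dvd_iff_le hq).mp hdvd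
  rw [← hmul, ha, h1]
  exact Nat.mul_le_mul_left _ (Nat.pow_le_pow_right (by norm_num) hale)

end Cfsg.Agent.Helper80.GSylW1C
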