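import Mathlib
import Cfsg.Agent.Helper97.GSylDefs

/-!
# PIECE W1P of CALL S4627 (helper97): the determinant-one part of a `2`-group `gW S T` is a
`2`-group (helper80)
-/

set_option autoImplicit false

namespace Cfsg.Agent.Helper80.GSylW1P

open Matrix Cfsg.Agent.Helper97.GSyl

variable {F : Type*} [Field F] {m : ℕ}

/-- PIECE W1P -/
theorem gW1_isPGroup (S : Subgroup (GL (Fin 2) F)) (T : Subgroup (Equiv.Perm (Fin m)))
    (hW : IsPGroup 2 (gW S T)) : IsPGroup 2 (gW1 S T) := by
  unfold gW1
  exact hW.comap_of_injective _ Matrix.SpecialLinearGroup.toGL_injective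

end Cfsg.Agent.Helper80.GSylW1P
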