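import Mathlib
import Cfsg.Agent.Helper80.RelBlock
import Cfsg.Agent.Helper77.Defect
import Cfsg.Agent.Helper16.HeightZero
import Cfsg.Agent.Helper79.Codegree

set_option autoImplicit false

namespace Cfsg.Agent.Helper80

open Cfsg
open scoped ComplexConjugate

universe u v

/-- Fourier inversion on a product`D × C` with `C` abelian: the value at `(1, c₀)` in terms of
the inner products with the product characters. -/
theorem fourier_prod {D : Type u} {C : Type v} [Group D] [Group C] [Fintype D] [Fintype C]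
    (hC : ∀ a b : C, a * b = b * a) [Fintype (IrrCharacter D)] [Fintype (IrrCharacter C)]
    (F : D × C → ℂ) (c₀ : C) :
    ∑ ξ : IrrCharacter C, ∑ η : IrrCharacter D, (ξ : C → ℂ) c₀ * (η : D → ℂ) 1 *
      classInner F (fun x : D × C => (η : D → ℂ) x.1 * (ξ : C → ℂ) x.2) = F (1, c₀) := by
  classical
  have hA : ∀ d : D, ∑ η : IrrCharacter D, (η : D → ℂ) 1 * conj ((η : D → ℂ) d) =
      if d = 1 then (Fintype.card D : ℂ) else 0 := by
    intro d
    have h1 := irr_sum_degree_mul d
    have h2 := congrArg conj h1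
    rw [map_sum] at h2
    have h3 : ∑ η : IrrCharacter D, (η : D → ℂ) 1 * conj ((η : D → ℂ) d) =
        ∑ η : IrrCharacter D, conj ((η : D → ℂ) 1 * (η : D → ℂ) d) := by
      apply Finset.sum_congr rfl
      intro η _
      rw [map_mul, Cfsg.Agent.Helper79.isCharacter_one_eq_charDegree (isCharacter_of_irr η.2),
        Complex.conj_natCast]
    rw [h3, h2]
    split_ifs <;> simp
  have hB : ∀ c : C, ∑ ξ : IrrCharacter C, (ξ : C → ℂ) c₀ * conj ((ξ : C → ℂ) c) =
      if c = c₀ then (Fintype.card C : ℂ) else 0 := by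
    intro c
    by_cases hc : c = c₀
    · rw [if_pos hc, hc, irr_column_orthogonality_of_isConj (IsConj.refl c₀)]
      have h1 : Subgroup.centralizer ({c₀} : Set C) = ⊤ := by
        rw [eq_top_iff]
        intro x _
        rw [Subgroup.mem_centralizer_iff]
        intro y hy
        exact hC y x
      rw [h1, Subgroup.card_top, Nat.card_eq_fintype_card]
    · rw [if_neg hc]
      apply irr_column_orthogonality_of_not_isConj
      intro h
      obtain ⟨x, hx⟩ := isConj_iff.mp h
      apply hc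
      rw [← hx, hC x c₀, mul_inv_cancel_right]
  have hcard : (Nat.card (D × C) : ℂ) = (Fintype.card D : ℂ) * (Fintype.card C : ℂ) := by
    rw [Nat.card_eq_fintype_card, Fintype.card_prod, Nat.cast_mul]
  have hD0 : (Fintype.card D : ℂ) ≠ 0 := by exact_mod_cast Fintype.card_ne_zero
  have hC0 : (Fintype.card C : ℂ) ≠ 0 := by exact_mod_cast Fintype.card_ne_zero
  have hstep : ∑ ξ : IrrCharacter C, ∑ η : IrrCharacter D, (ξ : C → ℂ) c₀ * (η : D → ℂ) 1 *
      classInner F (fun x : D × C => (η : D → ℂ) x.1 * (ξ : C → ℂ) x.2) =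
      ∑ x : D × C, (Nat.card (D × C) : ℂ)⁻¹ * F x *
        ((∑ η : IrrCharacter D, (η : D → ℂ) 1 * conj ((η : D → ℂ) x.1)) *
          (∑ ξ : IrrCharacter C, (ξ : C → ℂ) c₀ * conj ((ξ : C → ℂ) x.2))) := by
    unfold classInner
    simp_rw [Finset.mul_sum, Finset.sum_mul, Finset.mul_sum]
    rw [Finset.sum_comm]
    rw [Finset.sum_congr rfl (fun η _ => Finset.sum_comm)]
    rw [Finset.sum_comm]
    apply Finset.sum_congr rfl
    intro x _
    rw [Finset.sum_comm]
    apply Finset.sum_congr rfl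
    intro ξ _
    apply Finset.sum_congr rfl
    intro η _
    rw [map_mul]
    ring
  rw [hstep, Finset.sum_eq_single (1, c₀)]
  · rw [hA, hB, if_pos rfl, if_pos rfl, hcard]
    field_simp
  · intro x _ hx
    rw [hA, hB]
    by_cases h1 : x.1 = 1
    · by_cases h2 : x.2 = c₀
      · exact absurd (Prod.ext h1 h2) hx
      · rw [if_neg h2, mul_zero, mul_zero]
    · rw [if_neg h1, zero_mul, mul_zero]
  · intro h
    exact absurd (Finset.mem_univ _) h

/-- A character of `D × C` (`D` a `p`-group, `C` abelian) whose value at `(1, c₀)` is a local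
unit has a constituent `μ × ξ` with `μ` linear. -/
theorem exists_linear_of_not_memLocalIdeal {D : Type u} {C : Type v} [Group D] [Group C]
    [Fintype D] [Fintype C] (hC : ∀ a b : C, a * b = b * a) {p : ℕ} [hp : Fact p.Prime]
    (hD : IsPGroup p D) {M : Ideal AlgInt} (hM : IsPModular p M) (F : D × C → ℂ)
    (hF : IsCharacter (D × C) F) (c₀ : C) (h : ¬ MemLocalIdeal M (F (1, c₀))) :
    ∃ (μ : D →* ℂˣ) (ξ : IrrCharacter C),
      classInner F (fun x : D × C => ((μ x.1 : ℂˣ) : ℂ) * (ξ : C → ℂ) x.2) ≠ 0 := by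
  classical
  letI : Fintype (IrrCharacter D) := Fintype.ofFinite _
  letI : Fintype (IrrCharacter C) := Fintype.ofFinite _
  have hMm := hM.2.1
  by_contra hall
  push Not at hall
  apply h
  rw [← fourier_prod hC F c₀]
  apply Cfsg.Agent.Helper77.memLocalIdeal_sum hMm
  intro ξ _
  apply Cfsg.Agent.Helper77.memLocalIdeal_sum hMm
  intro η _
  have hchar : IsCharacter (D × C) (fun x : D × C => (η : D → ℂ) x.1 * (ξ : C → ℂ) x.2) :=
    Cfsg.Agent.Helper79.isCharacter_mul
      (Cfsg.Agent.Helper79.isCharacter_comp (isCharacter_of_irr η.2) (MonoidHom.fst D C))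
      (Cfsg.Agent.Helper79.isCharacter_comp (isCharacter_of_irr ξ.2) (MonoidHom.snd D C))
  obtain ⟨n, hn⟩ := Cfsg.Agent.Helper3.classInner_isCharacter_nat hF hchar
  by_cases hlin : charDegree (η : D → ℂ) = 1
  · obtain ⟨μ, hμ⟩ := exists_hom_of_linear η hlin
    have h1 := hall μ ξ
    have h2 : (fun x : D × C => ((μ x.1 : ℂˣ) : ℂ) * (ξ : C → ℂ) x.2) =
        fun x : D × C => (η : D → ℂ) x.1 * (ξ : C → ℂ) x.2 := by
      funext x
      rw [← hμ, homIrr_apply]
    rw [h2] at h1
    rw [h1, mul_zero]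
    exact Cfsg.Agent.Helper77.memLocalIdeal_zero hMm
  · have hdvd : p ∣ charDegree (η : D → ℂ) := by
      obtain ⟨k, hk⟩ := IsPGroup.iff_card.mp hD
      have h1 := Cfsg.Agent.Helper79.irr_charDegree_dvd_card η
      rw [hk] at h1
      obtain ⟨i, -, hi⟩ := (Nat.dvd_prime_pow hp.out).mp h1
      rw [hi]
      apply dvd_pow_self
      intro h0
      rw [h0, pow_zero] at hi
      exact hlin hi
    obtain ⟨k, hk⟩ := hdvd
    rw [hn, Cfsg.Agent.Helper79.isCharacter_one_eq_charDegree (isCharacter_of_irr η.2), hk]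
    have h3 : (ξ : C → ℂ) c₀ * ((p * k : ℕ) : ℂ) * (n : ℂ) =
        (p : ℂ) * ((ξ : C → ℂ) c₀ * ((k : ℂ) * (n : ℂ))) := by
      push_cast
      ring
    rw [h3]
    apply Cfsg.Agent.Helper77.memLocalIdeal_mul' hMm (Cfsg.Agent.Helper77.memLocalIdeal_prime hM)
    apply Cfsg.Agent.Helper77.memLocalRing_mul hMm
    · exact Cfsg.Agent.Helper77.memLocalRing_of_isIntegral hMm
        (Cfsg.Agent.Helper77.irr_isIntegral ξ c₀)
    · apply Cfsg.Agent.Helper77.memLocalRing_mul hMm
      · exact Cfsg.Agent.Helper77.memLocalRing_of_isIntegral hMm (isIntegral_natCast _)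
      · exact Cfsg.Agent.Helper77.memLocalRing_of_isIntegral hMm (isIntegral_natCast _)

end Cfsg.Agent.Helper80
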