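import Mathlib

/-!
# PIECE A8INV of CALL S2132 (helper92): involutions of `A₈` fall into at most two classes
(helper80)
-/

set_option autoImplicit false

namespace Cfsg.Agent.Helper80

/-- The cycle type of an involution of `A₈`. -/
theorem mclinv_cycleType_invol (σ : ↥(alternatingGroup (Fin 8))) (hσ : orderOf σ = 2) :
    (σ : Equiv.Perm (Fin 8)).cycleType = Multiset.replicate 2 2 ∨
      (σ : Equiv.Perm (Fin 8)).cycleType = Multiset.replicate 4 2 := by
  have ho : orderOf (σ : Equiv.Perm (Fin 8)) = 2 := by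
    rw [Subgroup.orderOf_coe]; exact hσ
  have hp : (orderOf (σ : Equiv.Perm (Fin 8))).Prime := by rw [ho]; exact Nat.prime_two
  obtain ⟨n, hn⟩ := Equiv.Perm.cycleType_prime_order hp
  rw [ho] at hn
  have hsum : (σ : Equiv.Perm (Fin 8)).cycleType.sum ≤ 8 := by
    have := Equiv.Perm.sum_cycleType_le (σ : Equiv.Perm (Fin 8))
    simpa using this
  rw [hn, Multiset.sum_replicate, smul_eq_mul] at hsum
  have hsign : Equiv.Perm.sign (σ : Equiv.Perm (Fin 8)) = 1 :=
    Equiv.Perm.mem_alternatingGroup.mp σ.2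
  rw [Equiv.Perm.sign_of_cycleType, hn, Multiset.sum_replicate, Multiset.card_replicate,
    smul_eq_mul] at hsign
  have hn4 : n ≤ 3 := by omega
  rw [hn]
  interval_cases n
  · exfalso; revert hsign; decide
  · left; rfl
  · exfalso; revert hsign; decide
  · right; rfl

/-- Involutions of `A₈` with the same cycle type are conjugate in `A₈`. -/
theorem mclinv_isConj_of_cycleType (σ τ : ↥(alternatingGroup (Fin 8))) (hσ : orderOf σ = 2)
    (h : (σ : Equiv.Perm (Fin 8)).cycleType = (τ : Equiv.Perm (Fin 8)).cycleType) :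
    IsConj σ τ := by
  have ho : orderOf (σ : Equiv.Perm (Fin 8)) = 2 := by
    rw [Subgroup.orderOf_coe]; exact hσ
  obtain ⟨π, hπ⟩ := isConj_iff.mp ((Equiv.Perm.isConj_iff_cycleType_eq).mpr h)
  have hσ1 : (σ : Equiv.Perm (Fin 8)) ≠ 1 := by
    intro h1
    rw [h1, orderOf_one] at ho
    omega
  obtain ⟨a, ha⟩ : ∃ a, (σ : Equiv.Perm (Fin 8)) a ≠ a := by
    by_contra hcon
    simp only [not_exists, not_not] at hcon
    exact hσ1 (Equiv.ext hcon)
  have hσσ : (σ : Equiv.Perm (Fin 8)) * (σ : Equiv.Perm (Fin 8)) = 1 := by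
    have := pow_orderOf_eq_one (σ : Equiv.Perm (Fin 8))
    rw [ho, pow_two] at this
    exact this
  have hσσa : (σ : Equiv.Perm (Fin 8)) ((σ : Equiv.Perm (Fin 8)) a) = a := by
    have := congrArg (fun f : Equiv.Perm (Fin 8) => f a) hσσ
    simpa using this
  set s : Equiv.Perm (Fin 8) := Equiv.swap a ((σ : Equiv.Perm (Fin 8)) a) with hs
  have hcomm : (σ : Equiv.Perm (Fin 8)) * s * (σ : Equiv.Perm (Fin 8))⁻¹ = s := by
    rw [hs, ← Equiv.swap_apply_apply, hσσa, Equiv.swap_comm]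
  have hcomm' : s * (σ : Equiv.Perm (Fin 8)) * s⁻¹ = (σ : Equiv.Perm (Fin 8)) := by
    have e : (σ : Equiv.Perm (Fin 8)) * s = s * (σ : Equiv.Perm (Fin 8)) := by
      calc (σ : Equiv.Perm (Fin 8)) * s
          = ((σ : Equiv.Perm (Fin 8)) * s * (σ : Equiv.Perm (Fin 8))⁻¹) *
              (σ : Equiv.Perm (Fin 8)) := by group
        _ = s * (σ : Equiv.Perm (Fin 8)) := by rw [hcomm]
    rw [← e]; group
  have hsign_s : Equiv.Perm.sign s = -1 := Equiv.Perm.sign_swap (Ne.symm ha)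
  have hσmem : Equiv.Perm.sign (σ : Equiv.Perm (Fin 8)) = 1 :=
    Equiv.Perm.mem_alternatingGroup.mp σ.2
  rcases Int.units_eq_one_or (Equiv.Perm.sign π) with h1 | h1
  · refine isConj_iff.mpr ⟨⟨π, Equiv.Perm.mem_alternatingGroup.mpr h1⟩, ?_⟩
    apply Subtype.ext
    simpa using hπ
  · have hmem : π * s ∈ alternatingGroup (Fin 8) := by
      rw [Equiv.Perm.mem_alternatingGroup, map_mul, h1, hsign_s]
      rfl
    refine isConj_iff.mpr ⟨⟨π * s, hmem⟩, ?_⟩
    apply Subtype.ext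
    have e : π * s * (σ : Equiv.Perm (Fin 8)) * (π * s)⁻¹ =
        π * (s * (σ : Equiv.Perm (Fin 8)) * s⁻¹) * π⁻¹ := by group
    have : π * s * (σ : Equiv.Perm (Fin 8)) * (π * s)⁻¹ = (τ : Equiv.Perm (Fin 8)) := by
      rw [e, hcomm', hπ]
    simpa using this

theorem alt8_invol_trichotomy (σ τ ρ : ↥(alternatingGroup (Fin 8))) (hσ : orderOf σ = 2)
    (hτ : orderOf τ = 2) (hρ : orderOf ρ = 2) (hne : ¬ IsConj σ τ) :
    IsConj ρ σ ∨ IsConj ρ τ := by
  by_cases h1 : (ρ : Equiv.Perm (Fin 8)).cycleType = (σ : Equiv.Perm (Fin 8)).cycleType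
  · exact Or.inl (mclinv_isConj_of_cycleType ρ σ hρ h1)
  by_cases h2 : (ρ : Equiv.Perm (Fin 8)).cycleType = (τ : Equiv.Perm (Fin 8)).cycleType
  · exact Or.inr (mclinv_isConj_of_cycleType ρ τ hρ h2)
  exfalso
  apply hne
  apply mclinv_isConj_of_cycleType σ τ hσ
  rcases mclinv_cycleType_invol σ hσ with a | a <;> rcases mclinv_cycleType_invol τ hτ with b | b <;>
    rcases mclinv_cycleType_invol ρ hρ with c | c <;> rw [a, c] at h1 <;> rw [b, c] at h2 <;>
    first
      | exact absurd rfl h1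
      | exact absurd rfl h2
      | rw [a, b]

end Cfsg.Agent.Helper80
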