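import Mathlib

/-!
# PIECE ONE of CALL S2132 (helper92): one class of involutions from the centraliser `2.A₈`
(helper80)
-/

set_option autoImplicit false

namespace Cfsg.Agent.Helper80

theorem one_class_of_hom
    (hA8 : ∀ σ τ ρ : ↥(alternatingGroup (Fin 8)), orderOf σ = 2 → orderOf τ = 2 →
      orderOf ρ = 2 → ¬ IsConj σ τ → IsConj ρ σ ∨ IsConj ρ τ)
    {G : Type*} [Group G] [Finite G] (z : G) (hz : orderOf z = 2)
    (hcardG : ¬ 2 ^ 8 ∣ Nat.card G)
    (hcardC : Nat.card ↥(Subgroup.centralizer ({z} : Set G)) = 40320)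
    (φ : ↥(Subgroup.centralizer ({z} : Set G)) →* ↥(alternatingGroup (Fin 8)))
    (hφ : Function.Surjective φ)
    (hker : ∀ g : ↥(Subgroup.centralizer ({z} : Set G)), φ g = 1 ↔ (g : G) = 1 ∨ (g : G) = z)
    (x t s₁ s₂ : G) (hxC : x * z = z * x) (hx : x * x = z) (htC : t * z = z * t)
    (ht : t * t = 1) (ht1 : t ≠ 1) (htz : t ≠ z)
    (hs₁ : s₁ * t * s₁⁻¹ = z) (hs₂ : s₂ * (t * z) * s₂⁻¹ = z) :
    ∀ a b : G, orderOf a = 2 → orderOf b = 2 → IsConj a b := by
  classical
  have : Fact (Nat.Prime 2) := ⟨Nat.prime_two⟩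
  have hz1 : z ≠ 1 := by
    intro h
    rw [h, orderOf_one] at hz
    omega
  have hzz : z * z = 1 := by
    have := pow_orderOf_eq_one z
    rw [hz, pow_two] at this
    exact this
  have memC : ∀ g : G, g ∈ Subgroup.centralizer ({z} : Set G) ↔ g * z = z * g := by
    intro g
    rw [Subgroup.mem_centralizer_iff]
    constructor
    · intro h
      exact (h z rfl).symm
    · intro h y hy
      rw [Set.mem_singleton_iff.mp hy]
      exact h.symm
  have hzC : z ∈ Subgroup.centralizer ({z} : Set G) := (memC z).mpr rfl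
  have hxCm : x ∈ Subgroup.centralizer ({z} : Set G) := (memC x).mpr hxC
  have htCm : t ∈ Subgroup.centralizer ({z} : Set G) := (memC t).mpr htC
  -- fibres of `φ`
  have hfib : ∀ u v : ↥(Subgroup.centralizer ({z} : Set G)), φ u = φ v →
      (u : G) = (v : G) ∨ (u : G) = (v : G) * z := by
    intro u v huv
    have h1 : φ (v⁻¹ * u) = 1 := by rw [map_mul, map_inv, huv, inv_mul_cancel]
    rcases (hker _).mp h1 with h | h
    · left
      have h' : (v : G)⁻¹ * (u : G) = 1 := by simpa using h
      exact (inv_mul_eq_one.mp h').symm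
    · right
      have h' : (v : G)⁻¹ * (u : G) = z := by simpa using h
      exact eq_mul_of_inv_mul_eq h'
  have hconj : ∀ u v : ↥(Subgroup.centralizer ({z} : Set G)), IsConj (φ u) (φ v) →
      ∃ g : ↥(Subgroup.centralizer ({z} : Set G)),
        (g : G) * (u : G) * (g : G)⁻¹ = (v : G) ∨ (g : G) * (u : G) * (g : G)⁻¹ = (v : G) * z := by
    intro u v h
    obtain ⟨γ, hγ⟩ := isConj_iff.mp h
    obtain ⟨g, rfl⟩ := hφ γ
    refine ⟨g, ?_⟩
    have := hfib (g * u * g⁻¹) v (by rw [map_mul, map_mul, map_inv]; exact hγ)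
    simpa using this
  have ord2 : ∀ u : ↥(Subgroup.centralizer ({z} : Set G)), (u : G) ≠ 1 → (u : G) ≠ z →
      ((u : G) * (u : G) = 1 ∨ (u : G) * (u : G) = z) → orderOf (φ u) = 2 := by
    intro u h1 h2 h3
    apply orderOf_eq_prime
    · rw [pow_two, ← map_mul]
      apply (hker _).mpr
      simpa using h3
    · intro h
      rcases (hker _).mp h with h | h
      · exact h1 h
      · exact h2 h
  have hx1 : x ≠ 1 := by
    intro h
    rw [h, mul_one] at hx
    exact hz1 hx.symm
  have hxz : x ≠ z := by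
    intro h
    rw [h, hzz] at hx
    exact hz1 hx.symm
  have hox : orderOf (φ ⟨x, hxCm⟩) = 2 := ord2 ⟨x, hxCm⟩ hx1 hxz (Or.inr hx)
  have hot : orderOf (φ ⟨t, htCm⟩) = 2 := ord2 ⟨t, htCm⟩ ht1 htz (Or.inl ht)
  have htz2 : t * z * (t * z) = 1 := by
    calc t * z * (t * z) = t * (z * t) * z := by group
      _ = t * (t * z) * z := by rw [htC]
      _ = (t * t) * (z * z) := by group
      _ = 1 := by rw [ht, hzz, mul_one]
  have hxz2 : x * z * (x * z) = z := by
    calc x * z * (x * z) = x * (z * x) * z := by group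
      _ = x * (x * z) * z := by rw [hxC]
      _ = (x * x) * (z * z) := by group
      _ = z := by rw [hx, hzz, mul_one]
  have hnc : ¬ IsConj (φ ⟨x, hxCm⟩) (φ ⟨t, htCm⟩) := by
    intro h
    obtain ⟨g, hg⟩ := hconj _ _ h
    have hgz := (memC g).mp g.2
    have e : (g : G) * x * (g : G)⁻¹ * ((g : G) * x * (g : G)⁻¹) = z := by
      calc (g : G) * x * (g : G)⁻¹ * ((g : G) * x * (g : G)⁻¹)
          = (g : G) * (x * x) * (g : G)⁻¹ := by group
        _ = (g : G) * z * (g : G)⁻¹ := by rw [hx]
        _ = z := by rw [hgz]; group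
    rcases hg with hg | hg
    · have hg' : (g : G) * x * (g : G)⁻¹ = t := hg
      rw [hg', ht] at e
      exact hz1 e.symm
    · have hg' : (g : G) * x * (g : G)⁻¹ = t * z := hg
      rw [hg', htz2] at e
      exact hz1 e.symm
  -- every involution of the centraliser is conjugate to `z`
  have key : ∀ c : ↥(Subgroup.centralizer ({z} : Set G)), (c : G) ≠ 1 → (c : G) * (c : G) = 1 →
      IsConj (c : G) z := by
    intro c hc1 hcc
    by_cases hcz : (c : G) = z
    · rw [hcz]
    have hoc : orderOf (φ c) = 2 := ord2 c hc1 hcz (Or.inl hcc)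
    have sq : ∀ g : ↥(Subgroup.centralizer ({z} : Set G)),
        (g : G) * (c : G) * (g : G)⁻¹ * ((g : G) * (c : G) * (g : G)⁻¹) = 1 := by
      intro g
      calc (g : G) * (c : G) * (g : G)⁻¹ * ((g : G) * (c : G) * (g : G)⁻¹)
          = (g : G) * ((c : G) * (c : G)) * (g : G)⁻¹ := by group
        _ = 1 := by rw [hcc]; group
    rcases hA8 _ _ _ hox hot hoc hnc with h | h
    · exfalso
      obtain ⟨g, hg⟩ := hconj _ _ h
      have e := sq g
      rcases hg with hg | hg
      · have hg' : (g : G) * (c : G) * (g : G)⁻¹ = x := hg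
        rw [hg', hx] at e
        exact hz1 e
      · have hg' : (g : G) * (c : G) * (g : G)⁻¹ = x * z := hg
        rw [hg', hxz2] at e
        exact hz1 e
    · obtain ⟨g, hg⟩ := hconj _ _ h
      rcases hg with hg | hg
      · have hg' : (g : G) * (c : G) * (g : G)⁻¹ = t := hg
        refine isConj_iff.mpr ⟨s₁ * (g : G), ?_⟩
        calc s₁ * (g : G) * (c : G) * (s₁ * (g : G))⁻¹
            = s₁ * ((g : G) * (c : G) * (g : G)⁻¹) * s₁⁻¹ := by group
          _ = z := by rw [hg', hs₁]
      · have hg' : (g : G) * (c : G) * (g : G)⁻¹ = t * z := hg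
        refine isConj_iff.mpr ⟨s₂ * (g : G), ?_⟩
        calc s₂ * (g : G) * (c : G) * (s₂ * (g : G))⁻¹
            = s₂ * ((g : G) * (c : G) * (g : G)⁻¹) * s₂⁻¹ := by group
          _ = z := by rw [hg', hs₂]
  -- Sylow argument
  have hfG : (Nat.card G).factorization 2 = 7 := by
    have hdvd : 40320 ∣ Nat.card G :=
      hcardC ▸ Subgroup.card_subgroup_dvd_card (Subgroup.centralizer ({z} : Set G))
    have h7 : 2 ^ 7 ∣ Nat.card G := dvd_trans (by norm_num) hdvd
    have hne : Nat.card G ≠ 0 := Nat.card_pos.ne'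
    have a1 := (Nat.Prime.pow_dvd_iff_le_factorization Nat.prime_two hne).mp h7
    have a2 : ¬ 8 ≤ (Nat.card G).factorization 2 := fun h =>
      hcardG ((Nat.Prime.pow_dvd_iff_le_factorization Nat.prime_two hne).mpr h)
    omega
  have hfC : (Nat.card ↥(Subgroup.centralizer ({z} : Set G))).factorization 2 = 7 := by
    rw [hcardC]
    have a1 := (Nat.Prime.pow_dvd_iff_le_factorization Nat.prime_two
      (by norm_num : (40320 : ℕ) ≠ 0)).mp (by norm_num : 2 ^ 7 ∣ 40320)
    have a2 : ¬ 8 ≤ (40320 : ℕ).factorization 2 := fun h =>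
      absurd ((Nat.Prime.pow_dvd_iff_le_factorization Nat.prime_two
        (by norm_num : (40320 : ℕ) ≠ 0)).mpr h) (by norm_num)
    omega
  obtain ⟨Q⟩ : Nonempty (Sylow 2 ↥(Subgroup.centralizer ({z} : Set G))) := inferInstance
  have hQcard : Nat.card Q = 2 ^ 7 := by rw [Sylow.card_eq_multiplicity, hfC]
  have hQ'card : Nat.card ((Q : Subgroup ↥(Subgroup.centralizer ({z} : Set G))).map
      (Subgroup.centralizer ({z} : Set G)).subtype) = 2 ^ (Nat.card G).factorization 2 := by
    rw [hfG, ← hQcard]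
    exact Subgroup.card_map_of_injective (Subgroup.subtype_injective _)
  have hP₀ : ∀ y ∈ (Sylow.ofCard _ hQ'card : Subgroup G),
      y ∈ Subgroup.centralizer ({z} : Set G) := by
    intro y hy
    have hy' : y ∈ (Q : Subgroup ↥(Subgroup.centralizer ({z} : Set G))).map
      (Subgroup.centralizer ({z} : Set G)).subtype := hy
    obtain ⟨u, _, rfl⟩ := Subgroup.mem_map.mp hy'
    exact u.2
  have main : ∀ a : G, orderOf a = 2 → IsConj a z := by
    intro a ha
    have haa : a * a = 1 := by
      have := pow_orderOf_eq_one a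
      rw [ha, pow_two] at this
      exact this
    have ha1 : a ≠ 1 := by
      intro h
      rw [h, orderOf_one] at ha
      omega
    have hpa : IsPGroup 2 (Subgroup.zpowers a) := by
      apply IsPGroup.of_card (n := 1)
      rw [Nat.card_zpowers, ha, pow_one]
    obtain ⟨P, hP⟩ := hpa.exists_le_sylow
    obtain ⟨g, hg⟩ := MulAction.exists_smul_eq G P (Sylow.ofCard _ hQ'card)
    have haP : a ∈ (P : Subgroup G) := hP (Subgroup.mem_zpowers a)
    have hmem : g * a * g⁻¹ ∈ (Sylow.ofCard _ hQ'card : Subgroup G) := by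
      rw [← hg, Sylow.coe_subgroup_smul]
      have := Subgroup.smul_mem_pointwise_smul a (MulAut.conj g) (P : Subgroup G) haP
      simpa [MulAut.smul_def] using this
    have hC' := hP₀ _ hmem
    have h1 : IsConj (g * a * g⁻¹) z := by
      refine key ⟨g * a * g⁻¹, hC'⟩ ?_ ?_
      · intro h
        apply ha1
        have h' : g * a * g⁻¹ = 1 := h
        calc a = g⁻¹ * (g * a * g⁻¹) * g := by group
          _ = 1 := by rw [h']; group
      · show g * a * g⁻¹ * (g * a * g⁻¹) = 1
        calc g * a * g⁻¹ * (g * a * g⁻¹) = g * (a * a) * g⁻¹ := by group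
          _ = 1 := by rw [haa]; group
    exact (isConj_iff.mpr ⟨g, rfl⟩).trans h1
  intro a b ha hb
  exact (main a ha).trans (main b hb).symm

end Cfsg.Agent.Helper80
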