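import Cfsg.Agent.Helper71.McLGDefs

/-!
# The transvection system of a group of linear automorphisms (piece M of S5075)

For a subgroup `G` of `V ≃ₗ[ZMod p] V` the relation `TV G φ v` ("the transvection
`x ↦ x + φ x • v` lies in `G`") satisfies all the axioms of an abstract transvection system.
-/

set_option autoImplicit false

namespace Cfsg.Agent.Helper80.McL

open Module Cfsg.Agent.Helper71.McL

variable {p : ℕ} [Fact p.Prime] {V : Type*} [AddCommGroup V] [Module (ZMod p) V]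

/-- The inverse of a transvection. -/
theorem tvM_inv {g : V ≃ₗ[ZMod p] V} {φ : Dual (ZMod p) V} {v : V} (h0 : φ v = 0)
    (hg : ∀ x : V, g x = x + φ x • v) (x : V) : g⁻¹ x = x - φ x • v := by
  have h1 : g (x - φ x • v) = x := by
    rw [hg, map_sub, map_smul, h0, smul_zero, sub_zero]
    abel
  have h2 : g⁻¹ (g (x - φ x • v)) = x - φ x • v := g.symm_apply_apply _
  rw [h1] at h2
  exact h2

/-- Powers of a transvection. -/
theorem tvM_pow {g : V ≃ₗ[ZMod p] V} {φ : Dual (ZMod p) V} {v : V} (h0 : φ v = 0)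
    (hg : ∀ x : V, g x = x + φ x • v) (n : ℕ) (x : V) :
    (g ^ n) x = x + ((n : ZMod p) * φ x) • v := by
  induction n with
  | zero =>
    rw [pow_zero, Nat.cast_zero, zero_mul, zero_smul, add_zero]
    rfl
  | succ n ih =>
    rw [pow_succ']
    change g ((g ^ n) x) = _
    rw [ih, hg, map_add, map_smul, h0, smul_zero, add_zero, Nat.cast_succ]
    module

theorem tvM_zero_left (G : Subgroup (V ≃ₗ[ZMod p] V)) (v : V) : TV G 0 v := by
  refine ⟨LinearMap.zero_apply v, 1, G.one_mem, ?_⟩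
  intro x
  rw [LinearMap.zero_apply, zero_smul, add_zero]
  rfl

theorem tvM_zero_right (G : Subgroup (V ≃ₗ[ZMod p] V)) (φ : Dual (ZMod p) V) : TV G φ 0 := by
  refine ⟨map_zero φ, 1, G.one_mem, ?_⟩
  intro x
  rw [smul_zero, add_zero]
  rfl

theorem tvM_add_left (G : Subgroup (V ≃ₗ[ZMod p] V)) {φ φ' : Dual (ZMod p) V} {v : V}
    (h : TV G φ v) (h' : TV G φ' v) : TV G (φ + φ') v := by
  obtain ⟨h0, g, hgG, hg⟩ := h
  obtain ⟨h0', g', hgG', hg'⟩ := h'
  refine ⟨by rw [LinearMap.add_apply, h0, h0', add_zero], g * g', G.mul_mem hgG hgG', ?_⟩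
  intro x
  change g (g' x) = _
  rw [hg', hg, map_add, map_smul, h0, smul_zero, add_zero, LinearMap.add_apply]
  module

theorem tvM_add_right (G : Subgroup (V ≃ₗ[ZMod p] V)) {φ : Dual (ZMod p) V} {v v' : V}
    (h : TV G φ v) (h' : TV G φ v') : TV G φ (v + v') := by
  obtain ⟨h0, g, hgG, hg⟩ := h
  obtain ⟨h0', g', hgG', hg'⟩ := h'
  refine ⟨by rw [map_add, h0, h0', add_zero], g * g', G.mul_mem hgG hgG', ?_⟩
  intro x
  change g (g' x) = _
  rw [hg', hg, map_add, map_smul, h0', smul_zero, add_zero]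
  module

theorem tvM_smul_left (G : Subgroup (V ≃ₗ[ZMod p] V)) (c : ZMod p) {φ : Dual (ZMod p) V}
    {v : V} (h : TV G φ v) : TV G (c • φ) v := by
  obtain ⟨h0, g, hgG, hg⟩ := h
  refine ⟨by rw [LinearMap.smul_apply, h0, smul_zero], g ^ c.val, G.pow_mem hgG _, ?_⟩
  intro x
  rw [tvM_pow h0 hg, ZMod.natCast_zmod_val, LinearMap.smul_apply, smul_eq_mul]

theorem tvM_smul_right (G : Subgroup (V ≃ₗ[ZMod p] V)) (c : ZMod p) {φ : Dual (ZMod p) V}
    {v : V} (h : TV G φ v) : TV G φ (c • v) := by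
  obtain ⟨h0, g, hgG, hg⟩ := h
  refine ⟨by rw [map_smul, h0, smul_zero], g ^ c.val, G.pow_mem hgG _, ?_⟩
  intro x
  rw [tvM_pow h0 hg, ZMod.natCast_zmod_val]
  module

theorem tvM_conj (G : Subgroup (V ≃ₗ[ZMod p] V)) {φ ψ : Dual (ZMod p) V} {v w : V}
    (h : TV G φ v) (h' : TV G ψ w) : TV G (φ - φ w • ψ) (v + ψ v • w) := by
  obtain ⟨h0, g, hgG, hg⟩ := h
  obtain ⟨h0', k, hkG, hk⟩ := h'
  refine ⟨?_, k * g * k⁻¹, G.mul_mem (G.mul_mem hkG hgG) (G.inv_mem hkG), ?_⟩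
  · simp only [LinearMap.sub_apply, LinearMap.smul_apply, map_add, map_smul, smul_eq_mul, h0,
      h0', mul_zero, add_zero, zero_add]
    ring
  · intro x
    change k (g (k⁻¹ x)) = _
    rw [tvM_inv h0' hk, hg, hk]
    simp only [LinearMap.sub_apply, LinearMap.smul_apply, map_add, map_sub, map_smul,
      smul_eq_mul, h0, h0', mul_zero, add_zero, zero_add, sub_zero]
    module

theorem tvM_prod (G : Subgroup (V ≃ₗ[ZMod p] V)) {φ₁ φ₂ φ₃ φ₄ : Dual (ZMod p) V}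
    {v₁ v₂ v₃ v₄ : V} (h1 : TV G φ₁ v₁) (h2 : TV G φ₂ v₂) (h3 : TV G φ₃ v₃)
    (h12 : φ₁ v₂ = 0) (h44 : φ₄ v₄ = 0) (h34 : φ₃ v₄ = 0)
    (hid : ∀ x : V, φ₁ x • v₁ + φ₂ x • v₂ = φ₃ x • v₃ + φ₄ x • v₄) : TV G φ₄ v₄ := by
  obtain ⟨_, g₁, hg₁G, hg₁⟩ := h1
  obtain ⟨_, g₂, hg₂G, hg₂⟩ := h2
  obtain ⟨h03, g₃, hg₃G, hg₃⟩ := h3
  refine ⟨h44, g₃⁻¹ * g₁ * g₂, G.mul_mem (G.mul_mem (G.inv_mem hg₃G) hg₁G) hg₂G, ?_⟩
  intro x
  change g₃⁻¹ (g₁ (g₂ x)) = _
  have e1 : g₁ (g₂ x) = x + φ₃ x • v₃ + φ₄ x • v₄ := by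
    rw [hg₂, hg₁, map_add, map_smul, h12, smul_zero, add_zero, add_assoc, add_assoc,
      ← hid x]
    abel
  rw [e1, tvM_inv h03 hg₃]
  simp only [map_add, map_smul, smul_eq_mul, h03, h34, mul_zero, add_zero]
  abel

theorem tvM_neg (G : Subgroup (V ≃ₗ[ZMod p] V)) {φ ψ χ : Dual (ZMod p) V} {v w u : V}
    (h : TV G φ v) (h' : TV G ψ w) (ha : φ w ≠ 0) (hb : ψ v ≠ 0) (hχ : TV G χ u) :
    TV G (χ - (2 * χ v / ψ v) • ψ - (2 * χ w / φ w) • φ)
      (u - (2 * ψ u / ψ v) • v - (2 * φ u / φ w) • w) := by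
  obtain ⟨h0, A, hAG, hA⟩ := h
  obtain ⟨_, B, hBG, hB⟩ := tvM_smul_left G (-(φ w * ψ v)⁻¹) h'
  have h0' : ψ w = 0 := h'.1
  obtain ⟨hχ0, g, hgG, hg⟩ := hχ
  -- the two coordinate functionals of `n = A * B * A`
  obtain ⟨α, hα⟩ : ∃ α : Dual (ZMod p) V, α = φ - (ψ v)⁻¹ • ψ := ⟨_, rfl⟩
  obtain ⟨β, hβ⟩ : ∃ β : Dual (ZMod p) V, β = (-(φ w * ψ v)⁻¹) • (ψ + ψ v • φ) := ⟨_, rfl⟩
  have hαx : ∀ x : V, α x = φ x - (ψ v)⁻¹ * ψ x := by
    intro x
    rw [hα, LinearMap.sub_apply, LinearMap.smul_apply, smul_eq_mul]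
  have hβx : ∀ x : V, β x = -(φ w * ψ v)⁻¹ * (ψ x + ψ v * φ x) := by
    intro x
    rw [hβ, LinearMap.smul_apply, LinearMap.add_apply, LinearMap.smul_apply, smul_eq_mul,
      smul_eq_mul]
  have hαv : α v = -1 := by
    rw [hαx, h0, inv_mul_cancel₀ hb, zero_sub]
  have hαw : α w = φ w := by
    rw [hαx, h0', mul_zero, sub_zero]
  have hβv : β v = -(φ w)⁻¹ := by
    rw [hβx, h0, mul_zero, add_zero]
    field_simp
  have hβw : β w = -1 := by
    rw [hβx, h0', zero_add]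
    field_simp
  have hn : ∀ x : V, (A * B * A) x = x + α x • v + β x • w := by
    intro x
    change A (B (A x)) = _
    have e1 : B (A x) = x + φ x • v + (-(φ w * ψ v)⁻¹ * (ψ x + ψ v * φ x)) • w := by
      rw [hB, LinearMap.smul_apply, smul_eq_mul, hA, map_add, map_smul, smul_eq_mul,
        mul_comm (φ x) (ψ v)]
    have e2 : φ (B (A x)) = -((ψ v)⁻¹ * ψ x) := by
      rw [e1, map_add, map_add, map_smul, map_smul, h0, smul_zero, add_zero, smul_eq_mul]
      field_simp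
      ring
    rw [hA (B (A x)), e2, e1, hαx, hβx]
    module
  have hnG : A * B * A ∈ G := G.mul_mem (G.mul_mem hAG hBG) hAG
  obtain ⟨n, hn', hnG'⟩ : ∃ n : V ≃ₗ[ZMod p] V, (∀ x : V, n x = x + α x • v + β x • w) ∧
      n ∈ G := ⟨_, hn, hnG⟩
  have hz : ∀ x : V, (n * n) x = x - (2 * ψ x / ψ v) • v - (2 * φ x / φ w) • w := by
    intro x
    change n (n x) = _
    rw [hn' (n x), hn' x]
    simp only [map_add, map_smul, smul_eq_mul, hαv, hαw, hβv, hβw]
    have e1 : α x + (α x + α x * -1 + β x * φ w) = -(2 * ψ x / ψ v) := by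
      rw [hαx, hβx]
      field_simp
      ring
    have e2 : β x + (β x + α x * -(φ w)⁻¹ + β x * -1) = -(2 * φ x / φ w) := by
      rw [hαx, hβx]
      field_simp
      ring
    linear_combination (norm := module) e1 • v + e2 • w
  obtain ⟨z, hz', hzG⟩ : ∃ z : V ≃ₗ[ZMod p] V,
      (∀ x : V, z x = x - (2 * ψ x / ψ v) • v - (2 * φ x / φ w) • w) ∧ z ∈ G :=
    ⟨_, hz, G.mul_mem hnG' hnG'⟩
  have hψz : ∀ x : V, ψ (z x) = -ψ x := by
    intro x
    rw [hz', map_sub, map_sub, map_smul, map_smul, h0', smul_zero, sub_zero, smul_eq_mul]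
    field_simp
    ring
  have hφz : ∀ x : V, φ (z x) = -φ x := by
    intro x
    rw [hz', map_sub, map_sub, map_smul, map_smul, h0, smul_zero, sub_zero, smul_eq_mul]
    field_simp
    ring
  have hzz : ∀ x : V, z (z x) = x := by
    intro x
    rw [hz' (z x), hψz, hφz, hz' x]
    have e1 : 2 * -ψ x / ψ v = -(2 * ψ x / ψ v) := by ring
    have e2 : 2 * -φ x / φ w = -(2 * φ x / φ w) := by ring
    rw [e1, e2]
    module
  have hzinv : ∀ x : V, z⁻¹ x = z x := by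
    intro x
    have h3 : z⁻¹ (z (z x)) = z x := z.symm_apply_apply (z x)
    rw [hzz] at h3
    exact h3
  refine ⟨?_, z * g * z⁻¹, G.mul_mem (G.mul_mem hzG hgG) (G.inv_mem hzG), ?_⟩
  · simp only [LinearMap.sub_apply, LinearMap.smul_apply, map_sub, map_smul, smul_eq_mul, h0,
      h0', hχ0, mul_zero, sub_zero, zero_sub]
    field_simp
    ring
  · intro x
    change z (g (z⁻¹ x)) = _
    rw [hzinv, hg, map_add, map_smul, hzz, ← hz' u]
    congr 2
    rw [hz' x]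
    simp only [LinearMap.sub_apply, LinearMap.smul_apply, map_sub, map_smul, smul_eq_mul]
    ring

/-- **Piece M.** The transvections of a subgroup form an abstract transvection system. -/
theorem exists_tsys (G : Subgroup (V ≃ₗ[ZMod p] V)) :
    ∃ S : TSys (ZMod p) V, ∀ (φ : Dual (ZMod p) V) (v : V), S.Θ φ v ↔ TV G φ v :=
  ⟨{ Θ := TV G
     vanish := fun h => h.1
     zero_left := tvM_zero_left G
     zero_right := tvM_zero_right G
     add_left := fun h h' => tvM_add_left G h h'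
     add_right := fun h h' => tvM_add_right G h h'
     smul_left := fun c _ _ h => tvM_smul_left G c h
     smul_right := fun c _ _ h => tvM_smul_right G c h
     conj := fun h h' => tvM_conj G h h'
     neg := fun h h' ha hb hχ => tvM_neg G h h' ha hb hχ
     prod := fun h1 h2 h3 h12 h44 h34 hid => tvM_prod G h1 h2 h3 h12 h44 h34 hid },
    fun _ _ => Iff.rfl⟩

end Cfsg.Agent.Helper80.McL
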