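import Cfsg.Agent.Helper71.McLGDefs

/-!
# Elements of order `p` with a fixed hyperplane are transvections (piece T of S5075)
-/

set_option autoImplicit false

namespace Cfsg.Agent.Helper80.McL

open Module Cfsg.Agent.Helper71.McL

variable {p : ℕ} [Fact p.Prime] {V : Type*} [AddCommGroup V] [Module (ZMod p) V]

/-- **Piece T.** A linear automorphism of order `p` fixing a hyperplane pointwise is a
transvection. -/
theorem exists_tv_of_order [Finite V] (t : V ≃ₗ[ZMod p] V) (ho : orderOf t = p)
    (hf : finrank (ZMod p) ↥(LinearMap.ker ((t : V →ₗ[ZMod p] V) - LinearMap.id)) + 1 =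
      finrank (ZMod p) V) :
    ∃ (φ : Dual (ZMod p) V) (v : V), φ v = 0 ∧ φ ≠ 0 ∧ v ≠ 0 ∧ ∀ x : V, t x = x + φ x • v := by
  have : Module.Finite (ZMod p) V := Module.Finite.of_finite
  obtain ⟨N, hN⟩ : ∃ N : V →ₗ[ZMod p] V, N = (t : V →ₗ[ZMod p] V) - LinearMap.id := ⟨_, rfl⟩
  rw [← hN] at hf
  have hNx : ∀ x : V, t x = x + N x := by
    intro x
    rw [hN, LinearMap.sub_apply, LinearMap.id_apply, LinearEquiv.coe_coe]
    abel
  have hrk : finrank (ZMod p) (LinearMap.range N) = 1 := by
    have h1 := LinearMap.finrank_range_add_finrank_ker N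
    omega
  obtain ⟨v, hv0, hvspan⟩ := finrank_eq_one_iff'.mp hrk
  have hv0' : (v : V) ≠ 0 := fun h => hv0 (Subtype.ext h)
  have hinj : LinearMap.ker (LinearMap.toSpanSingleton (ZMod p) V (v : V)) = ⊥ := by
    rw [LinearMap.ker_eq_bot']
    intro c hc
    rw [LinearMap.toSpanSingleton_apply] at hc
    exact (smul_eq_zero.mp hc).resolve_right hv0'
  obtain ⟨lam, hlam⟩ := LinearMap.exists_leftInverse_of_injective _ hinj
  have hl : lam (v : V) = 1 := by
    have h1 := LinearMap.congr_fun hlam 1
    rw [LinearMap.comp_apply, LinearMap.toSpanSingleton_apply, one_smul,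
      LinearMap.id_apply] at h1
    exact h1
  have hφ : ∀ x : V, N x = (lam.comp N) x • (v : V) := by
    intro x
    obtain ⟨c, hc⟩ := hvspan ⟨N x, LinearMap.mem_range_self N x⟩
    have hc' : c • (v : V) = N x := congrArg Subtype.val hc
    rw [LinearMap.comp_apply, ← hc', map_smul, hl, smul_eq_mul, mul_one]
  have htx : ∀ x : V, t x = x + (lam.comp N) x • (v : V) := by
    intro x
    rw [hNx, ← hφ]
  refine ⟨lam.comp N, (v : V), ?_, ?_, hv0', htx⟩
  · -- `φ v = 0`
    obtain ⟨c, hc⟩ : ∃ c : ZMod p, c = (lam.comp N) (v : V) := ⟨_, rfl⟩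
    rw [← hc]
    have htv : t (v : V) = (1 + c) • (v : V) := by
      rw [htx, ← hc, add_smul, one_smul]
    have hpow : ∀ k : ℕ, (t ^ k) (v : V) = (1 + c) ^ k • (v : V) := by
      intro k
      induction k with
      | zero =>
        rw [pow_zero, pow_zero, one_smul]
        rfl
      | succ k ih =>
        rw [pow_succ']
        change t ((t ^ k) (v : V)) = _
        rw [ih, map_smul, htv, smul_smul, pow_succ]
    have htp : t ^ p = 1 := by
      have h4 := pow_orderOf_eq_one t
      rw [ho] at h4
      exact h4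
    have h1 : (t ^ p) (v : V) = (v : V) := by
      rw [htp]
      rfl
    rw [hpow, ZMod.pow_card, add_smul, one_smul] at h1
    have h2 : c • (v : V) = 0 := by
      have h3 : (v : V) + c • (v : V) = (v : V) + 0 := by rw [h1, add_zero]
      exact add_left_cancel h3
    exact (smul_eq_zero.mp h2).resolve_right hv0'
  · -- `φ ≠ 0`
    intro h0
    have hker : LinearMap.ker N = ⊤ := by
      rw [eq_top_iff]
      intro x _
      rw [LinearMap.mem_ker, hφ, h0, LinearMap.zero_apply, zero_smul]
    rw [hker, finrank_top] at hf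
    omega

end Cfsg.Agent.Helper80.McL
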