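import Mathlib
import Cfsg.Agent.Helper9.OrdTools

/-!
# PIECE TR of CALL S0977 (helper52): a Sylow 3-subgroup of a simple group of order 4320 is
transitive on the 9 cosets it does not fix (helper80)
-/

set_option autoImplicit false
set_option linter.unusedSectionVars false

namespace Cfsg.Agent.Helper80

variable {G : Type*} [Group G] [Finite G]

/-- Fixed points of an element of `q`-power order: `|X| ≡ |Fix(s)|` modulo `q`. -/
theorem o4320TR_card_fixedBy_modEq {X : Type*} [MulAction G X] [Finite X] {q k : ℕ}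
    [Fact q.Prime] (s : G) (hs : s ^ q ^ k = 1) :
    Nat.card X ≡ Nat.card (MulAction.fixedBy X s) [MOD q] := by
  classical
  have : Fintype X := Fintype.ofFinite X
  let f : Function.End X := fun v => s • v
  have hpow : ∀ n : ℕ, f ^ n = fun v => s ^ n • v := by
    intro n
    induction n with
    | zero =>
      rw [pow_zero]
      funext v
      rw [pow_zero, one_smul]
      rfl
    | succ n ih =>
      rw [pow_succ, ih]
      funext v
      show s ^ n • (s • v) = s ^ (n + 1) • v
      rw [pow_succ, mul_smul]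
  have hf : f ^ q ^ k = 1 := by
    rw [hpow, hs]
    funext v
    rw [one_smul]
    rfl
  have h := Equiv.Perm.card_fixedPoints_modEq (f := f) hf
  rw [Nat.card_eq_fintype_card]
  have h2 : Nat.card (MulAction.fixedBy X s) = Fintype.card (Function.fixedPoints f) := by
    rw [← Nat.card_eq_fintype_card]
    rfl
  rw [h2]
  exact h

/-- The stabiliser in `Q` of a non-fixed point `z`, whose orbit misses `w`, has index `3`. -/
theorem o4320TR_index_stab (M : Subgroup G) (hM : M.index = 10)
    (Q : Sylow 3 G) (hQ : Nat.card (Q : Subgroup G) = 27) (a : G ⧸ M)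
    (ha : ∀ q ∈ (Q : Subgroup G), q • a = a)
    (hfix : ∀ x : G ⧸ M, (∀ q ∈ (Q : Subgroup G), q • x = x) → x = a)
    (z w : G ⧸ M) (hz : z ≠ a) (hw : w ≠ a) (hzw : ∀ q ∈ (Q : Subgroup G), q • z ≠ w) :
    (MulAction.stabilizer (Q : Subgroup G) z).index = 3 := by
  have hdvd : (MulAction.stabilizer (Q : Subgroup G) z).index ∣ 27 := by
    rw [← hQ]
    exact Subgroup.index_dvd_card _
  have hne1 : (MulAction.stabilizer (Q : Subgroup G) z).index ≠ 1 := by
    intro h
    rw [Subgroup.index_eq_one] at h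
    apply hz
    apply hfix
    intro q hq
    have h1 : (⟨q, hq⟩ : (Q : Subgroup G)) ∈ MulAction.stabilizer (Q : Subgroup G) z := by
      rw [h]
      exact Subgroup.mem_top _
    exact MulAction.mem_stabilizer_iff.mp h1
  have hle : (MulAction.stabilizer (Q : Subgroup G) z).index ≤ 8 := by
    rw [MulAction.index_stabilizer]
    have hsub : MulAction.orbit (Q : Subgroup G) z ⊆ ({a, w} : Set (G ⧸ M))ᶜ := by
      rintro _ ⟨q, rfl⟩
      simp only [Set.mem_compl_iff, Set.mem_insert_iff, Set.mem_singleton_iff, not_or]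
      constructor
      · intro h
        apply hz
        have h1 : (q : G) • z = a := h
        have h2 : z = (q : G)⁻¹ • a := by rw [← h1, inv_smul_smul]
        rw [h2]
        exact ha _ (inv_mem q.2)
      · exact hzw q q.2
    calc (MulAction.orbit (Q : Subgroup G) z).ncard
        ≤ (({a, w} : Set (G ⧸ M))ᶜ).ncard := Set.ncard_le_ncard hsub (Set.toFinite _)
      _ = 8 := by
        rw [Set.ncard_compl, Set.ncard_pair (Ne.symm hw), ← Subgroup.index_eq_card, hM]
  generalize (MulAction.stabilizer (Q : Subgroup G) z).index = n at *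
  interval_cases n <;> omega

/-- PIECE TR of CALL S0977. -/
theorem o4320_sylow3_trans [IsSimpleGroup G] (hG : Nat.card G = 4320)
    (M : Subgroup G) (hM : M.index = 10)
    (hnc : ∀ g : G, Nat.card (MulAction.fixedBy (G ⧸ M) g) ≠ 7)
    (Q : Sylow 3 G) (a : G ⧸ M) (ha : ∀ q ∈ (Q : Subgroup G), q • a = a)
    (hfix : ∀ x : G ⧸ M, (∀ q ∈ (Q : Subgroup G), q • x = x) → x = a) :
    ∀ x y : G ⧸ M, x ≠ a → y ≠ a → ∃ q ∈ (Q : Subgroup G), q • x = y := by
  classical
  intro x y hx hy
  by_contra hcon
  push Not at hcon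
  have hQ : Nat.card (Q : Subgroup G) = 27 :=
    Helper9.OrdTools.sylow_card 3 160 (by rw [hG]; norm_num) (by norm_num) Q
  have hMtop : M ≠ ⊤ := by
    intro h
    rw [h, Subgroup.index_top] at hM
    omega
  have hcon' : ∀ q ∈ (Q : Subgroup G), q • y ≠ x := by
    intro q hq h
    apply hcon q⁻¹ (inv_mem hq)
    rw [← h, inv_smul_smul]
  have hix := o4320TR_index_stab M hM Q hQ a ha hfix x y hx hy hcon
  have hiy := o4320TR_index_stab M hM Q hQ a ha hfix y x hy hx hcon'
  have hmin : (Nat.card (Q : Subgroup G)).minFac = 3 := by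
    rw [hQ]
    norm_num
  have hnx : (MulAction.stabilizer (Q : Subgroup G) x).Normal :=
    Subgroup.normal_of_index_eq_minFac_card (by rw [hix, hmin])
  have hny : (MulAction.stabilizer (Q : Subgroup G) y).Normal :=
    Subgroup.normal_of_index_eq_minFac_card (by rw [hiy, hmin])
  have hT : MulAction.stabilizer (Q : Subgroup G) x ⊓ MulAction.stabilizer (Q : Subgroup G) y
      ≠ ⊥ := by
    intro h
    have h1 := Subgroup.index_inf_le (H := MulAction.stabilizer (Q : Subgroup G) x)
      (K := MulAction.stabilizer (Q : Subgroup G) y)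
    rw [h, Subgroup.index_bot, hQ, hix, hiy] at h1
    omega
  obtain ⟨τ, hτ, hτ1⟩ : ∃ τ ∈ MulAction.stabilizer (Q : Subgroup G) x ⊓
      MulAction.stabilizer (Q : Subgroup G) y, τ ≠ 1 := by
    by_contra hall
    push Not at hall
    exact hT ((Subgroup.eq_bot_iff_forall _).mpr hall)
  have hτG : (τ : G) ≠ 1 := fun h => hτ1 (Subtype.ext h)
  -- fixed points of `τ`
  have hfa : (τ : G) • a = a := ha τ τ.2
  have hconj : ∀ (z : G ⧸ M), (MulAction.stabilizer (Q : Subgroup G) z).Normal →
      τ ∈ MulAction.stabilizer (Q : Subgroup G) z →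
      ∀ q ∈ (Q : Subgroup G), (τ : G) • (q • z) = q • z := by
    intro z hn hτz q hq
    have h1 := hn.conj_mem τ hτz (⟨q, hq⟩ : (Q : Subgroup G))⁻¹
    have h2 := MulAction.mem_stabilizer_iff.mp h1
    have h3 : (q⁻¹ * (τ : G) * q) • z = z := by
      have h4 : (((⟨q, hq⟩ : (Q : Subgroup G))⁻¹ * τ * (⟨q, hq⟩ : (Q : Subgroup G))⁻¹⁻¹ :
          (Q : Subgroup G)) : G) • z = z := h2
      simpa using h4
    calc (τ : G) • (q • z) = q • ((q⁻¹ * (τ : G) * q) • z) := by
          simp [mul_smul]
      _ = q • z := by rw [h3]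
  have hfx := hconj x hnx hτ.1
  have hfy := hconj y hny hτ.2
  obtain ⟨q, hq, hqx⟩ : ∃ q ∈ (Q : Subgroup G), q • x ≠ x := by
    by_contra h
    push Not at h
    exact hx (hfix x h)
  obtain ⟨r, hr, hry⟩ : ∃ r ∈ (Q : Subgroup G), r • y ≠ y := by
    by_contra h
    push Not at h
    exact hy (hfix y h)
  have hax : a ≠ x := hx.symm
  have haqx : a ≠ q • x := by
    intro h
    apply hx
    have h2 : x = q⁻¹ • a := by rw [h, inv_smul_smul]
    rw [h2]
    exact ha _ (inv_mem hq)
  have hay : a ≠ y := hy.symm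
  have hary : a ≠ r • y := by
    intro h
    apply hy
    have h2 : y = r⁻¹ • a := by rw [h, inv_smul_smul]
    rw [h2]
    exact ha _ (inv_mem hr)
  have hxqx : x ≠ q • x := hqx.symm
  have hxy : x ≠ y := by
    have h := hcon 1 (one_mem _)
    rwa [one_smul] at h
  have hxry : x ≠ r • y := fun h => hcon' r hr h.symm
  have hqxy : q • x ≠ y := hcon q hq
  have hqxry : q • x ≠ r • y := fun h =>
    hcon (r⁻¹ * q) (mul_mem (inv_mem hr) hq) (by rw [mul_smul, h, inv_smul_smul])
  have hyry : y ≠ r • y := hry.symm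
  have h5 : ({a, x, q • x, y, r • y} : Finset (G ⧸ M)).card = 5 := by
    rw [Finset.card_insert_of_notMem (by simp [hax, haqx, hay, hary]),
      Finset.card_insert_of_notMem (by simp [hxqx, hxy, hxry]),
      Finset.card_insert_of_notMem (by simp [hqxy, hqxry]),
      Finset.card_insert_of_notMem (by simp [hyry]), Finset.card_singleton]
  have hsub : (({a, x, q • x, y, r • y} : Finset (G ⧸ M)) : Set (G ⧸ M)) ⊆
      MulAction.fixedBy (G ⧸ M) (τ : G) := by
    intro z hz
    simp only [Finset.coe_insert, Finset.coe_singleton, Set.mem_insert_iff,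
      Set.mem_singleton_iff] at hz
    rw [MulAction.mem_fixedBy]
    rcases hz with rfl | rfl | rfl | rfl | rfl
    · exact hfa
    · have h := hfx 1 (one_mem _)
      rwa [one_smul] at h
    · exact hfx q hq
    · have h := hfy 1 (one_mem _)
      rwa [one_smul] at h
    · exact hfy r hr
  have h5le : 5 ≤ Nat.card (MulAction.fixedBy (G ⧸ M) (τ : G)) := by
    rw [Nat.card_coe_set_eq, ← h5, ← Set.ncard_coe_finset]
    exact Set.ncard_le_ncard hsub (Set.toFinite _)
  have hcard : Nat.card (G ⧸ M) = 10 := by rw [← Subgroup.index_eq_card, hM]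
  have hle10 : Nat.card (MulAction.fixedBy (G ⧸ M) (τ : G)) ≤ 10 := by
    rw [← hcard]
    exact Finite.card_subtype_le _
  have hne10 : Nat.card (MulAction.fixedBy (G ⧸ M) (τ : G)) ≠ 10 := by
    intro h
    apply hτG
    have huniv : MulAction.fixedBy (G ⧸ M) (τ : G) = Set.univ := by
      rw [Set.eq_univ_iff_ncard, ← Nat.card_coe_set_eq, h, hcard]
    apply Helper9.OrdTools.toPermHom_injective M hMtop
    rw [map_one]
    ext z
    have hz : z ∈ MulAction.fixedBy (G ⧸ M) (τ : G) := by
      rw [huniv]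
      exact Set.mem_univ z
    exact MulAction.mem_fixedBy.mp hz
  have hτpow : (τ : G) ^ 3 ^ 3 = 1 := by
    have h1 : τ ^ Nat.card (Q : Subgroup G) = 1 := pow_card_eq_one'
    rw [hQ] at h1
    have h2 := congrArg Subtype.val h1
    simpa using h2
  have : Fact (Nat.Prime 3) := ⟨Nat.prime_three⟩
  have hmod := o4320TR_card_fixedBy_modEq (X := G ⧸ M) (τ : G) hτpow
  rw [hcard] at hmod
  have h7 : Nat.card (MulAction.fixedBy (G ⧸ M) (τ : G)) = 7 := by
    unfold Nat.ModEq at hmod
    omega
  exact hnc _ h7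

end Cfsg.Agent.Helper80
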