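import Mathlib

/-!
# Orbit counting in relational form (helper80)

* `burnside_quot`: Burnside's orbit-counting lemma for an action given as a bare function,
  restricted to an invariant subset, with the orbit set presented as a `Quot`.
* `card_quot_eq_of_surjective`: transfer of a `Quot` cardinality along a surjection.
* `twisted_fixed_iff`: for an involution `σ` commuting with the action and a normal subgroup of
  odd index acting trivially, `σ (g x) = x ↔ σ x = x ∧ g x = x`.

Everything is in `namespace Cfsg.Agent.Helper80`.
-/

set_option autoImplicit false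

namespace Cfsg.Agent.Helper80

/-- Burnside's lemma in relational form on an invariant subset. -/
theorem burnside_quot {G X : Type*} [Group G] [Fintype G] [Finite X] (act : G → X → X)
    (h1 : ∀ x, act 1 x = x) (hmul : ∀ g h x, act (g * h) x = act g (act h x))
    (Q : X → Prop) (hQ : ∀ g x, Q x → Q (act g x)) :
    Nat.card (Quot (fun x y : {x // Q x} => ∃ g : G, y.1 = act g x.1)) * Nat.card G
      = ∑ g : G, Nat.card {x // Q x ∧ act g x = x} := by
  classical
  let _ : MulAction G {x // Q x} :=
    { smul := fun g x => ⟨act g x.1, hQ g x.1 x.2⟩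
      one_smul := fun x => Subtype.ext (h1 x.1)
      mul_smul := fun g h x => Subtype.ext (hmul g h x.1) }
  have hsmul : ∀ (g : G) (x : {x // Q x}), (g • x).1 = act g x.1 := fun _ _ => rfl
  have : Fintype {x // Q x} := Fintype.ofFinite _
  have : Fintype (Quotient (MulAction.orbitRel G {x // Q x})) := Fintype.ofFinite _
  have key := MulAction.sum_card_fixedBy_eq_card_orbits_mul_card_group G {x // Q x}
  have e1 : Nat.card (Quot (fun x y : {x // Q x} => ∃ g : G, y.1 = act g x.1))
      = Fintype.card (Quotient (MulAction.orbitRel G {x // Q x})) := by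
    rw [← Nat.card_eq_fintype_card]
    apply Nat.card_congr
    refine Quot.congrRight ?_
    intro a b
    constructor
    · rintro ⟨g, hg⟩
      apply (MulAction.orbitRel G {x // Q x}).symm'
      rw [MulAction.orbitRel_apply, MulAction.mem_orbit_iff]
      exact ⟨g, Subtype.ext (by rw [hsmul, hg])⟩
    · intro h
      have h' := (MulAction.orbitRel G {x // Q x}).symm' h
      rw [MulAction.orbitRel_apply, MulAction.mem_orbit_iff] at h'
      obtain ⟨g, hg⟩ := h'
      exact ⟨g, by rw [← hg, hsmul]⟩
  rw [e1, Nat.card_eq_fintype_card, ← key]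
  refine Finset.sum_congr rfl ?_
  intro g _
  rw [← Nat.card_eq_fintype_card]
  apply Nat.card_congr
  refine (Equiv.subtypeEquivRight ?_).trans
    (Equiv.subtypeSubtypeEquivSubtypeInter Q (fun x => act g x = x))
  intro x
  rw [MulAction.mem_fixedBy]
  constructor
  · intro h
    have := congrArg Subtype.val h
    rwa [hsmul] at this
  · intro h
    exact Subtype.ext (by rw [hsmul, h])

/-- Transfer of a `Quot` cardinality along a surjection compatible with the relations. -/
theorem card_quot_eq_of_surjective {α β : Type*} (r : α → α → Prop) (s : β → β → Prop)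
    (hs : Equivalence s) (f : α → β) (hf : Function.Surjective f)
    (h : ∀ x y, r x y ↔ s (f x) (f y)) : Nat.card (Quot r) = Nat.card (Quot s) := by
  apply Nat.card_congr
  refine Equiv.ofBijective (Quot.map f (fun a b hab => (h a b).1 hab)) ⟨?_, ?_⟩
  · intro a b
    induction a using Quot.ind with
    | _ a =>
    induction b using Quot.ind with
    | _ b =>
    intro hab
    have h1 : Quot.mk s (f a) = Quot.mk s (f b) := hab
    have h2 : s (f a) (f b) := hs.eqvGen_iff.mp (Quot.eqvGen_exact h1)
    exact Quot.sound ((h a b).2 h2)
  · intro b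
    induction b using Quot.ind with
    | _ b =>
    obtain ⟨a, rfl⟩ := hf b
    exact ⟨Quot.mk r a, rfl⟩

/-- If a normal subgroup of odd index acts trivially and `σ` is an involution commuting with the
action, then `σ (g x) = x` iff `x` is fixed by both `σ` and `g`. -/
theorem twisted_fixed_iff {G X : Type*} [Group G] (K : Subgroup G) [K.Normal]
    (hodd : Odd K.index)
    (act : G → X → X) (h1 : ∀ x, act 1 x = x) (hmul : ∀ g h x, act (g * h) x = act g (act h x))
    (hK : ∀ k ∈ K, ∀ x, act k x = x)
    (σ : X → X) (hσ : ∀ x, σ (σ x) = x) (hcomm : ∀ g x, σ (act g x) = act g (σ x))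
    (g : G) (x : X) : σ (act g x) = x ↔ (σ x = x ∧ act g x = x) := by
  constructor
  · intro h
    have h2 : act g x = σ x := by
      have := congrArg σ h
      rwa [hσ] at this
    have h3 : act (g * g) x = x := by
      rw [hmul, h2, ← hcomm, h]
    have h4 : ∀ j : ℕ, act ((g * g) ^ j) x = x := by
      intro j
      induction j with
      | zero => rw [pow_zero, h1]
      | succ j ih => rw [pow_succ, hmul, h3, ih]
    obtain ⟨j, hj⟩ := hodd
    have h5 : act (g ^ K.index) x = x := hK _ (Subgroup.pow_index_mem K g) x
    have h6 : g ^ K.index = g * (g * g) ^ j := by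
      rw [hj, ← pow_two, ← pow_mul, pow_succ']
    rw [h6, hmul, h4] at h5
    exact ⟨by rw [← h2, h5], h5⟩
  · rintro ⟨hx, hg⟩
    rw [hg, hx]

/-- Stabilizers of `g` and `g⁻¹` coincide for a bare-function action. -/
theorem act_inv_eq_iff {G X : Type*} [Group G] (act : G → X → X) (h1 : ∀ x, act 1 x = x)
    (hmul : ∀ g h x, act (g * h) x = act g (act h x)) (g : G) (x : X) :
    act g⁻¹ x = x ↔ act g x = x := by
  constructor
  · intro h
    have := congrArg (act g) h
    rw [← hmul, mul_inv_cancel, h1] at this
    exact this.symm
  · intro h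
    have := congrArg (act g⁻¹) h
    rw [← hmul, inv_mul_cancel, h1] at this
    exact this.symm

end Cfsg.Agent.Helper80
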