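import Cfsg.Agent.Helper85.PiDefs

/-!
# PIECE MAX of CALL S5113 (helper85): a proper subgroup of a `p`-group lies in a normal subgroup of
index `p` (helper80)
-/

set_option autoImplicit false

namespace Cfsg.Agent.Helper80.PiMAX

open Cfsg Cfsg.FusionSystem Cfsg.Agent.Helper85 Cfsg.Agent.Helper88

variable {Ω : Type*} [Group Ω] {S : Subgroup Ω}

theorem pi_exists_max [Finite S] {p : ℕ} [Fact p.Prime] (hS : IsPGroup p S) {T : Subgroup Ω} (hTS : T ≤ S)
    (hne : T ≠ S) : ∃ T₁ : Subgroup Ω, T ≤ T₁ ∧ T₁ ≤ S ∧ (∀ s ∈ S, ∀ t ∈ T₁, s * t * s⁻¹ ∈ T₁) ∧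
      Nat.card S = p * Nat.card T₁ := by
  have hp : p.Prime := Fact.out
  obtain ⟨n, hn⟩ := IsPGroup.iff_card.mp hS
  have hT'p : IsPGroup p (T.subgroupOf S) := hS.to_subgroup _
  obtain ⟨k, hk⟩ := IsPGroup.iff_card.mp hT'p
  have hT'top : T.subgroupOf S ≠ ⊤ := by
    intro h
    rw [Subgroup.subgroupOf_eq_top] at h
    exact hne (le_antisymm hTS h)
  have hlt : Nat.card (T.subgroupOf S) < Nat.card S := by
    refine lt_of_le_of_ne (Subgroup.card_le_card_group _) ?_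
    intro h
    exact hT'top (Subgroup.eq_top_of_card_eq _ h)
  rw [hk, hn] at hlt
  have hkn : k < n := (Nat.pow_lt_pow_iff_right hp.one_lt).mp hlt
  obtain ⟨m, rfl⟩ : ∃ m, n = m + 1 := ⟨n - 1, by omega⟩
  have hdvd : p ^ m ∣ Nat.card S := by
    rw [hn]
    exact pow_dvd_pow p (Nat.le_succ m)
  obtain ⟨K, hKcard, hT'K⟩ :=
    Sylow.exists_subgroup_card_pow_prime_le p hdvd (T.subgroupOf S) hk (by omega)
  have hKidx : K.index = p := by
    have h1 := Subgroup.card_mul_index K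
    rw [hKcard, hn, pow_succ] at h1
    exact Nat.eq_of_mul_eq_mul_left (pow_pos hp.pos m) h1
  have hKn : K.Normal := by
    apply Subgroup.normal_of_index_eq_minFac_card
    rw [hKidx, hn, Nat.Prime.pow_minFac hp (Nat.succ_ne_zero m)]
  refine ⟨K.map S.subtype, ?_, ?_, ?_, ?_⟩
  · intro t ht
    exact Subgroup.mem_map.mpr ⟨⟨t, hTS ht⟩, hT'K (Subgroup.mem_subgroupOf.mpr ht), rfl⟩
  · exact Subgroup.map_subtype_le K
  · intro s hs t ht
    obtain ⟨u, hu, rfl⟩ := Subgroup.mem_map.mp ht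
    exact Subgroup.mem_map.mpr ⟨⟨s, hs⟩ * u * ⟨s, hs⟩⁻¹, hKn.conj_mem u hu ⟨s, hs⟩, rfl⟩
  · rw [Subgroup.card_map_of_injective (Subgroup.subtype_injective S), hKcard, hn, pow_succ, mul_comm]

end Cfsg.Agent.Helper80.PiMAX
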