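import Cfsg.Agent.Helper85.PiDefs

/-!
# PIECE NGROW of CALL S5113 (helper85): normalizers grow in the `p`-group `T` (helper80)
-/

set_option autoImplicit false

namespace Cfsg.Agent.Helper80.PiNGROW

open Cfsg Cfsg.FusionSystem Cfsg.Agent.Helper85 Cfsg.Agent.Helper88

variable {Ω : Type*} [Group Ω] {S : Subgroup Ω}

theorem pi_card_lt_normalizerIn [Finite S] {p : ℕ} [Fact p.Prime] (hS : IsPGroup p S) {T A : Subgroup Ω}
    (hTS : T ≤ S) (hAT : A ≤ T) (hlt : Nat.card A < Nat.card T) :
    A ≤ normalizerIn T A ∧ Nat.card A < Nat.card (normalizerIn T A) := by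
  have hfT : Finite T := Finite.of_injective (Subgroup.inclusion hTS) (Subgroup.inclusion_injective hTS)
  have hTp : IsPGroup p T := hS.to_le hTS
  have hle : A ≤ normalizerIn T A := by
    intro a ha
    exact mem_normalizerIn_iff.mpr ⟨hAT ha, Subgroup.le_normalizer ha⟩
  have hNT : normalizerIn T A ≤ T := fun g hg => (mem_normalizerIn_iff.mp hg).1
  have hfN : Finite (normalizerIn T A) :=
    Finite.of_injective (Subgroup.inclusion hNT) (Subgroup.inclusion_injective hNT)
  have hne : A ≠ T := by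
    rintro rfl
    exact lt_irrefl _ hlt
  obtain ⟨g, hgT, hgN, hgA⟩ := exists_normalizer_of_lt hTp hAT hne
  have hgm : g ∈ normalizerIn T A := mem_normalizerIn_iff.mpr ⟨hgT, hgN⟩
  refine ⟨hle, lt_of_le_of_ne (Subgroup.card_le_of_le hle) ?_⟩
  intro hcard
  have : A = normalizerIn T A := Subgroup.eq_of_le_of_card_ge hle hcard.ge
  exact hgA (this ▸ hgm)

end Cfsg.Agent.Helper80.PiNGROW
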