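import Cfsg.Agent.Helper85.PiDefs

/-!
# PIECE SPLIT of CALL S5113 (helper85): `S = ⟨c⟩ T` for `T` normal of index `p` (helper80)
-/

set_option autoImplicit false

namespace Cfsg.Agent.Helper80.PiSPLIT

open Cfsg Cfsg.FusionSystem Cfsg.Agent.Helper85 Cfsg.Agent.Helper88

variable {Ω : Type*} [Group Ω] {S : Subgroup Ω}

theorem pi_split [Finite S] {p : ℕ} [Fact p.Prime] {T : Subgroup Ω} (hTS : T ≤ S)
    (hnorm : ∀ s ∈ S, ∀ t ∈ T, s * t * s⁻¹ ∈ T) (hidx : Nat.card S = p * Nat.card T) : PiSplit S T := by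
  intro c hcS hcT s hsS
  -- the subgroup `⟨c⟩ T`
  let H : Subgroup Ω :=
    { carrier := {s | ∃ (i : ℤ) (t : Ω), t ∈ T ∧ s = c ^ i * t}
      one_mem' := ⟨0, 1, T.one_mem, by simp⟩
      mul_mem' := by
        rintro _ _ ⟨i, t, ht, rfl⟩ ⟨j, t', ht', rfl⟩
        refine ⟨i + j, c ^ (-j) * t * (c ^ (-j))⁻¹ * t', ?_, ?_⟩
        · exact T.mul_mem (hnorm _ (S.zpow_mem hcS _) t ht) ht'
        · rw [zpow_add, zpow_neg]
          group
      inv_mem' := by
        rintro _ ⟨i, t, ht, rfl⟩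
        refine ⟨-i, c ^ i * t⁻¹ * (c ^ i)⁻¹, hnorm _ (S.zpow_mem hcS _) _ (T.inv_mem ht), ?_⟩
        rw [zpow_neg]
        group }
  have hTH : T ≤ H := fun t ht => ⟨0, t, ht, by simp⟩
  have hcH : c ∈ H := ⟨1, 1, T.one_mem, by simp⟩
  have hHS : H ≤ S := by
    rintro _ ⟨i, t, ht, rfl⟩
    exact S.mul_mem (S.zpow_mem hcS _) (hTS ht)
  have : Finite H := Finite.of_injective (Subgroup.inclusion hHS) (Subgroup.inclusion_injective hHS)
  have : Finite T := Finite.of_injective (Subgroup.inclusion hTS) (Subgroup.inclusion_injective hTS)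
  have hTpos : 0 < Nat.card T := Nat.card_pos
  obtain ⟨k, hk⟩ := Subgroup.card_dvd_of_le hTH
  have hkp : k ∣ p := by
    have h1 : Nat.card H ∣ Nat.card S := Subgroup.card_dvd_of_le hHS
    rw [hk, hidx, mul_comm p] at h1
    exact (Nat.mul_dvd_mul_iff_left hTpos).mp h1
  have hcard : Nat.card S ≤ Nat.card H := by
    rcases (Nat.dvd_prime (Fact.out : p.Prime)).mp hkp with h1 | h1
    · exfalso
      rw [h1, mul_one] at hk
      have : H = T := (Subgroup.eq_of_le_of_card_ge hTH hk.le).symm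
      exact hcT (this ▸ hcH)
    · rw [hk, hidx, h1, mul_comm]
  have hHeq : H = S := Subgroup.eq_of_le_of_card_ge hHS hcard
  have hsH : s ∈ H := hHeq ▸ hsS
  exact hsH

end Cfsg.Agent.Helper80.PiSPLIT
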