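import Cfsg.Agent.Helper85.PiDefs

/-!
# PIECE SYLX of CALL S5113 (helper85): Sylow subgroups of a subgroup containing `O^p(G)` (helper80)
-/

set_option autoImplicit false

namespace Cfsg.Agent.Helper80.PiSYLX

open Cfsg Cfsg.FusionSystem Cfsg.Agent.Helper85 Cfsg.Agent.Helper88

variable {Ω : Type*} [Group Ω] {S : Subgroup Ω}

theorem mem_sylow_smul_iff {G : Type*} [Group G] {p : ℕ} (g : G) (P : Sylow p G) (x : G) :
    x ∈ ((g • P : Sylow p G) : Subgroup G) ↔ g⁻¹ * x * g ∈ (P : Subgroup G) := by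
  rw [Sylow.coe_subgroup_smul, Subgroup.mem_pointwise_smul_iff_inv_smul_mem]
  simp [MulAut.smul_def]

theorem pi_sylow_of_pResidual_le {G : Type*} [Group G] [Finite G] {p : ℕ} [Fact p.Prime] (P : Sylow p G)
    (X : Subgroup G) (hX : pResidual p G ≤ X) :
    ∃ R : Sylow p X, (R : Subgroup X) = (P : Subgroup G).subgroupOf X := by
  obtain ⟨R₀⟩ : Nonempty (Sylow p X) := inferInstance
  obtain ⟨Q, hQ⟩ := (R₀.isPGroup'.map X.subtype).exists_le_sylow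
  obtain ⟨g, hg⟩ := MulAction.exists_smul_eq G P Q
  obtain ⟨σ, hσ, β, hβ, hgσβ⟩ := exists_sylow_mul_pResidual P g⁻¹
  have hβX : β⁻¹ ∈ X := hX (inv_mem hβ)
  have hgeq : g = β⁻¹ * σ⁻¹ := by
    have : g⁻¹⁻¹ = (σ * β)⁻¹ := by rw [hgσβ]
    rw [inv_inv, mul_inv_rev] at this
    exact this
  refine ⟨(⟨β⁻¹, hβX⟩ : X)⁻¹ • R₀, ?_⟩
  have hPp : IsPGroup p ((P : Subgroup G).subgroupOf X) := P.isPGroup'.comap_subtype
  symm
  apply Sylow.is_maximal' _ hPp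
  intro x hx
  rw [mem_sylow_smul_iff, inv_inv] at hx
  rw [Subgroup.mem_subgroupOf]
  have h1 : ((⟨β⁻¹, hβX⟩ : X) * x * (⟨β⁻¹, hβX⟩ : X)⁻¹ : X).1 ∈
      (R₀ : Subgroup X).map X.subtype := Subgroup.mem_map.mpr ⟨_, hx, rfl⟩
  have h2 := hQ h1
  rw [← hg, mem_sylow_smul_iff, hgeq] at h2
  have h3 : (β⁻¹ * σ⁻¹)⁻¹ * ((⟨β⁻¹, hβX⟩ : X) * x * (⟨β⁻¹, hβX⟩ : X)⁻¹ : X).1 * (β⁻¹ * σ⁻¹) =
      σ * (x : G) * σ⁻¹ := by
    simp only [Subgroup.coe_mul, Subgroup.coe_inv]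
    group
  rw [h3] at h2
  have h4 : (x : G) = σ⁻¹ * (σ * (x : G) * σ⁻¹) * σ := by group
  rw [h4]
  exact mul_mem (mul_mem (inv_mem hσ) h2) hσ

end Cfsg.Agent.Helper80.PiSYLX
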