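import Cfsg.Agent.Helper80.PrincipalLin
import Cfsg.Agent.Helper80.LinExt
import Cfsg.Agent.Helper75.BlockTwist
import Cfsg.Agent.Helper2.Tate
import Cfsg.Agent.Helper2.PResidual
import Cfsg.Agent.Helper2.PGroup
import Cfsg.Agent.S0940

/-!
# The principal block: dimension, Galois action and linear characters (helper80)

* `blockCoeff_principal_one_not_memLocalIdeal`: the coefficient at `1` of the principal block
  idempotent is a local unit (from Külshammer's formula S0940); hence
  `not_dvd_principal_degree_sum`: `(∑_{χ ∈ B₀} χ(1)²)/|P|` is prime to `p` for a Sylow `P`.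
* `sum_eq_sum_fixed_of_iterate_two_pow`: orbit counting modulo `2` for a map of `2`-power order.
* `exists_hom_extension_of_galois`: if `σ` permutes the irreducible characters with `2`-power
  order, preserving the principal `2`-block, degrees and multiplicities of `μ ∈ Hom(P, ℂˣ)`, and
  every `σ`-fixed odd-degree character of the principal block is linear, then `μ` extends to `G`.
* `mem_frattini_of_forall_hom`, `hasNormalPComplement_of_forall_hom_pow`: Tate's criterion via
  extensions of the homomorphisms `P → μ_p`.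

Everything is in `namespace Cfsg.Agent.Helper80`.
-/

set_option autoImplicit false

namespace Cfsg.Agent.Helper80

open Cfsg

open scoped ComplexConjugate

universe u

variable {G : Type u} [Group G]

/-- The coefficient at `1` of the principal block idempotent is not in the local ideal. -/
theorem blockCoeff_principal_one_not_memLocalIdeal [Finite G] {p : ℕ} [Fact p.Prime]
    {M : Ideal AlgInt} (hM : IsPModular p M) :
    ¬ MemLocalIdeal M (blockCoeff (principalBlock M G) 1) := by
  have hp : p.Prime := Fact.out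
  have hMm := hM.2.1
  have h1 : ¬ p ∣ orderOf (1 : G) := by
    rw [orderOf_one]
    exact hp.one_lt.ne' ∘ Nat.dvd_one.mp
  have key := Cfsg.Agent.S0940.result (G := G) p M hM 1 h1
  have hN : Nat.card {xy : G × G // (∃ k : ℕ, orderOf xy.1 = p ^ k) ∧ ¬ p ∣ orderOf xy.2 ∧
      xy.1 * xy.2 = 1} = 1 := by
    rw [Nat.card_eq_one_iff_unique]
    refine ⟨⟨?_⟩, ⟨⟨(1, 1), ⟨0, by simp⟩, by simpa using h1, by simp⟩⟩⟩
    rintro ⟨⟨x, y⟩, ⟨k, hk⟩, hy, hxy⟩ ⟨⟨x', y'⟩, ⟨k', hk'⟩, hy', hxy'⟩
    have aux : ∀ (x y : G) (k : ℕ), orderOf x = p ^ k → ¬ p ∣ orderOf y → x * y = 1 →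
        x = 1 ∧ y = 1 := by
      intro x y k hk hy hxy
      have hyx : y = x⁻¹ := (inv_eq_of_mul_eq_one_right hxy).symm
      rw [hyx, orderOf_inv, hk] at hy
      have hk0 : k = 0 := by
        by_contra hne
        exact hy (dvd_pow_self p hne)
      rw [hk0, pow_zero, orderOf_eq_one_iff] at hk
      refine ⟨hk, ?_⟩
      rw [hyx, hk, inv_one]
    obtain ⟨hx1, hy1⟩ := aux x y k hk hy hxy
    obtain ⟨hx2, hy2⟩ := aux x' y' k' hk' hy' hxy'
    simp only [Subtype.mk.injEq, Prod.mk.injEq]
    exact ⟨hx1.trans hx2.symm, hy1.trans hy2.symm⟩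
  rw [hN] at key
  have hR : ¬ p ∣ Nat.card {y : G // ¬ p ∣ orderOf y} := Helper75.not_dvd_pregCard p G
  intro hmem
  have h2 := Helper77.memLocalIdeal_sub hMm hmem key
  rw [sub_sub_cancel] at h2
  have h3 := Helper77.memLocalIdeal_mul hMm
    (Helper77.memLocalRing_of_isIntegral hMm
      (isIntegral_algebraMap (R := ℤ) (A := ℂ)
        (x := ((Nat.card {y : G // ¬ p ∣ orderOf y} : ℕ) : ℤ)))) h2
  have hR0 : ((Nat.card {y : G // ¬ p ∣ orderOf y} : ℕ) : ℂ) ≠ 0 := by
    intro h0
    apply hR
    have : Nat.card {y : G // ¬ p ∣ orderOf y} = 0 := by exact_mod_cast h0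
    rw [this]
    exact dvd_zero p
  have e : (algebraMap ℤ ℂ) ((Nat.card {y : G // ¬ p ∣ orderOf y} : ℕ) : ℤ)
      * (((1 : ℕ) : ℂ) / ((Nat.card {y : G // ¬ p ∣ orderOf y} : ℕ) : ℂ)) = 1 := by
    simp only [algebraMap_int_eq, eq_intCast, Int.cast_natCast, Nat.cast_one]
    field_simp
  rw [e] at h3
  exact Helper77.not_memLocalIdeal_one hMm h3

/-- For a subgroup `P` of index prime to `p` (e.g. a Sylow `p`-subgroup), a natural number `A`
with `A = (∑_{χ ∈ B₀} χ(1)²)/|P|` is prime to `p`. -/
theorem not_dvd_principal_degree_sum [Fintype G] [Fintype (IrrCharacter G)] {p : ℕ}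
    [Fact p.Prime] {M : Ideal AlgInt} (hM : IsPModular p M)
    [DecidablePred (fun χ : IrrCharacter G => χ ∈ principalBlock M G)] (P : Subgroup G)
    (hP : ¬ p ∣ P.index) (A : ℕ)
    (hA : (A : ℂ) = (Nat.card P : ℂ)⁻¹ * ∑ χ : IrrCharacter G,
      (if χ ∈ principalBlock M G then (χ : G → ℂ) 1 * (χ : G → ℂ) 1 else 0)) : ¬ p ∣ A := by
  intro hdvd
  have hMm := hM.2.1
  apply blockCoeff_principal_one_not_memLocalIdeal (G := G) hM
  have hPne : (Nat.card P : ℂ) ≠ 0 := by exact_mod_cast Nat.card_pos.ne'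
  have hGne : (Nat.card G : ℂ) ≠ 0 := by exact_mod_cast Nat.card_pos.ne'
  have hidx : (P.index : ℂ) ≠ 0 := by
    exact_mod_cast (Subgroup.index_ne_zero_of_finite (H := P))
  have hcard : (Nat.card G : ℂ) = (Nat.card P : ℂ) * (P.index : ℂ) := by
    rw [← Nat.cast_mul, Subgroup.card_mul_index]
  have hs : ∀ S₁ S₂ : ℂ, S₁ = S₂ → ((Nat.card P : ℂ) * (P.index : ℂ))⁻¹ * S₁
      = ((P.index : ℕ) : ℂ)⁻¹ * ((Nat.card P : ℂ)⁻¹ * S₂) := by
    intro S₁ S₂ h
    rw [h]
    field_simp
  have e : blockCoeff (principalBlock M G) 1 = ((P.index : ℕ) : ℂ)⁻¹ * (A : ℂ) := by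
    rw [Helper77.blockCoeff_eq_sum, hA, inv_one, hcard]
    apply hs
    refine Finset.sum_congr rfl fun χ _ => ?_
    by_cases hχ : χ ∈ principalBlock M G
    · rw [if_pos hχ, if_pos hχ]
    · rw [if_neg hχ, if_neg hχ]
  rw [e]
  exact Helper77.memLocalIdeal_mul hMm (Helper77.memLocalRing_natCast_inv hM hP)
    (Helper81.memLocalIdeal_natCast_of_dvd hM hdvd)

/-- Orbit counting modulo `2`: for a map `σ` with `σ^[2^a] = id` on a `σ`-stable finset and a
`σ`-invariant weight with values in `ZMod 2`, the total weight is the weight of the fixed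
points. -/
theorem sum_eq_sum_fixed_of_iterate_two_pow {X : Type*} [DecidableEq X] (w : X → ZMod 2)
    (σ : X → X) (a : ℕ) :
    ∀ S : Finset X, (∀ x ∈ S, σ x ∈ S) → (∀ x ∈ S, σ^[2 ^ a] x = x) →
      (∀ x ∈ S, w (σ x) = w x) →
      ∑ x ∈ S, w x = ∑ x ∈ S.filter (fun x => σ x = x), w x := by
  induction a with
  | zero =>
    intro S _ h1 _
    have : S.filter (fun x => σ x = x) = S := by
      apply Finset.filter_true_of_mem
      intro x hx
      simpa using h1 x hx
    rw [this]
  | succ a ih =>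
    intro S hS h1 hw
    have hiter_mem : ∀ n : ℕ, ∀ x ∈ S, σ^[n] x ∈ S := by
      intro n
      induction n with
      | zero => intro x hx; simpa using hx
      | succ n ihn =>
        intro x hx
        rw [Function.iterate_succ_apply']
        exact hS _ (ihn x hx)
    have hiter_w : ∀ n : ℕ, ∀ x ∈ S, w (σ^[n] x) = w x := by
      intro n
      induction n with
      | zero => intro x _; rfl
      | succ n ihn =>
        intro x hx
        rw [Function.iterate_succ_apply', hw _ (hiter_mem n x hx), ihn x hx]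
    have hττ : ∀ x ∈ S, σ^[2 ^ a] (σ^[2 ^ a] x) = x := by
      intro x hx
      rw [← Function.iterate_add_apply, ← two_mul, ← pow_succ']
      exact h1 x hx
    have hsplit := Finset.sum_filter_add_sum_filter_not S (fun x => σ^[2 ^ a] x = x) w
    have hzero : ∑ x ∈ S.filter (fun x => ¬ σ^[2 ^ a] x = x), w x = 0 := by
      refine Finset.sum_involution (fun x _ => σ^[2 ^ a] x) ?_ ?_ ?_ ?_
      · intro x hx
        rw [Finset.mem_filter] at hx
        rw [hiter_w _ x hx.1]
        exact CharTwo.add_self_eq_zero (w x)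
      · intro x hx _
        rw [Finset.mem_filter] at hx
        exact hx.2
      · intro x hx
        rw [Finset.mem_filter] at hx ⊢
        refine ⟨hiter_mem _ x hx.1, ?_⟩
        rw [hττ x hx.1]
        exact fun h => hx.2 h.symm
      · intro x hx
        rw [Finset.mem_filter] at hx
        exact hττ x hx.1
    rw [hzero, add_zero] at hsplit
    rw [← hsplit]
    have hS' : ∀ x ∈ S.filter (fun x => σ^[2 ^ a] x = x),
        σ x ∈ S.filter (fun x => σ^[2 ^ a] x = x) := by
      intro x hx
      rw [Finset.mem_filter] at hx ⊢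
      refine ⟨hS x hx.1, ?_⟩
      rw [← Function.iterate_succ_apply, Function.iterate_succ_apply', hx.2]
    have h2 := ih (S.filter (fun x => σ^[2 ^ a] x = x)) hS'
      (fun x hx => (Finset.mem_filter.mp hx).2)
      (fun x hx => hw x (Finset.mem_filter.mp hx).1)
    rw [h2, Finset.filter_filter]
    apply Finset.sum_congr _ (fun _ _ => rfl)
    ext x
    simp only [Finset.mem_filter]
    constructor
    · rintro ⟨hx, -, h3⟩
      exact ⟨hx, h3⟩
    · rintro ⟨hx, h3⟩
      exact ⟨hx, Function.iterate_fixed h3 _, h3⟩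

/-- If `σ` has `2`-power order on the irreducible characters, preserves the principal `2`-block,
the degrees and the multiplicities of `μ ∈ Hom(P, ℂˣ)` (`P` a Sylow `2`-subgroup), and every
`σ`-fixed character of odd degree in the principal block is linear, then `μ` extends to `G`. -/
theorem exists_hom_extension_of_galois [Finite G] {M : Ideal AlgInt} (hM : IsPModular 2 M)
    (P : Sylow 2 G) (σ : IrrCharacter G → IrrCharacter G) (a : ℕ)
    (hσa : ∀ χ, σ^[2 ^ a] χ = χ)
    (hσB : ∀ χ, χ ∈ principalBlock M G → σ χ ∈ principalBlock M G)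
    (hσdeg : ∀ χ, charDegree (σ χ : G → ℂ) = charDegree (χ : G → ℂ))
    (μ : (P : Subgroup G) →* ℂˣ)
    (hσμ : ∀ (χ : IrrCharacter G) [Fintype (P : Subgroup G)],
      classInner (fun y : (P : Subgroup G) => (σ χ : G → ℂ) y)
          (fun y : (P : Subgroup G) => ((μ y : ℂˣ) : ℂ))
        = classInner (fun y : (P : Subgroup G) => (χ : G → ℂ) y)
          (fun y : (P : Subgroup G) => ((μ y : ℂˣ) : ℂ)))
    (hlin : ∀ χ ∈ principalBlock M G, σ χ = χ → Odd (charDegree (χ : G → ℂ)) →
      charDegree (χ : G → ℂ) = 1) :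
    ∃ f : G →* ℂˣ, ∀ y : (P : Subgroup G), f (y : G) = μ y := by
  classical
  have : Fact (Nat.Prime 2) := ⟨Nat.prime_two⟩
  have : Fintype G := Fintype.ofFinite G
  have : Fintype (IrrCharacter G) := Fintype.ofFinite _
  have : Fintype (P : Subgroup G) := Fintype.ofFinite _
  have hB := Helper77.principalBlock_isPBlock (G := G) M
  by_contra hne
  have hnat : ∀ χ : IrrCharacter G, ∃ n : ℕ,
      classInner (fun y : (P : Subgroup G) => (χ : G → ℂ) y)
        (fun y : (P : Subgroup G) => ((μ y : ℂˣ) : ℂ)) = (n : ℂ) :=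
    fun χ => Helper3.classInner_isCharacter_nat
      (Helper79.isCharacter_restrict (Helper79.irr_isCharacter χ) (P : Subgroup G))
      (Helper79.isCharacter_of_irr (Helper79.isIrrCharacter_of_hom μ))
  choose m hm using hnat
  have hmσ : ∀ χ, m (σ χ) = m χ := by
    intro χ
    have : (m (σ χ) : ℂ) = (m χ : ℂ) := by rw [← hm, ← hm, hσμ χ]
    exact_mod_cast this
  -- the total
  have hA : ((∑ χ : IrrCharacter G,
      if χ ∈ principalBlock M G then charDegree (χ : G → ℂ) * m χ else 0 : ℕ) : ℂ)
      = (Nat.card (P : Subgroup G) : ℂ)⁻¹ * ∑ χ : IrrCharacter G,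
        (if χ ∈ principalBlock M G then (χ : G → ℂ) 1 * (χ : G → ℂ) 1 else 0) := by
    rw [← sum_block_degree_mul_classInner hM hB (P : Subgroup G) P.2 μ, Nat.cast_sum]
    refine Finset.sum_congr rfl fun χ _ => ?_
    by_cases hχ : χ ∈ principalBlock M G
    · rw [if_pos hχ, if_pos hχ, Nat.cast_mul, hm χ,
        Helper79.isCharacter_one_eq_charDegree (Helper79.irr_isCharacter χ)]
    · rw [if_neg hχ, if_neg hχ, Nat.cast_zero]
  have hodd := not_dvd_principal_degree_sum hM (P : Subgroup G) P.not_dvd_index _ hA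
  apply hodd
  rw [← ZMod.natCast_eq_zero_iff, Nat.cast_sum]
  -- invariance of membership
  have hσB' : ∀ χ, σ χ ∈ principalBlock M G → χ ∈ principalBlock M G := by
    intro χ h
    have hiter : ∀ n : ℕ, ∀ ψ, ψ ∈ principalBlock M G → σ^[n] ψ ∈ principalBlock M G := by
      intro n
      induction n with
      | zero => intro ψ hψ; simpa using hψ
      | succ n ihn =>
        intro ψ hψ
        rw [Function.iterate_succ_apply']
        exact hσB _ (ihn ψ hψ)
    have h1 := hiter (2 ^ a - 1) (σ χ) h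
    rw [← Function.iterate_succ_apply, Nat.succ_eq_add_one,
      Nat.sub_add_cancel (Nat.one_le_two_pow), hσa] at h1
    exact h1
  have hw : ∀ χ ∈ (Finset.univ : Finset (IrrCharacter G)),
      (fun χ : IrrCharacter G => (((if χ ∈ principalBlock M G then
        charDegree (χ : G → ℂ) * m χ else 0 : ℕ) : ℕ) : ZMod 2)) (σ χ)
      = (fun χ : IrrCharacter G => (((if χ ∈ principalBlock M G then
        charDegree (χ : G → ℂ) * m χ else 0 : ℕ) : ℕ) : ZMod 2)) χ := by
    intro χ _
    show (((if σ χ ∈ principalBlock M G then charDegree (σ χ : G → ℂ) * m (σ χ) else 0 : ℕ) : ℕ)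
      : ZMod 2) = (((if χ ∈ principalBlock M G then charDegree (χ : G → ℂ) * m χ else 0 : ℕ)
      : ℕ) : ZMod 2)
    by_cases hχ : χ ∈ principalBlock M G
    · rw [if_pos hχ, if_pos (hσB χ hχ), hσdeg, hmσ]
    · rw [if_neg hχ, if_neg (fun h => hχ (hσB' χ h))]
  rw [sum_eq_sum_fixed_of_iterate_two_pow _ σ a Finset.univ (fun x _ => Finset.mem_univ _)
    (fun χ _ => hσa χ) hw]
  apply Finset.sum_eq_zero
  intro χ hχ
  rw [Finset.mem_filter] at hχ
  by_cases hχB : χ ∈ principalBlock M G
  · rw [if_pos hχB]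
    rcases Nat.even_or_odd (charDegree (χ : G → ℂ)) with hev | hod
    · rw [ZMod.natCast_eq_zero_iff]
      exact Dvd.dvd.mul_right (even_iff_two_dvd.mp hev) _
    · have h1 := hlin χ hχB hχ.2 hod
      obtain ⟨f, rfl⟩ := exists_hom_of_linear χ h1
      have h2 := hm (homIrr f)
      rw [classInner_homIrr_restrict (P : Subgroup G) f μ] at h2
      rw [if_neg (fun h => hne ⟨f, h⟩)] at h2
      have h4 : m (homIrr f) = 0 := by exact_mod_cast h2.symm
      rw [h4, mul_zero, Nat.cast_zero]
  · rw [if_neg hχB, Nat.cast_zero]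

/-- In a finite `p`-group, an element killed by every homomorphism to the `p`-th roots of unity
lies in the Frattini subgroup. -/
theorem mem_frattini_of_forall_hom {P : Type u} [Group P] [Finite P] {p : ℕ} [Fact p.Prime]
    (hP : IsPGroup p P) (z : P) (h : ∀ μ : P →* ℂˣ, μ ^ p = 1 → μ z = 1) : z ∈ frattini P := by
  by_contra hz
  have hcomm : commutator (P ⧸ frattini P) = ⊥ := by
    rw [commutator_def, ← Subgroup.map_top_of_surjective (QuotientGroup.mk' (frattini P))
      (QuotientGroup.mk'_surjective _), ← Subgroup.map_commutator, ← commutator_def, eq_bot_iff]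
    calc Subgroup.map (QuotientGroup.mk' (frattini P)) (commutator P)
        ≤ Subgroup.map (QuotientGroup.mk' (frattini P)) (frattini P) :=
          Subgroup.map_mono (Helper2.commutator_le_frattini_of_isPGroup hP)
      _ = ⊥ := QuotientGroup.map_mk'_self _
  have hz1 : (QuotientGroup.mk' (frattini P) z) ∉ commutator (P ⧸ frattini P) := by
    rw [hcomm, Subgroup.mem_bot, QuotientGroup.mk'_apply, QuotientGroup.eq_one_iff]
    exact hz
  apply hz1
  apply mem_commutator_of_forall_hom
  intro φ
  apply h (φ.comp (QuotientGroup.mk' (frattini P)))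
  ext y
  have h1 : (QuotientGroup.mk' (frattini P)) (y ^ p) = 1 := by
    rw [QuotientGroup.mk'_apply, QuotientGroup.eq_one_iff]
    exact Helper2.pow_mem_frattini_of_isPGroup hP y
  rw [MonoidHom.pow_apply, MonoidHom.comp_apply, ← map_pow, ← map_pow, h1, map_one]
  rfl

/-- Tate's criterion through linear characters: if every homomorphism `P → μ_p` of a Sylow
`p`-subgroup extends to `G`, then `G` has a normal `p`-complement. -/
theorem hasNormalPComplement_of_forall_hom_pow [Finite G] {p : ℕ} [Fact p.Prime] (P : Sylow p G)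
    (h : ∀ μ : (P : Subgroup G) →* ℂˣ, μ ^ p = 1 →
      ∃ f : G →* ℂˣ, ∀ y : (P : Subgroup G), f (y : G) = μ y) :
    HasNormalPComplement p G := by
  have hfr : (P : Subgroup G) ⊓ pResidual p G ≤
      (frattini P).map (P : Subgroup G).subtype := by
    intro z hz
    have hzc : z ∈ commutator G := Helper2.sylow_inf_pResidual_le_commutator P hz
    have hzP : z ∈ (P : Subgroup G) := hz.1
    have hmem : (⟨z, hzP⟩ : (P : Subgroup G)) ∈ frattini (P : Subgroup G) := by
      apply mem_frattini_of_forall_hom P.2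
      intro μ hμ
      obtain ⟨f, hf⟩ := h μ hμ
      rw [← hf ⟨z, hzP⟩]
      exact Helper79.hom_apply_eq_one_of_mem_commutator f hzc
    exact ⟨⟨z, hzP⟩, hmem, rfl⟩
  exact Helper2.hasNormalPComplement_of_inf_pResidual_le_frattini P hfr

end Cfsg.Agent.Helper80
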